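import Cfsg.Agent.H7.HS.Data
import Cfsg.Agent.L0.Leech
import Cfsg.Agent.L0.Cover

/-!
# Kernel computations for the Higman–Sims group on 100 points
-/

set_option autoImplicit false

namespace Cfsg.Agent.H7.HS

open Cfsg.Agent.H4 Cfsg.Agent.H4.Golay Cfsg.Agent.L0.Leech Cfsg.Agent.L0.Cover Equiv

/-- The stabilizer chain. -/
noncomputable abbrev mC : List Level := [mL0, mL1, mL2, mL3, mL4]

theorem ssM : SSOK 10 1023 100 mC :=
  ⟨by decide +kernel, by decide +kernel, SSOK_of_ssChk (by decide +kernel)⟩

theorem validM : ∀ c ∈ gensOf mC, InG 10 1023 (⊤ : Subgroup (Perm (Fin 100))) c := by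
  intro c hc
  simp only [gensOf, mL0, List.mem_cons, List.not_mem_nil, or_false] at hc
  rcases hc with rfl | rfl | rfl | rfl
  · exact permChk_sound (d := cdI) (by norm_num) (by decide +kernel)
  · exact permChk_sound (d := cyI) (by norm_num) (by decide +kernel)
  · exact permChk_sound (d := cu) (by norm_num) (by decide +kernel)
  · exact permChk_sound (d := ce) (by norm_num) (by decide +kernel)

theorem ref5 : force (colF 24 16777216 16777213 100 HS.adj 3 [26, 80, 49, 86, 39])
    (discr 24 16777216 100) = true := by
  decide +kernel

theorem refOK : RefOK 24 16777216 16777213 100 HS.adj 3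
    [(39, 0, 100), (86, 1, 77), (49, 1, 60), (80, 1, 12), (26, 2, 16)] [] :=
  ⟨by norm_num, by decide +kernel, by norm_num, by decide +kernel, by norm_num, by decide +kernel,
    by norm_num, by decide +kernel, by norm_num, by decide +kernel, ref5⟩

/-- The code `c` preserves the graph. -/
noncomputable def gChk (c : ℕ) : Bool :=
  allB (fun i => force (HS.adj.get i) fun a =>
    force (HS.adj.get (Nat.div (app 1023 c (Nat.mul 10 i)) 10)) fun a' =>
      allB (fun j => Nat.beq (Nat.land (Nat.shiftRight a' (Nat.div (app 1023 c (Nat.mul 10 j)) 10)) 1)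
        (Nat.land (Nat.shiftRight a j) 1)) 100) 100

theorem gChk_d : gChk cdd = true := by decide +kernel

theorem gChk_y : gChk cy = true := by decide +kernel

theorem gChk_u : gChk cu = true := by decide +kernel

theorem gChk_e : gChk ce = true := by decide +kernel

theorem gChk_σ : gChk cσ = true := by decide +kernel

theorem aut_d : autChk Nd Hd = true := by decide +kernel

theorem aut_y : autChk Ny Hy = true := by decide +kernel

theorem aut_u : autChk Nu Hu = true := by decide +kernel

theorem aut_e : autChk Ne He = true := by decide +kernel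

theorem PT_spec : allB (fun k => Nat.beq (PT.get k)
    (packN 24 (fun j => dg (XC.get j) k) 100)) 24 = true := by decide +kernel

/-- The products of `u` with all the vectors of the table. -/
noncomputable def rowR (u : ℕ → ℕ) : ℕ := sumN (fun k => Nat.mul (u k) (PT.get k)) 24

theorem dots : force (rowR fun _ => 1) (fun R1 => allB (fun i => force (XC.get i) fun c =>
    force (rowR (dg c)) fun R => force (HS.adj.get i) fun a => force (col 24 16777216 R1 i) fun s =>
      allB (fun j => force (Nat.add (col 24 16777216 R j) 98304) fun x =>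
        force (Nat.mul 64 (Nat.add s (col 24 16777216 R1 j))) fun y =>
          band (Nat.beq (Bool.rec 0 1 (Nat.beq x (Nat.add y 8))) (Nat.land (Nat.shiftRight a j) 1))
            (Nat.beq (Bool.rec 0 1 (Nat.beq x (Nat.add y 32))) (Bool.rec 0 1 (Nat.beq i j)))) 100)
      100) = true := by decide +kernel

theorem XC_spec : allB (fun i => force (XC.get i) fun c =>
    band (inL (dg c) (dg c 24) (Nat.shiftRight c 200))
      (band (Nat.beq (Nat.add (sumN (dg c) 24) (Nat.mul 4 (dg c 23))) 1816)
        (Nat.beq (dg c 23) (dg c 0)))) 100 = true := by decide +kernel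

/-- Weights of code words, and octads through the two special points. -/
noncomputable def octChk (m : ℕ) : Bool :=
  force (pc m) fun p => bor (Nat.beq p 0) (band (Nat.ble 8 p) (bor (Nat.ble 9 p)
    (bor (Nat.beq (Nat.mod (Nat.shiftRight m 23) 2) 0) (bor (Nat.beq (Nat.mod m 2) 0)
      (force (packN 8 (uRow m) 24) fun c => Bool.rec true false (allB (fun i =>
        Bool.rec true false (Nat.beq c (Nat.mod (XC.get i) (Nat.pow 2 192)))) 100))))))

theorem oct_chk : allSpan octChk rows 0 = true := by decide +kernel

theorem subM : subOrbChk 10 1023 mL0 [mL1, mL2, mL3, mL4] [0, 1, 4] mD = true := by decide +kernel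

end Cfsg.Agent.H7.HS
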