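import Cfsg.Agent.H7.Asch.Gen

/-!
# Coordinates on a homocyclic group of order 64
-/

set_option autoImplicit false
set_option maxRecDepth 100000

namespace Cfsg.Agent.H7.HS

open Subgroup Cfsg.Agent.H5

variable {G : Type*} [Group G]

section

variable {B : Type*} [AddCommGroup B]

/-- An additive parametrization. -/
def Hm (E : B → G) : Prop := ∀ v w, E (v + w) = E v * E w

theorem Hm.zero {E : B → G} (h : Hm E) : E 0 = 1 := by simpa using h 0 0

theorem Hm.neg {E : B → G} (h : Hm E) (v : B) : (E v)⁻¹ = E (-v) :=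
  inv_eq_of_mul_eq_one_right (by rw [← h, add_neg_cancel, h.zero])

theorem Hm.comm {E : B → G} (h : Hm E) (v w : B) : E v * E w = E w * E v := by
  rw [← h, ← h, add_comm]

theorem Hm.nsmul {E : B → G} (h : Hm E) (n : ℕ) (v : B) : E (n • v) = E v ^ n := by
  induction n with
  | zero => simpa using h.zero
  | succ n ih => rw [succ_nsmul, h, ih, pow_succ]

theorem Hm.prod {B' : Type*} [AddCommGroup B'] {E : B → G} {E' : B' → G} (h : Hm E) (h' : Hm E')
    (hc : ∀ v w, E v * E' w = E' w * E v) : Hm fun p : B × B' => E p.1 * E' p.2 := fun v w => by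
  show E (v.1 + w.1) * E' (v.2 + w.2) = _
  rw [h, h', mul_assoc, ← mul_assoc (E w.1), hc w.1]
  simp only [mul_assoc]

/-- Conjugation by `g` induces `f` on the coordinates. -/
def Act (E : B → G) (g : G) (f : B → B) : Prop := ∀ v, g * E v * g⁻¹ = E (f v)

theorem Act.mul {E : B → G} {g h : G} {f f' : B → B} (a : Act E g f) (b : Act E h f') :
    Act E (g * h) fun v => f (f' v) := fun v => by
  rw [← a, ← b]; group

theorem Act.inv {E : B → G} {g : G} {f f' : B → B} (a : Act E g f) (h : ∀ v, f (f' v) = v) :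
    Act E g⁻¹ f' := fun v => by
  rw [← h v, ← a, h v]; group

theorem Act.pow {E : B → G} {g : G} {f : B → B} (a : Act E g f) (n : ℕ) :
    Act E (g ^ n) f^[n] := by
  induction n with
  | zero => intro v; simp
  | succ n ih => rw [pow_succ, Function.iterate_succ]; exact ih.mul a

theorem Act.mv {E : B → G} {g : G} {f : B → B} (a : Act E g f) (v : B) :
    g * E v = E (f v) * g := by rw [← a]; group

theorem Act.mv' {E : B → G} {g : G} {f : B → B} (a : Act E g f) (v : B) (x : G) :
    g * (E v * x) = E (f v) * (g * x) := by rw [← mul_assoc, a.mv, mul_assoc]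

theorem Act.congr {E : B → G} {g : G} {f f' : B → B} (a : Act E g f) (h : ∀ v, f v = f' v) :
    Act E g f' := fun v => by rw [a, h]

theorem Hm.act {E : B → G} (h : Hm E) (q : B) : Act E (E q) fun v => v := fun v => by
  rw [h.comm, mul_inv_cancel_right]

theorem ind_nsmul {P : B → Prop} (h0 : P 0) (ha : ∀ v w, P v → P w → P (v + w)) {e : B} (he : P e)
    (n : ℕ) : P (n • e) := by
  induction n with
  | zero => simpa using h0
  | succ n ih => rw [succ_nsmul]; exact ha _ _ ih he

theorem Hm.act_add {E : B → G} (h : Hm E) {g : G} {f : B → B} (hf : ∀ v w, f (v + w) = f v + f w)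
    (v w : B) (a : g * E v * g⁻¹ = E (f v)) (b : g * E w * g⁻¹ = E (f w)) :
    g * E (v + w) * g⁻¹ = E (f (v + w)) := by
  rw [hf, h, h, ← a, ← b]; group

end

/-- The coordinate group. -/
abbrev A : Type := ZMod 4 × ZMod 4 × ZMod 4

/-- The linear map with the given images of the basis vectors. -/
def lin (p q r v : A) : A :=
  (v.1 * p.1 + v.2.1 * q.1 + v.2.2 * r.1, v.1 * p.2.1 + v.2.1 * q.2.1 + v.2.2 * r.2.1,
    v.1 * p.2.2 + v.2.1 * q.2.2 + v.2.2 * r.2.2)

theorem lin_add (p q r v w : A) : lin p q r (v + w) = lin p q r v + lin p q r w := by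
  simp only [lin, Prod.fst_add, Prod.snd_add, Prod.mk_add_mk, Prod.mk.injEq]
  refine ⟨?_, ?_, ?_⟩ <;> ring

theorem lin_zero (p q r : A) : lin p q r 0 = 0 := by simp [lin]

theorem lin_1 (p q r : A) : lin p q r (1, 0, 0) = p := by simp [lin]

theorem lin_2 (p q r : A) : lin p q r (0, 1, 0) = q := by simp [lin]

theorem lin_3 (p q r : A) : lin p q r (0, 0, 1) = r := by simp [lin]

theorem indA {P : A → Prop} (h0 : P 0) (ha : ∀ v w, P v → P w → P (v + w)) (h1 : P (1, 0, 0))
    (h2 : P (0, 1, 0)) (h3 : P (0, 0, 1)) (v : A) : P v := by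
  have : ∀ v : A, v = v.1.val • ((1, 0, 0) : A) + v.2.1.val • ((0, 1, 0) : A) +
      v.2.2.val • ((0, 0, 1) : A) := by decide +kernel
  rw [this v]
  exact ha _ _ (ha _ _ (ind_nsmul h0 ha h1 _) (ind_nsmul h0 ha h2 _)) (ind_nsmul h0 ha h3 _)

theorem Hm.act_lin {E : A → G} (h : Hm E) {g : G} {p q r : A} (h1 : g * E (1, 0, 0) * g⁻¹ = E p)
    (h2 : g * E (0, 1, 0) * g⁻¹ = E q) (h3 : g * E (0, 0, 1) * g⁻¹ = E r) : Act E g (lin p q r) :=
  indA (by simp [lin_zero, h.zero]) (h.act_add (lin_add p q r)) (by rwa [lin_1]) (by rwa [lin_2])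
    (by rwa [lin_3])

/-- `E` gives coordinates on `Q`. -/
structure Co (Q : Subgroup G) (E : A → G) : Prop where
  add : Hm E
  inj : Function.Injective E
  mem : ∀ g, g ∈ Q ↔ ∃ v, E v = g

variable {Q : Subgroup G} {E : A → G}

theorem Co.mem' (h : Co Q E) (v : A) : E v ∈ Q := (h.mem _).mpr ⟨v, rfl⟩

theorem Co.eq_one (h : Co Q E) {v : A} : E v = 1 ↔ v = 0 := by
  rw [← h.add.zero, h.inj.eq_iff]

theorem Co.uniq (h : Co Q E) {g : G} {f f' : A → A} (a : Act E g f) (b : Act E g f') (v : A) :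
    f v = f' v := h.inj ((a v).symm.trans (b v))

theorem Co.fix (h : Co Q E) {g : G} {f : A → A} (a : Act E g f) {v : A} :
    g * E v = E v * g ↔ f v = v := by
  rw [a.mv, mul_left_inj, h.inj.eq_iff]

theorem Co.exists_act (h : Co Q E) {g : G} (hg : g ∈ normalizer (Q : Set G)) :
    ∃ p q r, Act E g (lin p q r) := by
  obtain ⟨p, hp⟩ := (h.mem _).mp (conj_mem_of_mem_normalizer hg (h.mem' (1, 0, 0)))
  obtain ⟨q, hq⟩ := (h.mem _).mp (conj_mem_of_mem_normalizer hg (h.mem' (0, 1, 0)))
  obtain ⟨r, hr⟩ := (h.mem _).mp (conj_mem_of_mem_normalizer hg (h.mem' (0, 0, 1)))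
  exact ⟨p, q, r, h.add.act_lin hp.symm hq.symm hr.symm⟩

theorem Co.norm [Finite G] (h : Co Q E) {g : G} {f : A → A} (a : Act E g f) :
    g ∈ normalizer (Q : Set G) := mem_normalizer_of_conj_mem fun x hx => by
  obtain ⟨v, rfl⟩ := (h.mem _).mp hx
  rw [a]; exact h.mem' _

theorem Co.card (h : Co Q E) : Nat.card Q = 64 := by
  rw [← Nat.card_eq_of_bijective (fun v => (⟨E v, h.mem' v⟩ : Q))
    ⟨fun v w e => h.inj (congrArg Subtype.val e), fun x => by
      obtain ⟨v, e⟩ := (h.mem _).mp x.2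
      exact ⟨v, Subtype.ext e⟩⟩]
  simp

theorem Co.rebase (h : Co Q E) {p q r : A} (hi : ∀ v, v + v = 0 → lin p q r v = 0 → v = 0) :
    Co Q fun v => E (lin p q r v) := by
  have h1 : Function.Injective (lin p q r) := by
    refine (injective_iff_map_eq_zero (AddMonoidHom.mk' _ (lin_add p q r))).mpr fun v hv => ?_
    have h2 : ∀ v : A, v + v + (v + v) = 0 := by decide +kernel
    have h3 : lin p q r v = 0 := hv
    exact hi v (hi _ (h2 v) (by rw [lin_add, h3, add_zero])) h3
  refine ⟨fun v w => by rw [lin_add, h.add], h.inj.comp h1, fun g => (h.mem g).trans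
    ⟨fun ⟨v, e⟩ => ?_, fun ⟨v, e⟩ => ⟨_, e⟩⟩⟩
  obtain ⟨w, rfl⟩ := Finite.surjective_of_injective h1 v
  exact ⟨w, e⟩

/-- The action of an element of order three. -/
def Dm : A → A := lin (1, 0, 0) (0, 0, 1) (0, 3, 3)

theorem Co.rebase_d (h : Co Q E) {d : G} {f : A → A} (hf : ∀ v w, f (v + w) = f v + f w)
    (hd : Act E d f) {p q : A} (h1 : f p = p) (h2 : p + p ≠ 0) (h3 : q + f q + f (f q) = 0)
    (h4 : q + q ≠ 0) : Co Q (fun v => E (lin p q (f q) v)) ∧
      Act (fun v => E (lin p q (f q) v)) d Dm := by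
  have f0 : f 0 = 0 := by simpa using hf 0 0
  have fi : ∀ v, f v = 0 → v = 0 := fun v e => by
    have := hd v
    rw [e, h.add.zero] at this
    exact h.eq_one.mp (by simpa using this)
  have k : ∀ v : A, v + v + (v + v) = 0 := by decide +kernel
  have hc : Co Q fun v => E (lin p q (f q) v) := by
    refine h.rebase fun v hv e => ?_
    have a1 : ∀ v : A, v + v = 0 → ∃ w : A, w.1 = 0 ∧ w + w = 0 ∧ (v = w ∨ v = (1, 0, 0) + (1, 0, 0) + w) ∧
      (w = 0 ∨ w = (0, 1, 0) + (0, 1, 0) ∨ w = (0, 0, 1) + (0, 0, 1) ∨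
        w = (0, 1, 0) + (0, 1, 0) + ((0, 0, 1) + (0, 0, 1))) := by decide +kernel
    obtain ⟨w, -, -, a2, a3⟩ := a1 v hv
    have a4 : f q + f (f q) + f (f (f q)) = 0 := by rw [← hf, ← hf, h3, f0]
    have a5 : lin p q (f q) w + f (lin p q (f q) w) + f (f (lin p q (f q) w)) = 0 := by
      rcases a3 with rfl | rfl | rfl | rfl <;> simp only [lin_zero, lin_add, lin_2, lin_3, hf, f0]
      · simp
      · linear_combination 2 * h3
      · linear_combination 2 * a4
      · linear_combination 2 * h3 + 2 * a4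
    rcases a2 with rfl | rfl
    · rcases a3 with rfl | rfl | rfl | rfl
      · rfl
      all_goals simp only [lin_add, lin_2, lin_3] at e
      · exact absurd e h4
      · exact absurd (fi _ (by rwa [hf])) h4
      · refine absurd (fi _ (fi _ ?_)) h4
        rw [hf, hf]
        linear_combination 2 * h3 - e
    · rw [lin_add, lin_add, lin_1] at e
      have a6 := congrArg f e
      have a7 := congrArg f a6
      simp only [hf, h1, f0] at a6 a7
      exact absurd (by linear_combination e + a6 + a7 - a5 - k p) h2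
  refine ⟨hc, hc.add.act_lin ?_ ?_ ?_⟩
  · simp only [lin_1]; rw [hd, h1]
  · simp only [lin_2, lin_3]; rw [hd]
  · simp only [lin_3]
    rw [hd, show ((0, 3, 3) : A) = (0, 1, 0) + (0, 1, 0) + (0, 1, 0) + ((0, 0, 1) + (0, 0, 1) + (0, 0, 1))
      by decide +kernel]
    simp only [lin_add, lin_2, lin_3]
    congr 1
    linear_combination h3 - k q - k (f q)

end Cfsg.Agent.H7.HS
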