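import Cfsg.Agent.H7.HS.Coord

/-!
# Finite checks with matrices modulo four
-/

set_option autoImplicit false
set_option maxRecDepth 100000
set_option synthInstance.maxSize 100000
set_option synthInstance.maxHeartbeats 400000

namespace Cfsg.Agent.H7.HS

open Equiv

/-- An involution inverting `Dm`. -/
def Se (ε : A) : A → A := lin ε (0, 1, 0) (0, 3, 3)
/-- The action of `s`. -/
def Sm : A → A := lin (3, 0, 0) (0, 1, 0) (0, 3, 3)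
/-- The action of `c`. -/
def Cm : A → A := lin (1, 0, 0) (0, 3, 0) (3, 2, 3)
/-- The action of `x`. -/
def Xm : A → A := lin (1, 0, 0) (1, 3, 2) (0, 0, 3)
/-- The action of `y`. -/
def Ym : A → A := lin (3, 3, 2) (3, 2, 0) (0, 1, 3)

/-- Equality on the basis. -/
def E3 (f g : A → A) : Prop :=
  f (1, 0, 0) = g (1, 0, 0) ∧ f (0, 1, 0) = g (0, 1, 0) ∧ f (0, 0, 1) = g (0, 0, 1)

instance decE3 (f g : A → A) : Decidable (E3 f g) := inferInstanceAs (Decidable (_ ∧ _))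

theorem E3.of {f g : A → A} (h : ∀ v, f v = g v) : E3 f g := ⟨h _, h _, h _⟩

/-- Equality on the involutions. -/
def E2 (f g : A → A) : Prop :=
  f (2, 0, 0) = g (2, 0, 0) ∧ f (0, 2, 0) = g (0, 2, 0) ∧ f (0, 0, 2) = g (0, 0, 2)

instance decE2 (f g : A → A) : Decidable (E2 f g) := inferInstanceAs (Decidable (_ ∧ _))

theorem dec_cR : ∀ q : A, q + q = (0, 2, 0) ∨ q + q = (0, 2, 0) + (2, 0, 0) → q + Dm q + Dm (Dm q) = 0 →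
    E2 (lin (1, 0, 0) q (Dm q)) fun v => v := by decide +kernel

theorem dec_fixD : ∀ v : A, Dm v = v → v = (v.1, 0, 0) := by decide +kernel

theorem dec_s : ∀ p : A, p = (1, 0, 0) ∨ p = (3, 0, 0) → ∀ q : A,
    E3 (fun v => lin p q (Dm (Dm q)) (lin p q (Dm (Dm q)) v)) (fun v => v) →
    E3 (fun v => Dm (lin p q (Dm (Dm q)) (Dm v))) (lin p q (Dm (Dm q))) →
    ∃ a : A, lin p q (Dm (Dm q)) a = a ∧ a + Dm a + Dm (Dm a) = 0 ∧ a + a ≠ 0 := by decide +kernel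

theorem dec_c : ∀ ε : A, ε = (1, 0, 0) ∨ ε = (3, 0, 0) → ∀ p : A, Se ε p = p → ∀ q : A,
    E3 (fun v => lin (1, 0, 0) p q (lin (1, 0, 0) p q v)) (fun v => v) →
    E3 (fun v => Se ε (lin (1, 0, 0) p q v)) (fun v => lin (1, 0, 0) p q (Se ε v)) →
    E3 ((fun v => lin (1, 0, 0) p q (Dm v))^[3]) (fun v => v) →
    ¬ E2 (lin (1, 0, 0) p q) (fun v => v) →
    p = (1, 3, 0) - ε + (2, 0, 0) ∧ (q = (1, 2, 3) ∨ q = (3, 2, 3)) := by decide +kernel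

theorem dec_y : ∀ ε : A, ε = (1, 0, 0) ∨ ε = (3, 0, 0) → ∀ q : A, q + q = (2, 0, 0) →
    lin (1, 0, 0) ((1, 3, 0) - ε + (2, 0, 0)) (3, 2, 3) q = q → ∀ p : A, p + p = (2, 2, 0) →
    ∀ r : A, r + r = (0, 2, 2) →
    E3 (fun v => lin p q r (Se ε v))
      (fun v => lin (1, 0, 0) ((1, 3, 0) - ε + (2, 0, 0)) (3, 2, 3) (lin p q r v)) →
    E3 (fun v => lin p q r (lin (1, 0, 0) ((1, 3, 0) - ε + (2, 0, 0)) (3, 2, 3) v))
      (fun v => Se ε (lin (1, 0, 0) ((1, 3, 0) - ε + (2, 0, 0)) (3, 2, 3) (lin p q r v))) →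
    ε = (3, 0, 0) ∧ (E3 ((lin p q r)^[3]) (fun v => v) → E3 ((fun v => Xm (lin p q r v))^[2]) (fun v => v) →
    E3 ((fun v => Dm (lin p q r v))^[7]) (fun v => v) →
    p = (3, 3, 2) ∧ q = (3, 2, 0) ∧ r = (0, 1, 3)) := by decide +kernel

theorem dec_adj1 : ∀ k : ZMod 4, Sm (k, 0, 0) = (k, 0, 0) → ∀ q : A, Ym (k, 0, 0) = Cm q + q →
    k = 0 ∧ ∃ j : ZMod 4, ∃ z : A, Cm z + q + Ym (j, 0, 0) + -z = 0 := by decide +kernel

theorem dec_adj2 : ∀ q₃ : A, Ym q₃ = q₃ → ∀ q₂ : A, Xm (Ym q₂) = q₂ → ∀ q : A,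
    q + Ym (Cm (-q₂) + q₂) = 0 → q + Ym q = Sm q₃ + -q₃ → ∃ z : A, Cm z = z ∧
      Cm (Sm z) + q + -z = 0 ∧ Xm z + Xm (Ym (Xm z)) + q₂ = 0 ∧ z + Ym z + Ym (Ym z) + q₃ = 0 := by
  decide +kernel

theorem card_bases : ((Finset.univ.filter (fun v : A => v + v = 0) ×ˢ
    Finset.univ.filter (fun v : A => v + v = 0) ×ˢ Finset.univ.filter (fun v : A => v + v = 0)).filter
    fun x => x.1 ≠ 0 ∧ x.2.1 ≠ 0 ∧ x.2.2 ≠ 0 ∧ x.1 + x.2.1 ≠ 0 ∧ x.1 + x.2.2 ≠ 0 ∧ x.2.1 + x.2.2 ≠ 0 ∧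
      x.1 + x.2.1 + x.2.2 ≠ 0).card = 168 := by decide +kernel

/-- A three-cycle. -/
def δ : Perm (Fin 5) := swap 0 1 * swap 1 2

theorem dec_α : ∀ σ : Perm (Fin 5), σ 4 = 4 → σ * σ = 1 → swap 0 1 * σ * (swap 0 1)⁻¹ = σ →
    σ * (δ * σ * δ⁻¹) * (δ * (δ * σ * δ⁻¹) * δ⁻¹) = 1 → σ = 1 ∨ σ = swap 0 1 * swap 2 3 := by
  decide +kernel

theorem dec_even : ∀ l m : ZMod 4, (swap 0 1 * swap 2 3 : Perm (Fin 5)) ^ l.val *
    (δ * (swap 0 1 * swap 2 3) * δ⁻¹) ^ m.val = 1 → l + l = 0 ∧ m + m = 0 := by decide +kernel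

end Cfsg.Agent.H7.HS
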