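import Cfsg.Agent.H7.HS.Model
import Cfsg.Agent.H7.Asch.Gen

/-!
# Identification of a group containing the model of the Higman–Sims group
-/

set_option autoImplicit false
set_option maxRecDepth 100000

namespace Cfsg.Agent.H7.HS

open Cfsg.Agent.H4 Cfsg.Agent.H4.TC Cfsg.Agent.L0.Cover Equiv Cfsg.Agent.H7.Asch Cfsg.Agent.H5

instance instRAw : RA (ap cw) (ml 16) := ⟨ml_rep 16, ml_mem 16⟩

instance instRAi : RA (ap ci) (ml 1) := ⟨ml_rep 1, ml_mem 1⟩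

theorem four_spec : ∀ z ∈ [ml 17, ml 16, ml 17 * ml 16], z * z = 1 ∧ z ≠ 1 ∧ HF z ∧
    z * (ml 3 * ml 10) = ml 3 * ml 10 * z := by
  have h : ∀ (f : ℕ → ℕ) (z : Perm (Fin 100)) [RA f z], band (EE (f ⊙ f) idf) (band (neg (EE f idf))
      (band (hasFix f) (EE (f ⊙ (ap ca ⊙ ap cc)) (ap ca ⊙ ap cc ⊙ f)))) = true →
      z * z = 1 ∧ z ≠ 1 ∧ HF z ∧ z * (ml 3 * ml 10) = ml 3 * ml 10 * z := fun f z _ e => by
    simpa only [band_eq_true, neg_iff, EE_iff, hasFix_iff] using e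
  simp only [List.forall_mem_cons]
  exact ⟨h (ap ct) _ (by decide +kernel), h (ap cw) _ (by decide +kernel),
    h (ap ct ⊙ ap cw) _ (by decide +kernel), by simp⟩

theorem misc_spec : ml 1 * ml 1 = ml 17 ∧ ml 13 * ml 13 = 1 ∧ ml 17 * ml 13 = ml 13 * ml 17 ∧
    ml 3 * ml 10 * (ml 3 * ml 10) = 1 :=
  ⟨EE_iff.mp (show EE (ap ci ⊙ ap ci) (ap ct) = true by decide +kernel),
    EE_iff.mp (show EE (ap cu ⊙ ap cu) idf = true by decide +kernel),
    EE_iff.mp (show EE (ap ct ⊙ ap cu) (ap cu ⊙ ap ct) = true by decide +kernel),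
    EE_iff.mp (show EE (ap ca ⊙ ap cc ⊙ (ap ca ⊙ ap cc)) idf = true by decide +kernel)⟩

variable {G : Type*} [Group G]

theorem dihedral_cj {a b : G} (ha : a * a = 1) (hb : b * b = 1) (k : ℕ) :
    Cj a (a * (a * b) ^ k) ∨ Cj b (a * (a * b) ^ k) := by
  induction k using Nat.twoStepInduction with
  | zero => exact Or.inl (by simpa using Cj.refl a)
  | one => exact Or.inr (by simpa [← mul_assoc, ha] using Cj.refl b)
  | more k ih _ =>
    have e : a * (a * b) ^ (k + 2) = b * a * (a * (a * b) ^ k) * (b * a)⁻¹ := by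
      rw [mul_inv_rev, inv_eq_of_mul_eq_one_left ha, inv_eq_of_mul_eq_one_left hb, pow_succ, pow_succ']
      simp only [← mul_assoc, ha, one_mul, mul_assoc b a a, mul_one]
    rw [e]
    exact ih.imp (·.conj _) (·.conj _)

/-- The letters as elements of the model. -/
noncomputable def mm (a : ℕ) : MM := ⟨ml a, ml_mem a⟩

theorem eq_top_of_emb [Finite G] {φ : MM →* G} (hφ : Function.Injective φ)
    (hC : ∀ x, x * φ (mm 17) = φ (mm 17) * x → ∃ k : MM, (k : Perm (Fin 100)) ∈ H0 ∧ φ k = x)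
    (hZ : ∀ x, x * φ (mm 17) = φ (mm 17) * x →
      x * φ (mm 1) * x⁻¹ = φ (mm 1) ∨ x * φ (mm 1) * x⁻¹ = (φ (mm 1))⁻¹) : φ.range = ⊤ := by
  obtain ⟨m1, m2, m3, m4⟩ := misc_spec
  have n1 : mm 1 * mm 1 = mm 17 := Subtype.ext m1
  have n2 : mm 13 * mm 13 = 1 := Subtype.ext m2
  have n4 : mm 3 * mm 10 * (mm 3 * mm 10) = 1 := Subtype.ext m4
  obtain ⟨t1, t2, -, t4⟩ := four_spec _ (List.mem_cons_self ..)
  have n5 : mm 17 * mm 17 = 1 := Subtype.ext t1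
  have n6 : mm 17 * (mm 3 * mm 10) = mm 3 * mm 10 * mm 17 := Subtype.ext t4
  have sq : ∀ {z : MM}, z * z = 1 → φ z * φ z = 1 := fun h => by rw [← map_mul, h, map_one]
  have hA : ∀ z : MM, z * z = 1 → z ≠ 1 → HF z → ∀ x, x * φ z = φ z * x →
      ∃ m k : MM, (k : Perm (Fin 100)) ∈ H0 ∧ φ (m⁻¹ * k * m) = x := fun z a b c x hx => by
    obtain ⟨m, hm, e⟩ := conj_t z.2 (congrArg Subtype.val a) (fun e => b (Subtype.ext e)) c
    have e' : (⟨m, hm⟩ : MM) * z * (⟨m, hm⟩ : MM)⁻¹ = mm 17 := Subtype.ext e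
    obtain ⟨k, hk, h⟩ := hC (φ ⟨m, hm⟩ * x * (φ ⟨m, hm⟩)⁻¹) (by
      rw [← e', map_mul, map_mul, map_inv]; exact comm_conj hx)
    exact ⟨⟨m, hm⟩, k, hk, by rw [map_mul, map_mul, map_inv, h]; group⟩
  have hU : ∀ z : MM, z * z = 1 → ¬ HF z → ∃ m : MM, m * z * m⁻¹ = mm 13 := fun z a b => by
    obtain ⟨m, hm, e⟩ := conj_u z.2 (congrArg Subtype.val a) b
    exact ⟨⟨m, hm⟩, Subtype.ext e⟩
  obtain ⟨k₀, hk₀⟩ := hU _ n4 not_HF_ac
  have e₀ : φ k₀ * φ (mm 3 * mm 10) * (φ k₀)⁻¹ = φ (mm 13) := by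
    rw [← hk₀, map_mul φ _ k₀⁻¹, map_mul φ k₀, map_inv]
  have F2 : ¬ Cj (φ (mm 17)) (φ (mm 13)) := fun h => by
    obtain ⟨q, hq⟩ := h.trans (Cj.symm ⟨_, e₀⟩)
    have h1 : ∀ z : MM, z * (mm 3 * mm 10) = mm 3 * mm 10 * z →
        q⁻¹ * φ z * q * φ (mm 17) = φ (mm 17) * (q⁻¹ * φ z * q) := fun z hz =>
      comm_of_conj (by rw [hq, ← map_mul, hz, map_mul])
    have h2 : ∀ z : MM, (z : Perm (Fin 100)) ∈ [ml 17, ml 16, ml 17 * ml 16] →
        q⁻¹ * φ z * q * φ (mm 1) * (q⁻¹ * φ z * q)⁻¹ ≠ φ (mm 1) := fun z hz e => by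
      obtain ⟨a, b, c, -⟩ := four_spec _ hz
      obtain ⟨m, k, hk, e'⟩ := hA z (Subtype.ext a) (fun e => b (congrArg Subtype.val e)) c
        (q * φ (mm 1) * q⁻¹) (by
          have := comm_conj (g := q) (conj_eq_iff_comm.1 e)
          simpa [mul_assoc] using this.symm)
      have h3 : k * k = m * (mm 3 * mm 10) * m⁻¹ := by
        have : m⁻¹ * k * m * (m⁻¹ * k * m) = mm 3 * mm 10 := hφ (by
          rw [map_mul, e', ← hq, ← n1, map_mul]; group)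
        rw [← this]; group
      have h4 : (k : Perm (Fin 100)) * k = m * (ml 3 * ml 10) * (m : Perm (Fin 100))⁻¹ :=
        congrArg Subtype.val h3
      have h5 := ((H0_spec hk).2.1 (by
        rw [h4, show ∀ x y : Perm (Fin 100), x * y * x⁻¹ * (x * y * x⁻¹) = x * (y * y) * x⁻¹ from
          fun x y => by group, m4]; group)).conj (m : Perm (Fin 100))⁻¹
      rw [h4] at h5
      exact not_HF_ac (by simpa [mul_assoc] using h5)
    have h3 := fun z hz => (hZ _ (h1 z (Subtype.ext (four_spec _ hz).2.2.2))).resolve_left (h2 z hz)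
    have a := h3 (mm 17) (by simp [mm])
    have b := h3 (mm 16) (by simp [mm])
    refine h2 (mm 17 * mm 16) (by simp [mm]) ?_
    calc _ = q⁻¹ * φ (mm 17) * q * (q⁻¹ * φ (mm 16) * q * φ (mm 1) * (q⁻¹ * φ (mm 16) * q)⁻¹) *
          (q⁻¹ * φ (mm 17) * q)⁻¹ := by rw [map_mul]; group
      _ = (q⁻¹ * φ (mm 17) * q * φ (mm 1) * (q⁻¹ * φ (mm 17) * q)⁻¹)⁻¹ := by rw [b]; group
      _ = _ := by rw [a, inv_inv]
  have hCt : ∀ x, x * φ (mm 17) = φ (mm 17) * x → x ∈ φ.range := fun x hx => by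
    obtain ⟨k, -, e⟩ := hC x hx
    exact ⟨k, e⟩
  have hI : ∀ i ∈ φ.range, i * i = 1 → i ≠ 1 →
      ∃ h ∈ φ.range, h * i * h⁻¹ = φ (mm 17) ∨ h * i * h⁻¹ = φ (mm 13) := by
    rintro _ ⟨z, rfl⟩ a b
    obtain ⟨m, hm, e⟩ := inv_class z.2 (congrArg Subtype.val (hφ (a₁ := z * z) (a₂ := 1) (by simpa)))
      fun e => b (by rw [show z = 1 from Subtype.ext e, map_one])
    refine ⟨φ ⟨m, hm⟩, ⟨_, rfl⟩, ?_⟩
    rw [← map_inv, ← map_mul, ← map_mul]
    exact e.imp (fun e => congrArg φ (Subtype.ext e)) fun e => congrArg φ (Subtype.ext e)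
  have t0 : φ (mm 17) ≠ 1 := fun e => t2 (congrArg Subtype.val (hφ (e.trans (map_one φ).symm)))
  refine eq_top_of_two (sq n5) t0 (sq n2) (fun e => not_HF_u ⟨0, by
    rw [show ml 13 = 1 from congrArg Subtype.val (hφ (e.trans (map_one φ).symm))]; rfl⟩)
    ⟨_, rfl⟩ F2 hCt (fun x hx => ?_) hI
  have c1 : φ (mm 17) * φ (mm 13) = φ (mm 13) * φ (mm 17) := by
    rw [← map_mul, ← map_mul, show mm 17 * mm 13 = mm 13 * mm 17 from Subtype.ext m3]
  obtain ⟨s, hs⟩ : ∃ s, s = x * φ k₀ * φ (mm 17) * (x * φ k₀)⁻¹ := ⟨_, rfl⟩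
  have e₁ : x * φ k₀ * φ (mm 3 * mm 10) * (x * φ k₀)⁻¹ = φ (mm 13) := by
    rw [← conj_eq_iff_comm.2 hx, ← e₀]; group
  have c2 : s * φ (mm 13) = φ (mm 13) * s := by
    rw [hs, ← e₁]
    exact comm_conj (by rw [← map_mul, n6, map_mul])
  have s2 : s * s = 1 := hs ▸ conj_mul_self_eq_one (sq n5) _
  have c3 : ∀ k : ℕ, (φ (mm 17) * s) ^ k * φ (mm 13) = φ (mm 13) * (φ (mm 17) * s) ^ k := fun k =>
    ((Commute.mul_left c1 c2).pow_left k).eq
  have hs' : s ∈ φ.range := by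
    rcases conj_or_central (sq n5) s2 with ⟨-, k, hk⟩ | ⟨k, a, b, c, d⟩
    · obtain ⟨h, hh, e⟩ := hC ((φ (mm 17) * s) ^ k * (x * φ k₀)) (by
        rw [← conj_eq_iff_comm]; nth_rewrite 4 [← hk]; nth_rewrite 4 [hs]; group)
      refine absurd (congrArg Subtype.val (hφ (a₁ := h * (mm 3 * mm 10)) (a₂ := mm 13 * h) ?_))
        (H0_spec hh).1
      rw [map_mul, map_mul φ _ h, e, ← mul_assoc (φ (mm 13)), ← c3, ← e₁]
      group
    obtain ⟨h, hh, e⟩ := hC _ c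
    rw [← e] at a b c d
    have b' : h * h = 1 := hφ (by simpa using b)
    have a' : h ≠ 1 := fun e => a (by rw [e, map_one])
    have c4 : h * mm 13 = mm 13 * h := hφ (by rw [map_mul, map_mul, e, c3])
    rcases ((H0_spec hh).2.2 (congrArg Subtype.val b') fun e => a' (Subtype.ext e)).2
      (congrArg Subtype.val c4) with f | ⟨f, f'⟩ | f
    · obtain ⟨m, k, -, e⟩ := hA h b' a' f s d.symm
      exact ⟨_, e⟩
    · obtain ⟨m, k, -, e⟩ := hA (h * mm 13) (by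
        rw [mul_assoc, ← mul_assoc (mm 13), ← c4, mul_assoc, n2, mul_one, b'])
        (fun e => f (congrArg Subtype.val e)) f' s (by
          rw [map_mul, ← mul_assoc, ← d, mul_assoc, c2, mul_assoc])
      exact ⟨_, e⟩
    · obtain ⟨m, hm⟩ := hU (mm 17 * h) (by
        have : h * mm 17 = mm 17 * h := hφ (by simpa using c)
        rw [mul_assoc, ← mul_assoc h, this, mul_assoc, b', mul_one, n5]) f
      have : Cj (φ (mm 17) * (φ (mm 17) * s) ^ k) (φ (mm 13)) :=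
        ⟨φ m, by rw [← hm, ← e]; simp⟩
      exact absurd ((dihedral_cj (sq n5) s2 k).elim (·.trans this) fun r =>
        (Cj.trans ⟨_, hs.symm⟩ r).trans this) F2
  obtain ⟨h, hh, e | e⟩ := hI s hs' s2 (hs ▸ Cj.ne_one ⟨_, rfl⟩ t0)
  · have := hCt (h * (x * φ k₀)) (by rw [← conj_eq_iff_comm]; nth_rewrite 2 [← e]; rw [hs]; group)
    simpa using mul_mem (mul_mem (inv_mem hh) this) (inv_mem (⟨k₀, rfl⟩ : φ k₀ ∈ φ.range))
  · exact absurd (Cj.trans ⟨_, hs.symm⟩ ⟨h, e⟩) F2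

theorem isoHS_of [Finite G] {g : ℕ → G} (hL : Lett g ivc) (hb : ∀ r ∈ BR, evL g r = 1)
    (hH : Subgroup.centralizer {g 17} = KK g lH)
    (hc : Nat.card (Subgroup.centralizer ({g 17} : Set G)) = 7680)
    (hZ : ∀ x, x * g 17 = g 17 * x → x * g 1 * x⁻¹ = g 1 ∨ x * g 1 * x⁻¹ = (g 1)⁻¹) :
    Spor.IsoHS G := by
  obtain ⟨φ, hφ⟩ := exists_hom hL hb
  have h1 : (KK mm lH).map MM.subtype = H0 := KK_map _ _ _
  have h2 : (KK mm lH).map φ = Subgroup.centralizer {g 17} := by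
    rw [KK_map, hH]; exact congrArg (KK · lH) (funext hφ)
  have h3 : ∀ k : MM, k ∈ KK mm lH ↔ (k : Perm (Fin 100)) ∈ H0 := fun k => by
    rw [← h1]; exact (Subgroup.mem_map_iff_mem MM.subtype_injective).symm
  have h4 := (φ.subgroupMap_surjective (KK mm lH)).bijective_of_nat_card_le (by
    rw [h2, hc, ← card_H0, ← H0, ← h1, Subgroup.card_map_of_injective MM.subtype_injective])
  have h5 : Function.Injective φ := φ.ker_eq_bot_iff.mp (normal_eq_bot inferInstance fun n hn h =>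
    congrArg Subtype.val ((injective_iff_map_eq_one _).mp h4.1 ⟨n, (h3 n).mpr h⟩ (Subtype.ext hn)))
  have e : ∀ a, φ (mm a) = g a := hφ
  have h6 := eq_top_of_emb h5 (fun x hx => by
    rw [e, ← Subgroup.mem_centralizer_singleton_iff, ← h2] at hx
    obtain ⟨k, hk, e⟩ := hx
    exact ⟨k, (h3 k).mp hk, e⟩) (by simpa only [e] using hZ)
  exact ⟨((MulEquiv.ofBijective φ ⟨h5, MonoidHom.range_eq_top.mp h6⟩).symm).trans isoHS.symm⟩

end Cfsg.Agent.H7.HS
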