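import Cfsg.Agent.H7.HS.Chk
import Cfsg.Agent.L0.McLIso

/-!
# The Higman–Sims group of the Prelude as a permutation group on 100 points
-/

set_option autoImplicit false

namespace Cfsg.Agent.H7.HS

open Cfsg.Spor Cfsg.Agent.H4 Cfsg.Agent.H4.Golay Cfsg.Agent.L0.Leech Cfsg.Agent.L0.Cover Equiv Finset
open Cfsg.Agent.L0.McL (dg_lt rec_beq bit_eq dot_vecV dot_vPair dg_mod sum_const24 sum_word
  eq_zero_of_sum vecU_eq)

/-- The model. -/
noncomputable def MM : Subgroup (Perm (Fin 100)) := Grp 10 1023 100 (gensOf mC)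

theorem card_MM : Nat.card MM = 44352000 :=
  (ssM.card (by norm_num) validM).trans (by decide +kernel)

theorem XC_mem (i : Fin 100) : vf (dg (XC.get i)) ∈ leechLattice := by
  have := allB_iff.mp XC_spec i i.2
  rw [force_eq, band_eq_true] at this
  exact inL_sound this.1

/-- The 100 vectors. -/
noncomputable def XV (i : Fin 100) : leechLattice := ⟨_, XC_mem i⟩

theorem col_rowR {u : ℕ → ℕ} (hu : ∀ k, u k < 256) {j : ℕ} (hj : j < 100) :
    col 24 16777216 (rowR u) j = dotN u (dg (XC.get j)) := by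
  have h := allB_iff.mp PT_spec
  simp only [Nat.beq_eq] at h
  have h1 : rowR u = pk 24 100 fun j => dotN u (dg (XC.get j)) := by
    simp only [rowR, dotN, sumN_eq]
    rw [← pk_sum]
    refine sum_congr rfl fun k hk => ?_
    rw [h k (mem_range.mp hk), packN, sumN_eq, pk]
    show u k * _ = _
    rw [mul_sum]
    refine sum_congr rfl fun i _ => ?_
    show u k * (_ <<< (24 * i)) = u k * _ * _
    rw [Nat.shiftLeft_eq, mul_assoc]
  rw [h1]
  refine pk_shift_mod (f := 24) (fun i _ => ?_) hj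
  rw [dotN, sumN_eq]
  calc _ ≤ ∑ _k ∈ range 24, 256 * 256 :=
        sum_le_sum fun k _ => Nat.mul_le_mul (hu k).le (dg_lt _ k).le
    _ < _ := by norm_num

theorem dot_XV (i j : Fin 100) :
    (dotInt (XV i : GolayPt → ℤ) (XV j) = 8 ↔ (HS.adj.get i).testBit j) ∧
      (dotInt (XV i : GolayPt → ℤ) (XV j) = 32 ↔ i = j) := by
  have h := dots
  simp only [force_eq, allB_iff, band_eq_true, Nat.beq_eq, rec_beq, bit_eq] at h
  have h := h i i.2 j j.2
  have h1 : ∀ j : Fin 100, col 24 16777216 (rowR fun _ => 1) j = sumN (dg (XC.get j)) 24 := fun j => by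
    rw [col_rowR (fun _ => by norm_num) j.2, dotN, sumN_eq, sumN_eq]
    exact sum_congr rfl fun k _ => one_mul _
  rw [h1, h1, col_rowR (dg_lt _) j.2] at h
  rw [show dotInt (XV i : GolayPt → ℤ) (XV j) = _ from dot_vf _ _, Fin.ext_iff]
  simp only [Nat.add_eq, Nat.mul_eq] at h
  obtain ⟨h2, h3⟩ := h
  constructor
  · split_ifs at h2 with a b b
    · exact ⟨fun _ => b, fun _ => by omega⟩
    · exact ⟨fun _ => by omega, fun e => absurd e b⟩
  · split_ifs at h3 with a b b
    · exact ⟨fun _ => b, fun _ => by omega⟩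
    · exact ⟨fun _ => by omega, fun e => absurd e b⟩

theorem XV_inj : Function.Injective XV := fun i j h =>
  (dot_XV i j).2.mp (by rw [← h]; exact (dot_XV i i).2.mpr rfl)

theorem dot_vecU' (x : GolayPt → ℤ) : dotInt x vecU' = 4 * (x none - x (some 0)) := by
  have : ∀ q, x q * vecU' q = (if q = none then 4 * x q else 0) - if q = some 0 then 4 * x q else 0 :=
    fun q => by
      rw [vecU']
      split_ifs with a b
      · rw [a] at b; simp at b
      all_goals ring
  simp only [dotInt, this, sum_sub_distrib, sum_ite_eq', mem_univ, if_true]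
  ring

theorem XV_dot (i : Fin 100) : dotInt (XV i : GolayPt → ℤ) vecV = -24 ∧
    dotInt (XV i : GolayPt → ℤ) vecU' = 0 := by
  have := allB_iff.mp XC_spec i i.2
  simp only [force_eq, band_eq_true, Nat.beq_eq, Nat.add_eq, Nat.mul_eq] at this
  obtain ⟨-, h1, h2⟩ := this
  rw [dot_vecV, dot_vecU', show ∑ q, (XV i : GolayPt → ℤ) q = _ from sum_vf _]
  change -(_ + 4 * ((dg (XC.get i) 23 : ℤ) - 64)) = _ ∧
    4 * (((dg (XC.get i) 23 : ℤ) - 64) - ((dg (XC.get i) 0 : ℤ) - 64)) = _
  omega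

/-- The vector with one coordinate `-3` and the others `1`. -/
def vW (p : GolayPt) : GolayPt → ℤ := fun q => 1 - if q = p then 4 else 0

theorem dot_vW (x : GolayPt → ℤ) (p : GolayPt) : dotInt x (vW p) = ∑ q, x q - 4 * x p := by
  simp only [dotInt, vW, mul_sub, sum_sub_distrib, mul_ite, mul_zero, sum_ite_eq', mem_univ,
    if_true, mul_one]
  ring

/-- The coordinate attached to one of the first 22 vectors. -/
def pt (i : ℕ) : GolayPt := some ((i + 1 : ℕ) : ZMod 23)

theorem XV_W : ∀ i : Fin 100, i.val < 22 → vf (dg (XC.get i)) = vW (pt i) := by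
  decide +kernel

theorem exists_pt : ∀ q : GolayPt, q ≠ none → q ≠ some 0 → ∃ i : Fin 100, i.val < 22 ∧ pt i = q := by
  decide +kernel

theorem XV_U : XV 22 = leechU := Subtype.ext (by
  show vf (dg (XC.get 22)) = vecU
  decide +kernel)

theorem oct_spec {c : GolayPt → ZMod 2} (hc : c ∈ golayCode) : ∃ m, word m = c ∧
    (pc m = 0 ∨ 8 ≤ pc m ∧ (pc m = 8 → c none ≠ 0 → c (some 0) ≠ 0 →
      ∃ i, (XV i : GolayPt → ℤ) = vRow m)) := by
  rw [code_eq] at hc
  obtain ⟨m, hm, h⟩ := allSpan_sound oct_chk hc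
  rw [word_zero, zero_add] at hm
  refine ⟨m, hm, ?_⟩
  simp only [octChk, force_eq, bor_eq_true, band_eq_true, Nat.beq_eq, Nat.ble_eq] at h
  refine h.imp id fun h => ⟨h.1, fun h1 h2 h2' => ?_⟩
  have h3 : ¬ Nat.mod (Nat.shiftRight m 23) 2 = 0 := fun e => h2 (by
    rw [← hm, ← ZMod.val_eq_zero, word_val]; exact e)
  have h3' : ¬ Nat.mod m 2 = 0 := fun e => h2' (by
    rw [← hm, ← ZMod.val_eq_zero, word_val]; exact e)
  have h4 := ((h.2.resolve_left (by omega)).resolve_left h3).resolve_left h3'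
  by_contra hn
  rw [allB_iff.mpr fun i hi => ?_] at h4
  · exact absurd h4 (by simp)
  · suffices Nat.beq (packN 8 (uRow m) 24) (Nat.mod (XC.get i) (Nat.pow 2 192)) = false by
      rw [this]
    refine Bool.eq_false_iff.mpr fun e => hn ⟨⟨i, hi⟩, ?_⟩
    rw [← vf_uRow]
    refine funext fun q => ?_
    have h5 : ∀ k < 24, uRow m k < 256 := fun k _ => by
      have : Nat.mod (Nat.shiftRight m k) 2 < 2 := Nat.mod_lt _ two_pos
      unfold uRow
      simp only [Nat.add_eq, Nat.mul_eq]
      omega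
    have h6 := col_packN (w := 8) rfl h5 (ix_lt q)
    rw [Nat.beq_eq.mp e] at h6
    show ((dg (XC.get i) (ix q) : ℕ) : ℤ) - 64 = ((uRow m (ix q) : ℕ) : ℤ) - 64
    rw [← h6, dg_mod _ (ix_lt q)]

theorem leech_form {x : GolayPt → ℤ} (hx : x ∈ leechLattice) :
    ∃ r : ℤ, ∃ c ∈ golayCode, (r = 0 ∨ r = 1) ∧
      ∀ i, ∃ k, x i = r + 2 * ((c i).val : ℤ) + 4 * k := by
  rw [leech_eq] at hx
  obtain ⟨m, c, hc, h4, -⟩ := hx
  have h5 : ∀ a : ZMod 2, ((a + 1).val : ℤ) = 1 - a.val := by decide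
  by_cases h : m % 4 < 2
  · exact ⟨m % 4, c, hc, by omega, fun i =>
      ⟨(x i - (m % 4 + 2 * ((c i).val : ℤ))) / 4, by have := h4 i; omega⟩⟩
  · refine ⟨m % 4 - 2, c + 1, golayCode.add_mem hc one_mem_code, by omega, fun i => ?_⟩
    rw [Pi.add_apply, Pi.one_apply, h5]
    exact ⟨(x i - (m % 4 - 2 + 2 * (1 - ((c i).val : ℤ)))) / 4, by have := h4 i; omega⟩

theorem two_le_sum {f : GolayPt → ℤ} (h : ∀ q, 0 ≤ f q) : f none + f (some 0) ≤ ∑ q, f q := by
  have := sum_le_sum_of_subset_of_nonneg (f := f) (subset_univ {none, some 0}) fun q _ _ => h q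
  rwa [sum_pair (by simp)] at this

theorem classify {x : GolayPt → ℤ} (hx : x ∈ leechLattice) (h1 : sqNorm x = 32)
    (h2 : dotInt x vecV = -24) (h3 : dotInt x vecU' = 0) : ∃ i, (XV i : GolayPt → ℤ) = x := by
  rw [dot_vecV] at h2
  rw [dot_vecU'] at h3
  obtain ⟨r, c, hc, h4⟩ := leech_form hx
  obtain ⟨m, rfl, h5⟩ := oct_spec hc
  have hv : ∀ q, ((word m q).val : ℤ) = 0 ∨ ((word m q).val : ℤ) = 1 := fun q =>
    (val_cases _).imp And.right And.right
  have hs := sum_word m
  have hne : ∀ q, ((word m q).val : ℤ) = 1 → word m q ≠ 0 := fun q h e => by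
    rw [e] at h; exact absurd h (by decide)
  have h0 : x (some 0) = x none := by omega
  rw [sqNorm] at h1
  obtain ⟨rfl | rfl, h4⟩ := h4
  · rcases h5 with h5 | ⟨h5, h6⟩
    · have h7 : ∀ q, ((word m q).val : ℤ) = 0 :=
        eq_zero_of_sum (fun q => Int.natCast_nonneg _) (by rw [hs, h5]; rfl)
      have h8 : ∀ q, 0 ≤ x q ^ 2 - 4 * x q := fun q => by
        obtain ⟨k, hk⟩ := h4 q
        rw [hk, h7]
        nlinarith [sq_nonneg (2 * k - 1), Int.one_le_abs (show 2 * k - 1 ≠ 0 by omega),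
          sq_abs (2 * k - 1)]
      have h9 : x none ≤ 4 := by
        have := two_le_sum (f := fun i => x i ^ 2) fun i => sq_nonneg _
        rw [h0, h1] at this
        nlinarith
      have h10 : ∑ q, (x q ^ 2 - 4 * x q) = 16 * x none - 64 := by
        rw [sum_sub_distrib, ← mul_sum, h1]; linarith
      have h12 : x none = 4 := by
        have := sum_nonneg fun q (_ : q ∈ univ) => h8 q
        omega
      have h11 := eq_zero_of_sum h8 (by rw [h10]; omega)
      have h13 : ∀ q, x q = 0 ∨ x q = 4 := fun q => by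
        have : x q * (x q - 4) = 0 := by linarith [h11 q]
        rcases mul_eq_zero.mp this with h | h <;> omega
      refine ⟨22, ?_⟩
      rw [XV_U]
      show vecU = x
      rw [vecU_eq]
      refine funext fun q => (sub_eq_zero.mp (eq_zero_of_sum
        (f := fun q => x q - vPair (some 0) q) (fun q => ?_) ?_ q)).symm
      · rw [vPair]
        rcases h13 q with h | h <;> split_ifs with a b b <;> simp_all
      · simp only [vPair, sum_sub_distrib, sum_add_distrib, sum_ite_eq', mem_univ, if_true]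
        omega
    · have h7 : ∀ q, 0 ≤ x q ^ 2 - 4 * ((word m q).val : ℤ) := fun q => by
        obtain ⟨k, hk⟩ := h4 q
        rcases hv q with h | h <;> rw [hk, h]
        · nlinarith [sq_nonneg k]
        · nlinarith [Int.one_le_abs (show 2 * k + 1 ≠ 0 by omega), sq_abs (2 * k + 1)]
      have h8 : ∑ q, (x q ^ 2 - 4 * ((word m q).val : ℤ)) = 32 - 4 * (pc m : ℤ) := by
        rw [sum_sub_distrib, ← mul_sum, h1, hs]
      have h9 := eq_zero_of_sum h7 (by rw [h8]; omega)
      have h10 : pc m = 8 := by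
        have := sum_nonneg fun q (_ : q ∈ univ) => h7 q
        omega
      have h11 : ∀ q, 0 ≤ 2 * ((word m q).val : ℤ) - x q := fun q => by
        have := h9 q
        rcases hv q with h | h <;> rw [h] at this ⊢ <;> nlinarith
      have h12 := eq_zero_of_sum h11 (by
        rw [sum_sub_distrib, ← mul_sum, hs]
        have := h11 none
        have := hv none
        omega)
      have h17 : ∑ q, x q = 16 := by
        rw [sum_congr rfl fun q _ => (sub_eq_zero.mp (h12 q)).symm, ← mul_sum, hs, h10]; rfl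
      have h13 := h12 none
      have h14 := h12 (some 0)
      obtain ⟨i, hi⟩ := h6 h10 (hne _ (by omega)) (hne _ (by omega))
      exact ⟨i, hi.trans (funext fun q => sub_eq_zero.mp (h12 q))⟩
  · have h7 : ∀ q, 0 ≤ x q ^ 2 - 1 := fun q => by
      obtain ⟨k, hk⟩ := h4 q
      nlinarith [Int.one_le_abs (show x q ≠ 0 by omega), sq_abs (x q)]
    have h9 : ∑ q, (x q - 1) ^ 2 = 8 + 8 * x none := by
      rw [sum_congr rfl fun q _ => show (x q - 1) ^ 2 = x q ^ 2 - 2 * x q + 1 by ring,
        sum_add_distrib, sum_sub_distrib, ← mul_sum, h1, sum_const24]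
      omega
    have h8 : x none = 1 := by
      have a1 := two_le_sum h7
      have a2 := two_le_sum (f := fun q => (x q - 1) ^ 2) fun q => sq_nonneg _
      rw [sum_sub_distrib, h1, sum_const24, h0] at a1
      rw [h9, h0] at a2
      obtain ⟨k, hk⟩ := h4 none
      have : x none ≤ 2 := by nlinarith
      have : 0 ≤ x none := by nlinarith
      omega
    have h10 : pc m = 0 := h5.resolve_right fun h => by
      have : ∑ q, 4 * ((word m q).val : ℤ) ≤ ∑ q, (x q - 1) ^ 2 := sum_le_sum fun q _ => by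
        obtain ⟨k, hk⟩ := h4 q
        rcases hv q with h | h <;> rw [hk, h]
        · nlinarith [sq_nonneg k]
        · nlinarith [Int.one_le_abs (show 2 * k + 1 ≠ 0 by omega), sq_abs (2 * k + 1)]
      rw [← mul_sum, hs, h9] at this
      omega
    have h11 : ∀ q, ((word m q).val : ℤ) = 0 :=
      eq_zero_of_sum (fun q => Int.natCast_nonneg _) (by rw [hs, h10]; rfl)
    have h12 := eq_zero_of_sum (f := fun q => (x q - 1) ^ 2 + 4 * (x q - 1)) (fun q => by
      obtain ⟨k, hk⟩ := h4 q
      rw [hk, h11]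
      nlinarith [Int.one_le_abs (show 2 * k + 1 ≠ 0 by omega), sq_abs (2 * k + 1)]) (by
      rw [sum_add_distrib, h9, ← mul_sum, sum_sub_distrib, sum_const24]
      omega)
    have h13 : ∀ q, x q = 1 ∨ x q = -3 := fun q => by
      have : (x q - 1) * (x q + 3) = 0 := by linarith [h12 q]
      rcases mul_eq_zero.mp this with h | h <;> omega
    have h14 : ∑ q, (1 - x q) = 4 := by
      rw [sum_sub_distrib, sum_const24]; omega
    obtain ⟨p, -, hp⟩ := exists_ne_zero_of_sum_ne_zero (h14.trans_ne (by norm_num))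
    have hp2 : x p = -3 := (h13 p).resolve_left (by omega)
    obtain ⟨i, hi, rfl⟩ := exists_pt p (by rintro rfl; omega) (by rintro rfl; omega)
    refine ⟨i, (XV_W i hi).trans (funext fun q => sub_eq_zero.mp (eq_zero_of_sum
      (f := fun q => vW (pt i) q - x q) (fun q => ?_) ?_ q))⟩
    · rw [vW]
      split_ifs with a
      · rw [a, hp2]; norm_num
      · rcases h13 q with h | h <;> omega
    · simp only [vW, sum_sub_distrib, sum_ite_eq', mem_univ, if_true, sum_const24]
      omega

theorem exists_Psi : ∃ Ψ : Spor.HS →* Perm (Fin 100), ∀ (g : Spor.HS) (i : Fin 100),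
    (g : Perm leechLattice) • XV i = XV (Ψ g i) := by
  refine exists_perm_hom Spor.HS XV_inj fun g hg i => ?_
  have hV : g leechV = leechV := hg.1.2
  have hU : g leechU' = leechU' := hg.2
  obtain ⟨j, hj⟩ := classify (g (XV i)).2
    (by rw [hg.1.1.2, sqNorm_eq_dot]; exact (dot_XV i i).2.mpr rfl)
    (by have := Co0_dot hg.1.1 (XV i) leechV; rw [hV] at this; exact this.trans (XV_dot i).1)
    (by have := Co0_dot hg.1.1 (XV i) leechU'; rw [hU] at this; exact this.trans (XV_dot i).2)
  exact ⟨j, Subtype.ext hj.symm⟩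

/-- The action on the 100 vectors. -/
noncomputable def Psi : Spor.HS →* Perm (Fin 100) := exists_Psi.choose

theorem Psi_spec (g : Spor.HS) (i : Fin 100) : (g : Perm leechLattice) (XV i) = XV (Psi g i) :=
  exists_Psi.choose_spec g i

theorem coord {g : Spor.HS} (hg : Psi g 22 = 22) (v : leechLattice) :
    (g.1 v).1 none = v.1 none ∧ (g.1 v).1 (some 0) = v.1 (some 0) ∧
      ∀ i : Fin 100, i.val < 22 → (Psi g i).val < 22 → (g.1 v).1 (pt (Psi g i)) = v.1 (pt i) := by
  have hV : g.1 leechV = leechV := g.2.1.2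
  have hU : g.1 leechU' = leechU' := g.2.2
  have h1 := Co0_dot g.2.1.1 v (XV 22)
  rw [Psi_spec, hg, XV_U] at h1
  change dotInt _ vecU = dotInt _ vecU at h1
  rw [vecU_eq, dot_vPair, dot_vPair] at h1
  have h2 := Co0_dot g.2.1.1 v leechV
  rw [hV] at h2
  change dotInt _ vecV = dotInt _ vecV at h2
  rw [dot_vecV, dot_vecV] at h2
  have h3 := Co0_dot g.2.1.1 v leechU'
  rw [hU] at h3
  change dotInt _ vecU' = dotInt _ vecU' at h3
  rw [dot_vecU', dot_vecU'] at h3
  refine ⟨by omega, by omega, fun i hi hj => ?_⟩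
  have h4 := Co0_dot g.2.1.1 v (XV i)
  rw [Psi_spec] at h4
  change dotInt _ (vf _) = dotInt _ (vf _) at h4
  rw [XV_W i hi, XV_W _ hj, dot_vW, dot_vW] at h4
  omega

theorem Psi_inj : Function.Injective Psi := by
  refine (injective_iff_map_eq_one _).mpr fun g hg => Subtype.ext (Equiv.ext fun v => Subtype.ext ?_)
  obtain ⟨h1, h2, h3⟩ := coord (g := g) (by rw [hg]; rfl) v
  funext q
  by_cases a : q = none
  · rw [a]; exact h1
  by_cases b : q = some 0
  · rw [b]; exact h2
  obtain ⟨i, hi, rfl⟩ := exists_pt q a b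
  rw [hg] at h3
  exact h3 i hi hi

theorem Psi_mem (g : Spor.HS) : Psi g ∈ gAut 100 HS.adj := fun i j => by
  rw [Bool.eq_iff_iff, ← (dot_XV _ _).1, ← (dot_XV _ _).1, ← Psi_spec, ← Psi_spec,
    Co0_dot g.2.1.1]

theorem div_app {c : ℕ} {g : Perm (Fin 100)} (hg : Rep 10 1023 c g) (i : Fin 100) :
    Nat.div (app 1023 c (Nat.mul 10 i)) 10 = g i := by
  rw [show Nat.mul 10 i = 10 * i from rfl, hg i]
  exact Nat.mul_div_cancel_left _ (by norm_num)

theorem gChk_sound {c : ℕ} (h : gChk c = true) {g : Perm (Fin 100)} (hg : Rep 10 1023 c g) :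
    g ∈ gAut 100 HS.adj := fun i j => by
  simp only [gChk, allB_iff, force_eq, Nat.beq_eq, bit_eq] at h
  have h1 := h i i.2 j j.2
  rw [div_app hg, div_app hg] at h1
  revert h1
  cases (HS.adj.get (g i)).testBit (g j) <;> cases (HS.adj.get i).testBit j <;> simp

/-- Digits of `vecU'`. -/
def uU' (k : ℕ) : ℕ := Bool.rec (Bool.rec 64 60 (Nat.beq k 0)) 68 (Nat.beq k 23)

theorem vf_uU' : vf uU' = vecU' := by decide +kernel

theorem mem_range_of {N c : ℕ} {H : Trie} (h1 : autChk N H = true) (h2 : gChk c = true)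
    (h3 : imgChk N uV uV = true) (h4 : imgChk N uU' uU' = true)
    (h5 : allL (fun b => imgChk N (dg (XC.get b))
      (dg (XC.get (Nat.div (app 1023 c (Nat.mul 10 b)) 10)))) [26, 80, 49, 86, 39] = true)
    {g : Perm (Fin 100)} (hg : Rep 10 1023 c g) : g ∈ Psi.range := by
  obtain ⟨f, hf, e⟩ := autChk_sound h1
  let F : Spor.HS := ⟨f, ⟨hf, apply_eq_of_imgChk e h3 vf_uV.symm vf_uV.symm⟩,
    apply_eq_of_imgChk e h4 vf_uU'.symm vf_uU'.symm⟩
  refine ⟨F, ?_⟩
  rw [← inv_mul_eq_one]
  refine eq_one_of_refine (by norm_num) (by norm_num) (by norm_num) ref5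
    (mul_mem (inv_mem (Psi_mem F)) (gChk_sound h2 hg)) fun i hi => ?_
  have h6 := allL_iff.mp h5 i hi
  rw [div_app hg] at h6
  have h7 : f (XV i) = XV (g i) := apply_eq_of_imgChk e h6 rfl rfl
  rw [Perm.mul_apply, ← XV_inj ((Psi_spec F i).symm.trans h7)]
  simp

theorem MM_le : MM ≤ Psi.range := by
  refine Grp_le (by norm_num) fun c hc => ?_
  obtain ⟨g, -, hg⟩ := validM c hc
  refine ⟨g, ?_, hg⟩
  simp only [gensOf, mL0, List.mem_cons, List.not_mem_nil, or_false] at hc
  rcases hc with rfl | rfl | rfl | rfl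
  · exact mem_range_of aut_d gChk_d (by decide +kernel) (by decide +kernel) (by decide +kernel) hg
  · exact mem_range_of aut_y gChk_y (by decide +kernel) (by decide +kernel) (by decide +kernel) hg
  · exact mem_range_of aut_u gChk_u (by decide +kernel) (by decide +kernel) (by decide +kernel) hg
  · exact mem_range_of aut_e gChk_e (by decide +kernel) (by decide +kernel) (by decide +kernel) hg

theorem sigma_notMem {g : Perm (Fin 100)} (hg : Rep 10 1023 cσ g) : g ∉ Psi.range := by
  rintro ⟨f, rfl⟩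
  let E : leechLattice := ⟨vf (dg cE), inL_sound (m := dg cE 24) (h := Nat.shiftRight cE 200)
    (by decide +kernel)⟩
  have hE' : vf (dg cE') ∈ leechLattice := inL_sound (m := dg cE' 24) (h := Nat.shiftRight cE' 200)
    (by decide +kernel)
  have k1 : ∀ q : GolayPt, q ≠ none → q ≠ some 0 → ∃ i : Fin 100, i.val < 22 ∧
      Nat.div (app 1023 cσ (Nat.mul 10 i)) 10 < 22 ∧
      pt (Nat.div (app 1023 cσ (Nat.mul 10 i)) 10) = q ∧ vf (dg cE) (pt i) = vf (dg cE') q := by
    decide +kernel
  obtain ⟨h1, h2, h3⟩ := coord (g := f) (Fin.ext (by rw [← div_app hg]; decide +kernel)) E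
  obtain ⟨r, c, hc, hr, h4⟩ := leech_form (leechLattice.sub_mem (f.1 E).2 hE')
  obtain ⟨m, rfl, h5⟩ := oct_spec hc
  have h6 : ∀ q, ((word m q).val : ℤ) = (if q = none then 1 else 0) + if q = some 0 then 1 else 0 := by
    have k2 : E.1 none - vf (dg cE') none = 2 := by decide +kernel
    have k3 : E.1 (some 0) - vf (dg cE') (some 0) = -2 := by decide +kernel
    obtain ⟨k0, hk0⟩ := h4 none
    rw [Pi.sub_apply, h1, k2] at hk0
    intro q
    obtain ⟨k, hk⟩ := h4 q
    have hv := (val_cases (word m q)).imp And.right And.right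
    rw [Pi.sub_apply] at hk
    split_ifs with a b b
    · rw [a] at b; simp at b
    · rw [a, h1, k2] at hk; rw [a] at hv ⊢; omega
    · rw [b, h2, k3] at hk; rw [b] at hv ⊢; omega
    · obtain ⟨i, a1, a2, a3, a4⟩ := k1 q a b
      rw [div_app hg] at a2 a3
      have := h3 i a1 a2
      rw [a3] at this
      change _ = vf (dg cE) (pt i) at this
      omega
  have h7 := sum_word m
  simp only [h6, sum_add_distrib, sum_ite_eq', mem_univ, if_true] at h7
  omega

theorem range_Psi : Psi.range = MM := by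
  obtain ⟨σ, -, hσ⟩ := permChk_sound (w := 10) (mk := 1023) (n := 100) (c := cσ) (d := cσI)
    (by norm_num) (by decide +kernel)
  have h1 : Psi.range < gAut 100 HS.adj := lt_of_le_of_ne (by rintro _ ⟨g, rfl⟩; exact Psi_mem g)
    fun e => sigma_notMem hσ (e ▸ gChk_sound gChk_σ hσ)
  have h2 := card_le_of_refOK (by norm_num) (by norm_num) (by norm_num) refOK
    (A := gAut 100 HS.adj) le_rfl (by simp)
  obtain ⟨k, hk⟩ := Subgroup.card_dvd_of_le h1.le
  obtain ⟨l, hl⟩ := Subgroup.card_dvd_of_le MM_le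
  have h3 : k ≠ 1 := fun e => h1.ne (Subgroup.eq_of_le_of_card_ge h1.le (by rw [hk, e, mul_one]))
  have h4 : 0 < Nat.card (gAut 100 HS.adj) := Nat.card_pos
  refine (Subgroup.eq_of_le_of_card_ge MM_le ?_).symm
  rw [hk, hl, card_MM] at h2 h4
  rw [hl, card_MM]
  norm_num at h2
  have h5 : 2 ≤ k := by
    rcases k with _ | _ | k <;> simp_all
  nlinarith

/-- The Higman–Sims group is the model. -/
noncomputable def isoHS : Spor.HS ≃* MM :=
  (MonoidHom.ofInjective Psi_inj).trans (MulEquiv.subgroupCongr range_Psi)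

end Cfsg.Agent.H7.HS
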