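import Cfsg.Agent.H7.HS.Pres
import Cfsg.Agent.H7.SylowIn

/-!
# Involutions and normal subgroups of the model of the Higman–Sims group
-/

set_option autoImplicit false
set_option maxRecDepth 100000

namespace Cfsg.Agent.H7.HS

open Cfsg.Agent.H4 Cfsg.Agent.H4.TC Cfsg.Agent.L0.Cover Equiv

/-- The base. -/
def BB : List ℕ := [220, 100, 810, 950, 110]

theorem baseM : IsBase 10 MM BB := by
  have := SSOK.isBase (by norm_num) ssM validM
  rwa [show (mC.map fun L => 10 * L.b) = BB by decide +kernel] at this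

/-- `f` represents the element `g` of the model. -/
class RA (f : ℕ → ℕ) (g : outParam (Perm (Fin 100))) : Prop where
  rep : RepF 10 f g
  mem : g ∈ MM

/-- Composition. -/
def cmp (f g : ℕ → ℕ) : ℕ → ℕ := fun x => f (g x)

@[inherit_doc] scoped infixl:70 " ⊙ " => cmp

/-- Identity. -/
def idf : ℕ → ℕ := fun x => x

/-- The function with code `c`. -/
def ap (c : ℕ) : ℕ → ℕ := fun x => Nat.land (Nat.shiftRight c x) 1023

instance instRAmul {f f' : ℕ → ℕ} {g g' : Perm (Fin 100)} [h : RA f g] [h' : RA f' g'] :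
    RA (f ⊙ f') (g * g') := ⟨h.rep.comp h'.rep, mul_mem h.mem h'.mem⟩

instance instRAone : RA idf 1 := ⟨RepF.one, one_mem _⟩

instance instRAt : RA (ap ct) (ml 17) := ⟨ml_rep 17, ml_mem 17⟩

instance instRAu : RA (ap cu) (ml 13) := ⟨ml_rep 13, ml_mem 13⟩

instance instRAa : RA (ap ca) (ml 3) := ⟨ml_rep 3, ml_mem 3⟩

instance instRAc : RA (ap cc) (ml 10) := ⟨ml_rep 10, ml_mem 10⟩

/-- Equality test. -/
noncomputable def EE (f g : ℕ → ℕ) : Bool := eqB BB f g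

theorem EE_iff {f f' : ℕ → ℕ} {g g' : Perm (Fin 100)} [h : RA f g] [h' : RA f' g'] :
    EE f f' = true ↔ g = g' := baseM.eqB_iff h.rep h'.rep h.mem h'.mem

/-- Implication. -/
noncomputable def imp (a b : Bool) : Bool := Bool.rec true b a

theorem imp_iff {a b : Bool} : imp a b = true ↔ (a = true → b = true) := by
  cases a <;> cases b <;> simp [imp]

/-- Negation. -/
noncomputable def neg (a : Bool) : Bool := Bool.rec true false a

theorem neg_iff {a : Bool} : neg a = true ↔ ¬ a = true := by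
  cases a <;> simp [neg]

/-- The permutation has a fixed point. -/
def HF (g : Perm (Fin 100)) : Prop := ∃ i, g i = i

theorem HF.conj {g : Perm (Fin 100)} (h : HF g) (k : Perm (Fin 100)) : HF (k * g * k⁻¹) := by
  obtain ⟨i, hi⟩ := h
  exact ⟨k i, by simp [hi]⟩

/-- Test for a fixed point. -/
noncomputable def hasFix (f : ℕ → ℕ) : Bool :=
  neg (allB (fun i => force (Nat.mul 10 i) fun x => neg (Nat.beq (f x) x)) 100)

theorem hasFix_iff {f : ℕ → ℕ} {g : Perm (Fin 100)} [h : RA f g] : hasFix f = true ↔ HF g := by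
  simp only [hasFix, neg_iff, allB_iff, force_eq, Nat.beq_eq, not_forall, not_not]
  constructor
  · rintro ⟨i, hi, e⟩
    exact ⟨⟨i, hi⟩, Fin.ext (Nat.eq_of_mul_eq_mul_left (show 0 < 10 by norm_num)
      ((h.rep ⟨i, hi⟩).symm.trans e))⟩
  · rintro ⟨i, e⟩
    exact ⟨i, i.2, (h.rep i).trans (by rw [e]; rfl)⟩

/-- Images of the base points. -/
def key (f : ℕ → ℕ) : ℕ :=
  Nat.add (Nat.mul (Nat.add (Nat.mul (Nat.add (Nat.mul (Nat.add (Nat.mul (f 220) 1024) (f 100)) 1024)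
    (f 810)) 1024) (f 950)) 1024) (f 110)

/-- A conjugating word is found in the table. -/
noncomputable def wit (f : ℕ → ℕ) : Bool :=
  force (key f) fun k => anyL (fun p => band (Nat.beq k p.1)
    (compK 1023 (p.2.map cl) (fun x => x) fun g =>
      bor (EE (g ⊙ f) (ap ct ⊙ g)) (EE (g ⊙ f) (ap cu ⊙ g)))) WL

theorem wit_sound {f : ℕ → ℕ} {z : Perm (Fin 100)} [RA f z] (h : wit f = true) :
    ∃ m ∈ MM, m * z * m⁻¹ = ml 17 ∨ m * z * m⁻¹ = ml 13 := by
  simp only [wit, force_eq, anyL_iff, band_eq_true, compK_eq] at h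
  obtain ⟨p, -, -, h⟩ := h
  have : RA (compL 1023 (p.2.map cl) fun x => x) (evL ml p.2) :=
    ⟨by simpa using compL_evL p.2 RepF.one, evL_mem fun a _ => ml_mem a⟩
  simp only [bor_eq_true, EE_iff] at h
  exact ⟨_, this.mem, h.imp mul_inv_eq_of_eq_mul mul_inv_eq_of_eq_mul⟩

/-- The checks on the elements of the centralizer. -/
noncomputable def chkH (f : ℕ → ℕ) : Bool :=
  band (neg (EE (f ⊙ (ap ca ⊙ ap cc)) (ap cu ⊙ f))) <|
  imp (EE (f ⊙ f ⊙ (f ⊙ f)) idf) <| band (hasFix (f ⊙ f)) <|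
  imp (EE (f ⊙ f) idf) <| bor (EE f idf) <| band (wit f) <|
  imp (EE (f ⊙ ap cu) (ap cu ⊙ f)) <| bor (hasFix f) <|
  bor (band (neg (EE (f ⊙ ap cu) idf)) (hasFix (f ⊙ ap cu))) (neg (hasFix (ap ct ⊙ f)))

theorem enumH1 : allR (enumRow 1023 chkH hL0 [hL1, hL2] fun x => x) 0 5 = true := by decide +kernel

theorem enumH2 : allR (enumRow 1023 chkH hL0 [hL1, hL2] fun x => x) (0 + 5) 5 = true := by
  decide +kernel

theorem enumH3 : allR (enumRow 1023 chkH hL0 [hL1, hL2] fun x => x) (0 + (5 + 5)) 5 = true := by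
  decide +kernel

theorem enumH4 : allR (enumRow 1023 chkH hL0 [hL1, hL2] fun x => x) (0 + (5 + 5 + 5)) 5 = true := by
  decide +kernel

/-- The centralizer of the central involution. -/
noncomputable def H0 : Subgroup (Perm (Fin 100)) := KK ml lH

theorem H0_le : H0 ≤ MM := KK_le fun a _ => ml_mem a

theorem H0_spec {h : Perm (Fin 100)} (hh : h ∈ H0) : h * (ml 3 * ml 10) ≠ ml 13 * h ∧
    (h * h * (h * h) = 1 → HF (h * h)) ∧ (h * h = 1 → h ≠ 1 →
      (∃ m ∈ MM, m * h * m⁻¹ = ml 17 ∨ m * h * m⁻¹ = ml 13) ∧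
      (h * ml 13 = ml 13 * h → HF h ∨ (h * ml 13 ≠ 1 ∧ HF (h * ml 13)) ∨ ¬ HF (ml 17 * h))) := by
  have hE : enum 1023 chkH hC (fun x => x) = true :=
    allB_of_allR (allR_append (allR_append (allR_append enumH1 enumH2) enumH3) enumH4)
  obtain ⟨f, h1, h2⟩ := forall_of_enum_all (by norm_num) ssH (valid_of (l := lH) rfl) hE
    (g := h) (by rwa [show gensOf hC = lH.map cl from rfl, Grp_eq])
  have : RA f h := ⟨h1, H0_le hh⟩
  simp only [chkH, band_eq_true, bor_eq_true, imp_iff, neg_iff, EE_iff, hasFix_iff] at h2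
  refine ⟨h2.1, fun e => (h2.2 e).1, fun e e' => ?_⟩
  have h3 := ((h2.2 (by rw [e, one_mul])).2 e).resolve_left e'
  exact ⟨wit_sound h3.1, h3.2⟩

theorem HF_t : HF (ml 17) := hasFix_iff.mp (show hasFix (ap ct) = true by decide +kernel)

theorem not_HF_u : ¬ HF (ml 13) := fun h =>
  absurd ((hasFix_iff (f := ap cu)).mpr h) (by decide +kernel)

theorem not_HF_ac : ¬ HF (ml 3 * ml 10) := fun h =>
  absurd ((hasFix_iff (f := ap ca ⊙ ap cc)).mpr h) (by decide +kernel)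

theorem conj_into {G : Type*} [Group G] [Finite G] {p m : ℕ} [hp : Fact p.Prime] {A B : Subgroup G}
    (h1 : A ≤ B) (h2 : Nat.card B = Nat.card A * m) (h3 : ¬ p ∣ m) {z : G} (hz : z ∈ B)
    (h4 : z ^ p = 1) : ∃ b ∈ B, b * z * b⁻¹ ∈ A := by
  obtain ⟨T, hT⟩ := exists_isSylowIn (p := p) A
  have h5 : IsSylowIn p T B := ⟨hT.1.trans h1, hT.2.1, by
    rw [← Subgroup.relIndex_mul_relIndex T A B hT.1 h1]
    refine fun h => (hp.out.dvd_mul.mp h).elim hT.2.2 ?_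
    have := card_mul_relIndex h1
    rw [h2] at this
    rwa [Nat.eq_of_mul_eq_mul_left Nat.card_pos this]⟩
  obtain ⟨g, hg, h6⟩ := h5.exists_le_conj (P := Subgroup.zpowers z) (by
    rintro ⟨_, j, rfl⟩
    refine ⟨1, Subtype.ext ?_⟩
    simp only [pow_one, Subgroup.coe_pow, Subgroup.coe_one]
    rw [← zpow_natCast, ← zpow_mul, mul_comm, zpow_mul, zpow_natCast, h4, one_zpow])
    (Subgroup.zpowers_le.mpr hz)
  exact ⟨g⁻¹, B.inv_mem hg, hT.1 (by simpa using mem_conj_smul.1 (h6 (Subgroup.mem_zpowers z)))⟩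

theorem inv_class {z : Perm (Fin 100)} (hz : z ∈ MM) (h1 : z * z = 1) (h2 : z ≠ 1) :
    ∃ m ∈ MM, m * z * m⁻¹ = ml 17 ∨ m * z * m⁻¹ = ml 13 := by
  obtain ⟨b, hb, h3⟩ := conj_into (p := 2) (m := 5775) H0_le (by rw [card_MM, H0, card_H0])
    (by norm_num) hz (by rw [pow_two, h1])
  obtain ⟨m, hm, h4⟩ := ((H0_spec h3).2.2 (by
    rw [show b * z * b⁻¹ * (b * z * b⁻¹) = b * (z * z) * b⁻¹ by group, h1]; group)
    (by simpa using h2)).1
  exact ⟨m * b, mul_mem hm hb, by rwa [show m * b * z * (m * b)⁻¹ = m * (b * z * b⁻¹) * m⁻¹ by group]⟩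

theorem conj_t {z : Perm (Fin 100)} (hz : z ∈ MM) (h1 : z * z = 1) (h2 : z ≠ 1) (h3 : HF z) :
    ∃ m ∈ MM, m * z * m⁻¹ = ml 17 := by
  obtain ⟨m, hm, h | h⟩ := inv_class hz h1 h2
  · exact ⟨m, hm, h⟩
  · exact absurd (h ▸ h3.conj m) not_HF_u

theorem conj_u {z : Perm (Fin 100)} (hz : z ∈ MM) (h1 : z * z = 1) (h3 : ¬ HF z) :
    ∃ m ∈ MM, m * z * m⁻¹ = ml 13 := by
  obtain ⟨m, hm, h | h⟩ := inv_class hz h1 (by rintro rfl; exact h3 ⟨0, rfl⟩)
  · exact absurd (by simpa [← h, mul_assoc] using HF_t.conj m⁻¹) h3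
  · exact ⟨m, hm, h⟩

theorem exists_map (x : Fin 100) : ∃ g ∈ MM, g 22 = x := by
  have : ∀ x : Fin 100, ∃ i < 100, app 1023 (mL0.T.get i) (10 * mL0.b) = 10 * x := by
    decide +kernel
  obtain ⟨i, hi, h⟩ := this x
  exact ssM.exists_map_base (by norm_num) validM hi h

theorem exists_sub (x : Fin 100) : ∃ k ∈ MM, k 22 = 22 ∧ (k x = 22 ∨ k x = 44 ∨ k x = 5) := by
  have a1 : ∀ x : Fin 100, ∃ i < 100, app 1023 (mL0.T.get i) (10 * mL0.b) = 10 * x := by
    decide +kernel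
  obtain ⟨i, hi, h⟩ := a1 x
  have h1 := allB_iff.mp subM i hi
  rw [force_eq, force_eq, band_eq_true, anyL_iff] at h1
  obtain ⟨⟨r, hr, hr'⟩, h2⟩ := h1
  rw [Nat.beq_eq] at hr'
  obtain ⟨k, hk, f₀, hf₀, h3⟩ :=
    pick_sound (SSOK.good (by norm_num) ssM.2.2 (ssM.valid validM)).mem h2
  rw [Nat.beq_eq, hr', show Nat.mul 10 mL0.b = 10 * mL0.b from rfl, h] at h3
  replace h3 := (hf₀ x).symm.trans h3
  refine ⟨k, ssM.le (by norm_num) validM hk, ssM.fix (by norm_num) hk, ?_⟩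
  have a2 : ∀ r ∈ [0, 1, 4], ∀ y : Fin 100, 10 * y.val = app 1023 (mL0.T.get r) (10 * mL0.b) →
      y = 22 ∨ y = 44 ∨ y = 5 := by decide +kernel
  exact a2 r hr _ h3

theorem normal_eq_bot {N : Subgroup MM} (hN : N.Normal)
    (h : ∀ n ∈ N, (n : Perm (Fin 100)) ∈ H0 → n = 1) : N = ⊥ := by
  by_contra hne
  let O : Set (Fin 100) := {x | ∃ n ∈ N, (n : Perm (Fin 100)) 22 = x}
  have h1 : ∀ g ∈ MM, g 22 ∈ O → ∀ x, x ∈ O ↔ g x ∈ O := by
    have : ∀ g ∈ MM, g 22 ∈ O → ∀ x, x ∈ O → g x ∈ O := by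
      rintro g hg ⟨n, hn, e⟩ _ ⟨n', hn', rfl⟩
      exact ⟨_, mul_mem (hN.conj_mem n' hn' ⟨g, hg⟩) hn, by simp [e]⟩
    refine fun g hg h x => ⟨this g hg h x, fun hx => ?_⟩
    obtain ⟨n, hn, e⟩ := h
    simpa using this g⁻¹ (inv_mem hg) ⟨_, hN.conj_mem _ (inv_mem hn) ⟨g⁻¹, inv_mem hg⟩, by
      simp [← e]⟩ _ hx
  have h0 : (22 : Fin 100) ∈ O := ⟨1, one_mem _, rfl⟩
  have h2 : ∀ x, x ≠ 22 → (x ∈ O ↔ (44 : Fin 100) ∈ O) ∨ (x ∈ O ↔ (5 : Fin 100) ∈ O) := fun x hx => by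
    obtain ⟨k, hk, e, e'⟩ := exists_sub x
    have := h1 k hk (e.symm ▸ h0) x
    rcases e' with e' | e' | e'
    · exact absurd (k.injective (e'.trans e.symm)) hx
    · exact Or.inl (e' ▸ this)
    · exact Or.inr (e' ▸ this)
  have h3 : (44 : Fin 100) ∈ O ↔ (5 : Fin 100) ∈ O := by
    have k : ∀ (l : List ℕ) (x y : Fin 100),
        compL 1023 (l.map cl) (fun x => x) (10 * x) = 10 * y → evL ml l x = y := fun l x y e =>
      Fin.ext (Nat.eq_of_mul_eq_mul_left (show 0 < 10 by norm_num)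
        (by simpa [e] using (compL_evL l RepF.one x).symm))
    have k1 : ∀ l x, evL ml l 22 ∈ O → x ∈ O → evL ml l x ∈ O := fun l x a b =>
      (h1 _ (evL_mem fun a _ => ml_mem a) a x).mp b
    constructor
    · intro a
      have := k1 [2, 12, 13, 3] 44 (by rwa [k _ 22 44 (by decide +kernel)]) a
      rwa [k _ 44 5 (by decide +kernel)] at this
    · intro a
      have b := k1 [4, 17] 5 (by rwa [k _ 22 5 (by decide +kernel)]) a
      rw [k _ 5 40 (by decide +kernel)] at b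
      have := k1 [8] 40 (by rwa [k _ 22 40 (by decide +kernel)]) b
      rwa [k _ 40 44 (by decide +kernel)] at this
  have h4 : (44 : Fin 100) ∈ O := by
    obtain ⟨⟨n, hn⟩, hn1⟩ := Subgroup.ne_bot_iff_exists_ne_one.mp hne
    obtain ⟨x, hx⟩ : ∃ x, (n : Perm (Fin 100)) x ≠ x := by
      by_contra hc
      push Not at hc
      exact hn1 (Subtype.ext (Subtype.ext (Equiv.ext hc)))
    obtain ⟨g, hg, rfl⟩ := exists_map x
    have h5 : g⁻¹ ((n : Perm (Fin 100)) (g 22)) ∈ O :=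
      ⟨_, hN.conj_mem n hn ⟨g⁻¹, inv_mem hg⟩, by simp⟩
    rcases h2 _ (fun e => hx (Perm.inv_eq_iff_eq.mp e)) with e | e
    · exact e.mp h5
    · exact h3.mpr (e.mp h5)
  have h5 : ∀ x, x ∈ O := fun x => by
    by_cases hx : x = 22
    · exact hx ▸ h0
    · exact (h2 x hx).elim (·.mpr h4) (·.mpr (h3.mp h4))
  have h6 : 2 ∣ Nat.card N := by
    have := Nat.card_congr (MulAction.orbitProdStabilizerEquivGroup N (22 : Fin 100))
    rw [Nat.card_prod, show MulAction.orbit N (22 : Fin 100) = Set.univ from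
      Set.eq_univ_of_forall fun x => by obtain ⟨n, hn, e⟩ := h5 x; exact ⟨⟨n, hn⟩, e⟩] at this
    rw [← this]
    simp [Dvd.dvd.mul_right]
  obtain ⟨⟨z, hz⟩, h7⟩ := exists_prime_orderOf_dvd_card' 2 h6
  rw [Subgroup.orderOf_mk, orderOf_eq_prime_iff] at h7
  obtain ⟨m, hm, h8⟩ := inv_class z.2 (by rw [← pow_two]; exact congrArg Subtype.val h7.1)
    fun e => h7.2 (Subtype.ext e)
  have := h _ (hN.conj_mem z hz ⟨m, hm⟩) (by
    show m * z * m⁻¹ ∈ H0
    rcases h8 with e | e <;> rw [e] <;> exact mem_KK lett_ml (by decide +kernel))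
  exact h7.2 (by simpa using this)

end Cfsg.Agent.H7.HS
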