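import Cfsg.Agent.H7.HS.Dec
import Cfsg.Agent.H7.HS.Model

/-!
# Local analysis, part 1: the intersection of the two local subgroups
-/

set_option autoImplicit false
set_option maxRecDepth 100000

namespace Cfsg.Agent.H7.HS

open Subgroup Equiv Cfsg.Agent.H5 Cfsg.Agent.H7.Asch

variable {G : Type*} [Group G]

/-- The setting: `Γ` is the graph of the map from the centralizer of `t` onto the symmetric group. -/
structure S0 (t i : G) (Γ : Subgroup (G × Perm (Fin 5))) (Q : Subgroup G) : Prop where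
  hH : ∀ g, g * t = t * g ↔ ∃ σ, (g, σ) ∈ Γ
  fn : ∀ σ, (1, σ) ∈ Γ → σ = 1
  surj : ∀ σ, ∃ g, (g, σ) ∈ Γ
  cH : Nat.card (centralizer ({t} : Set G)) = 7680
  ii : i * i = t
  tt : t * t = 1
  t1 : t ≠ 1
  iR : (i, 1) ∈ Γ
  iZ : ∀ r, (r, 1) ∈ Γ → r * i = i * r
  iN : ∀ g, g * t = t * g → g * i * g⁻¹ = i ∨ g * i * g⁻¹ = i⁻¹
  sq : ∀ r, (r, 1) ∈ Γ → r * r = 1 ∨ r * r = t
  cm : ∀ r r', (r, 1) ∈ Γ → (r', 1) ∈ Γ → r * r' * r⁻¹ = r' ∨ r * r' * r⁻¹ = r' * t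
  iQ : i ∈ Q
  VR : ∀ q ∈ Q, (q * q, 1) ∈ Γ
  CV : ∀ g, (∀ q ∈ Q, g * (q * q) * g⁻¹ = q * q) → g ∈ Q
  hB : ∀ g σ, (g, σ) ∈ Γ → (σ 4 = 4 ↔ g ∈ normalizer (Q : Set G))
  cM : Nat.card (normalizer (Q : Set G)) = 10752
  co : ∃ E, Co Q E

variable {t i : G} {Γ : Subgroup (G × Perm (Fin 5))} {Q : Subgroup G} {E : A → G}

theorem gmul {g h : G} {σ τ : Perm (Fin 5)} (a : (g, σ) ∈ Γ) (b : (h, τ) ∈ Γ) :
    (g * h, σ * τ) ∈ Γ := Γ.mul_mem a b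

theorem ginv {g : G} {σ : Perm (Fin 5)} (a : (g, σ) ∈ Γ) : (g⁻¹, σ⁻¹) ∈ Γ := Γ.inv_mem a

theorem gpow {g : G} {σ : Perm (Fin 5)} (a : (g, σ) ∈ Γ) (n : ℕ) : (g ^ n, σ ^ n) ∈ Γ :=
  Γ.pow_mem a n

theorem gcast {g : G} {σ τ : Perm (Fin 5)} (a : (g, σ) ∈ Γ) (e : σ = τ) : (g, τ) ∈ Γ := e ▸ a

theorem gconj {g r : G} {σ : Perm (Fin 5)} (a : (g, σ) ∈ Γ) (b : (r, 1) ∈ Γ) :
    (g * r * g⁻¹, 1) ∈ Γ := gcast (gmul (gmul a b) (ginv a)) (by simp)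

theorem S0.symm (h : S0 t i Γ Q) : S0 t i⁻¹ Γ Q :=
  { h with
    ii := by rw [← mul_inv_rev, h.ii, inv_eq_of_mul_eq_one_left h.tt]
    iR := gcast (ginv h.iR) inv_one
    iZ := fun r hr => (Commute.inv_right (h.iZ r hr)).eq
    iN := fun g hg => (h.iN g hg).imp (fun e => by rw [← conj_inv, e]) fun e => by
      rw [← conj_inv, e]
    iQ := inv_mem h.iQ }

theorem S0.uniq (h : S0 t i Γ Q) {g : G} {σ τ : Perm (Fin 5)} (a : (g, σ) ∈ Γ) (b : (g, τ) ∈ Γ) :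
    σ = τ := inv_mul_eq_one.mp (h.fn _ (by simpa using gmul (ginv a) b))

theorem S0.four (h : S0 t i Γ Q) {r : G} (a : (r, 1) ∈ Γ) : r ^ 4 = 1 := by
  rw [show r ^ 4 = r * r * (r * r) by simp only [pow_succ, pow_zero, one_mul, mul_assoc]]
  rcases h.sq r a with e | e <;> simp [e, h.tt]

theorem S0.comm (h : S0 t i Γ Q) {g : G} {σ : Perm (Fin 5)} (a : (g, σ) ∈ Γ) : g * t = t * g :=
  (h.hH g).mpr ⟨σ, a⟩

theorem dbl_add (h : Hm E) (v w : A) : E (v + w + (v + w)) = E (v + v) * E (w + w) := by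
  rw [← h]; congr 1; abel

theorem S0.memQ (h : S0 t i Γ Q) (c : Co Q E) {g : G} (h1 : g * E (2, 0, 0) * g⁻¹ = E (2, 0, 0))
    (h2 : g * E (0, 2, 0) * g⁻¹ = E (0, 2, 0)) (h3 : g * E (0, 0, 2) * g⁻¹ = E (0, 0, 2)) : g ∈ Q := by
  refine h.CV g fun q hq => ?_
  obtain ⟨v, rfl⟩ := (c.mem q).mp hq
  rw [← c.add]
  refine indA (P := fun v => g * E (v + v) * g⁻¹ = E (v + v)) (by simp [c.add.zero])
    (fun v w a b => ?_) h1 h2 h3 v
  rw [dbl_add c.add]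
  calc _ = g * E (v + v) * g⁻¹ * (g * E (w + w) * g⁻¹) := by group
    _ = _ := by rw [a, b]

theorem S0.eqQ (h : S0 t i Γ Q) (c : Co Q E) {g k : G}
    (h1 : g * E (2, 0, 0) * g⁻¹ = k * E (2, 0, 0) * k⁻¹)
    (h2 : g * E (0, 2, 0) * g⁻¹ = k * E (0, 2, 0) * k⁻¹)
    (h3 : g * E (0, 0, 2) * g⁻¹ = k * E (0, 0, 2) * k⁻¹) : ∃ q, g = k * E q := by
  have a : ∀ x, g * x * g⁻¹ = k * x * k⁻¹ → k⁻¹ * g * x * (k⁻¹ * g)⁻¹ = x := fun x e => by
    calc _ = k⁻¹ * (g * x * g⁻¹) * k := by group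
      _ = _ := by rw [e]; group
  obtain ⟨q, hq⟩ := (c.mem _).mp (h.memQ c (a _ h1) (a _ h2) (a _ h3))
  exact ⟨q, by rw [hq]; group⟩

theorem S0.eqA (h : S0 t i Γ Q) (c : Co Q E) {g k : G} {f f' : A → A} (a : Act E g f)
    (b : Act E k f') (e : E2 f f') : ∃ q, g = k * E q :=
  h.eqQ c (by rw [a, b, e.1]) (by rw [a, b, e.2.1]) (by rw [a, b, e.2.2])

theorem S0.eqA1 (h : S0 t i Γ Q) (c : Co Q E) {g : G} {f : A → A} (a : Act E g f)
    (e : E2 f fun v => v) : ∃ q, g = E q :=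
  by simpa using h.eqA c a (k := 1) (fun v => by simp) e

theorem S0.exact (h : S0 t i Γ Q) (c : Co Q E) {g k : G} {f f' : A → A} (a : Act E g f)
    (b : Act E k f') (e : E2 f f') : E3 f f' := by
  obtain ⟨q, rfl⟩ := h.eqA c a b e
  exact E3.of (c.uniq a (b.mul (c.add.act q)))

variable [Finite G]

theorem S0.conj3 (h : S0 t i Γ Q) {X : Subgroup G} (hX : X ≤ centralizer {t}) {d z : G} (hd : d ∈ X)
    (d3 : d ^ 3 = 1) (d1 : d ≠ 1) (hz : z ∈ X) (z3 : z ^ 3 = 1) :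
    ∃ x ∈ X, ∃ j : ℤ, d ^ j = x * z * x⁻¹ := by
  have := Fact.mk Nat.prime_three
  have h1 : Nat.card (zpowers d) = 3 := by rw [Nat.card_zpowers, orderOf_eq_prime d3 d1]
  obtain ⟨m, hm⟩ := card_dvd_of_le (zpowers_le.mpr hd)
  have h2 := card_dvd_of_le hX
  rw [h.cH, hm, h1] at h2
  exact conj_into (p := 3) (zpowers_le.mpr hd) hm (by
    rintro ⟨k, rfl⟩
    exact absurd ((Dvd.intro k (by ring) : 9 ∣ 3 * (3 * k)).trans h2) (by norm_num)) hz z3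

theorem S0.conjR (h : S0 t i Γ Q) {d z : G} (hd : (d, δ) ∈ Γ) (d3 : d ^ 3 = 1) (hz : (z, δ) ∈ Γ)
    (z3 : z ^ 3 = 1) : ∃ r, (r, 1) ∈ Γ ∧ r * z * r⁻¹ = d := by
  let X : Subgroup G := (Γ ⊓ (zpowers δ).comap (MonoidHom.snd _ _)).map (MonoidHom.fst _ _)
  obtain ⟨_, ⟨⟨x, _⟩, ⟨hx, k, rfl⟩, rfl⟩, j, hj⟩ := h.conj3 (X := X) (by
      rintro _ ⟨⟨x, σ⟩, hx, rfl⟩
      exact mem_centralizer_singleton_iff.mpr (h.comm hx.1))
    ⟨_, ⟨hd, mem_zpowers _⟩, rfl⟩ d3 (by rintro rfl; exact absurd (h.fn _ hd) (by decide))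
    ⟨_, ⟨hz, mem_zpowers _⟩, rfl⟩ z3
  have hr : ((d ^ k)⁻¹ * x, 1) ∈ Γ := gcast (gmul (ginv (Γ.zpow_mem hd k)) hx) (inv_mul_cancel _)
  have e : (d ^ k)⁻¹ * x * z * ((d ^ k)⁻¹ * x)⁻¹ = d ^ j := by
    calc _ = (d ^ k)⁻¹ * (x * z * x⁻¹) * d ^ k := by group
      _ = _ := by rw [← show d ^ j = x * z * x⁻¹ from hj]; group
  refine ⟨_, hr, e.trans (mul_inv_eq_one.mp ?_)⟩
  have h4 := h.four (gcast (gmul (gmul (gmul hr hz) (ginv hr)) (ginv hd)) (by simp))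
  rw [e] at h4
  have h3 : (d ^ j * d⁻¹) ^ 3 = 1 := by
    calc _ = (d ^ 3) ^ (j - 1) := by group
      _ = 1 := by rw [d3, one_zpow]
  rwa [pow_succ, h3, one_mul] at h4

theorem S0.lift (h : S0 t i Γ Q) {d d' : G} (hd : (d, δ) ∈ Γ) (d3 : d ^ 3 = 1) {σ τ : Perm (Fin 5)}
    (hd' : (d', τ) ∈ Γ) (d3' : d' ^ 3 = 1) (e : σ * τ * σ⁻¹ = δ) :
    ∃ s, (s, σ) ∈ Γ ∧ s * d' * s⁻¹ = d := by
  obtain ⟨s, hs⟩ := h.surj σ
  obtain ⟨r, hr, e'⟩ := h.conjR hd d3 (gcast (gmul (gmul hs hd') (ginv hs)) e)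
    (by rw [conj_pow, d3']; simp)
  exact ⟨r * s, gcast (gmul hr hs) (one_mul _), by rw [← e']; group⟩

/-- The setting with coordinates and an element of order three. -/
structure S1 (t : G) (Γ : Subgroup (G × Perm (Fin 5))) (Q : Subgroup G) (E : A → G) (d : G) :
    Prop where
  s0 : S0 t (E (1, 0, 0)) Γ Q
  co : Co Q E
  hd : (d, δ) ∈ Γ
  d3 : d ^ 3 = 1
  aD : Act E d Dm

omit [Finite G] in
theorem S0.exists_S1 (h : S0 t i Γ Q) : ∃ E d, S1 t Γ Q E d := by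
  obtain ⟨d₀, h0⟩ := h.surj δ
  have hd : (d₀ ^ 4, δ) ∈ Γ := gcast (gpow h0 4) (by decide)
  have d3 : (d₀ ^ 4) ^ 3 = 1 := by
    rw [← pow_mul, mul_comm, pow_mul]
    exact h.four (gcast (gpow h0 3) (by decide))
  generalize d₀ ^ 4 = d at hd d3
  obtain ⟨E, c⟩ := h.co
  obtain ⟨p, q, r, a⟩ := c.exists_act ((h.hB _ _ hd).mp (by decide))
  have f3 := c.uniq (a.pow 3) (f' := fun v => v) fun v => by simp [d3]
  simp only [Function.iterate_succ, Function.iterate_zero, Function.comp_apply, id] at f3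
  generalize hf : lin p q r = f at a f3
  have fa : ∀ v w, f (v + w) = f v + f w := hf ▸ lin_add p q r
  have fs : ∀ v w, f (v - w) = f v - f w := fun v w => by rw [eq_sub_iff_add_eq, ← fa, sub_add_cancel]
  obtain ⟨j, rfl⟩ := (c.mem i).mp h.iQ
  have j2 : j + j ≠ 0 := fun e => h.t1 (by rw [← h.ii, ← c.add, e, c.add.zero])
  have hj : f j = j := by
    rcases h.iN d (h.comm hd) with e | e
    · exact c.inj (by rw [← a, e])
    rw [a, c.add.neg] at e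
    have e' := c.inj e
    have e2 : f (-j) = j := by simpa [e', show f 0 = 0 by simpa using fa 0 0] using fs 0 j
    have := f3 j
    rw [e', e2, e'] at this
    exact absurd (by linear_combination -this) j2
  obtain ⟨v, hv⟩ : ∃ v, f v + f v ≠ v + v := by
    by_contra hc
    push Not at hc
    obtain ⟨w, rfl⟩ := h.eqA1 c a ⟨(fa (1, 0, 0) (1, 0, 0)).trans (hc _),
      (fa (0, 1, 0) (0, 1, 0)).trans (hc _), (fa (0, 0, 1) (0, 0, 1)).trans (hc _)⟩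
    have k : ∀ w : A, 3 • w = 0 → w = 0 := by decide +kernel
    rw [← c.add.nsmul, c.eq_one] at d3
    rw [k w d3, c.add.zero] at hd
    exact absurd (h.fn _ hd) (by decide)
  obtain ⟨c', a'⟩ := c.rebase_d fa a hj j2 (q := v - f v) (by simp only [fs, f3]; ring)
    fun e => hv (by linear_combination -e)
  exact ⟨_, d, by simpa only [lin_1] using h, c', hd, d3, a'⟩

variable {d : G}

omit [Finite G] in
theorem S1.tE (h : S1 t Γ Q E d) : E (2, 0, 0) = t := (h.co.add (1, 0, 0) (1, 0, 0)).trans h.s0.ii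

omit [Finite G] in
theorem S1.VR (h : S1 t Γ Q E d) (v : A) : (E (v + v), 1) ∈ Γ :=
  h.co.add v v ▸ h.s0.VR _ (h.co.mem' v)

omit [Finite G] in
theorem S1.cR (h : S1 t Γ Q E d) {r : G} (hr : (r, 1) ∈ Γ) (hc : r * d = d * r) :
    ∃ k, r = E (k, 0, 0) := by
  obtain ⟨p, q, s, a⟩ := h.co.exists_act ((h.s0.hB _ _ hr).mp rfl)
  have e := h.co.uniq (a.mul h.aD) (hc ▸ h.aD.mul a)
  have e1 : p = (1, 0, 0) := by simpa only [lin_1] using (h.co.fix a).mp (h.s0.iZ r hr)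
  have e2 : s = Dm q := by simpa only [show Dm (0, 1, 0) = (0, 0, 1) from rfl, lin_2, lin_3] using e (0, 1, 0)
  subst e1 e2
  obtain ⟨w, rfl⟩ := h.s0.eqA1 h.co a (dec_cR q (by
    have := h.s0.cm _ _ hr (h.VR (0, 1, 0))
    rw [a, lin_add, lin_2, ← h.tE, ← h.co.add, h.co.inj.eq_iff, h.co.inj.eq_iff] at this
    exact this) (by
    have k := lin_zero (1, 0, 0) q (Dm q)
    rwa [show (0 : A) = (0, 1, 0) + (0, 0, 1) + Dm (0, 0, 1) by decide +kernel, lin_add, lin_add, lin_2,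
      e, lin_3, show (0, 1, 0) + (0, 0, 1) + Dm (0, 0, 1) = (0 : A) by decide +kernel] at k))
  exact ⟨_, congrArg E (dec_fixD w ((h.co.fix h.aD).mp hc.symm))⟩

omit [Finite G] in
theorem S1.conjZ (h : S1 t Γ Q E d) {g : G} (hg : g * t = t * g) (k : ZMod 4) :
    g * E (k, 0, 0) * g⁻¹ = E (k, 0, 0) ∨ g * E (k, 0, 0) * g⁻¹ = E (-k, 0, 0) := by
  have e : ∀ k : ZMod 4, ((k, 0, 0) : A) = k.val • ((1, 0, 0) : A) ∧
      ((-k, 0, 0) : A) = k.val • -((1, 0, 0) : A) := by decide +kernel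
  rw [(e k).1, (e k).2, h.co.add.nsmul, h.co.add.nsmul, ← conj_pow, ← h.co.add.neg]
  exact (h.s0.iN g hg).imp (fun e => by rw [e]) fun e => by rw [e]

theorem S1.cR' (h : S1 t Γ Q E d) {z r : G} {σ : Perm (Fin 5)} (hz : (z, σ) ∈ Γ) (z3 : z ^ 3 = 1)
    (z1 : z ≠ 1) (hr : (r, 1) ∈ Γ) (hc : r * z = z * r) : ∃ k, r = E (k, 0, 0) := by
  obtain ⟨x, hx, j, hj⟩ := h.s0.conj3 le_rfl (mem_centralizer_singleton_iff.mpr (h.s0.comm hz)) z3 z1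
    (mem_centralizer_singleton_iff.mpr (h.s0.comm h.hd)) h.d3
  rw [mem_centralizer_singleton_iff] at hx
  obtain ⟨τ, hτ⟩ := (h.s0.hH x).mp hx
  obtain ⟨k, hk⟩ := h.cR (gconj (ginv hτ) hr) (by
    have := comm_of_conj (hj ▸ (Commute.zpow_right hc j).eq)
    simpa using this)
  have e : r = x * E (k, 0, 0) * x⁻¹ := by rw [← hk]; group
  exact (h.conjZ hx k).elim (fun e' => ⟨_, e.trans e'⟩) fun e' => ⟨_, e.trans e'⟩

theorem S1.exists_s (h : S1 t Γ Q E d) : ∃ E s ε, S1 t Γ Q E d ∧ (s, swap 0 1) ∈ Γ ∧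
    s * d⁻¹ * s⁻¹ = d ∧ (ε = (1, 0, 0) ∨ ε = (3, 0, 0)) ∧ Act E s (Se ε) := by
  obtain ⟨s, hs, e⟩ := h.s0.lift h.hd h.d3 (ginv h.hd) (by rw [inv_pow, h.d3, inv_one])
    (σ := swap 0 1) (by decide)
  obtain ⟨p, q, r, a⟩ := h.co.exists_act ((h.s0.hB _ _ hs).mp (by decide))
  have e1 : d * s * d = s := by nth_rewrite 1 [← e]; group
  have e2 := h.co.uniq (e1 ▸ (h.aD.mul a).mul h.aD) a
  have e3 : r = Dm (Dm q) := by
    have := congrArg (fun v => Dm (Dm v)) (e2 (0, 1, 0))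
    have k : ∀ v, Dm (Dm (Dm v)) = v := by decide +kernel
    simpa only [k, show Dm (0, 1, 0) = (0, 0, 1) from rfl, lin_2, lin_3] using this
  subst e3
  have hp : p = (1, 0, 0) ∨ p = (3, 0, 0) := by
    have := h.conjZ (h.s0.comm hs) 1
    rwa [a, lin_1, h.co.inj.eq_iff, h.co.inj.eq_iff] at this
  obtain ⟨k, hk⟩ := h.cR (gcast (gmul hs hs) (by decide)) (by
    calc s * s * d = s * d⁻¹ * (d * s * d) := by group
      _ = s * d⁻¹ * s⁻¹ * (s * s) := by rw [e1]; group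
      _ = _ := by rw [e])
  obtain ⟨b, b1, b2, b3⟩ := dec_s p hp q (E3.of (h.co.uniq (a.mul a) (hk ▸ h.co.add.act _))) (E3.of e2)
  obtain ⟨c', a'⟩ := h.co.rebase_d (lin_add _ _ _) h.aD (p := (1, 0, 0)) rfl (by decide) b2 b3
  refine ⟨_, s, p, ⟨by simpa only [lin_1] using h.s0, c', h.hd, h.d3, a'⟩, hs, e, hp,
    c'.add.act_lin ?_ ?_ ?_⟩
  · rw [lin_1, a, lin_1]
    rcases hp with rfl | rfl
    · rw [lin_1]
    · congr 1; simp [lin]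
  · rw [lin_2, a, b1]
  · have e4 := a' (0, 0, 1)
    simp only [lin_3] at e4 ⊢
    have e5 : s * d * s⁻¹ = d * d := by
      rw [← inv_inj, conj_inv, e, eq_inv_iff_mul_eq_one, ← h.d3, pow_three]
    calc _ = s * d * s⁻¹ * (s * E b * s⁻¹) * (s * d * s⁻¹)⁻¹ := by
          rw [show E (lin (1, 0, 0) (0, 0, 1) (0, 3, 3) b) = _ from (h.aD b).symm]; group
      _ = d * (d * E b * d⁻¹) * d⁻¹ := by rw [e5, a, b1]; group
      _ = _ := by rw [h.aD]; exact e4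

/-- The action of `c` before the sign of `s` is known. -/
def Ce (ε : A) : A → A := lin (1, 0, 0) ((1, 3, 0) - ε + (2, 0, 0)) (3, 2, 3)

/-- The setting with the elements `s`, `g`, `c`. -/
structure S2 (t : G) (Γ : Subgroup (G × Perm (Fin 5))) (Q : Subgroup G) (E : A → G) (d s g c : G) :
    Prop extends S1 t Γ Q E d where
  hs : (s, swap 0 1) ∈ Γ
  sd : s * d⁻¹ * s⁻¹ = d
  hg : (g, swap 3 4) ∈ Γ
  gd : g * d * g⁻¹ = d
  gc : g * E (0, 2, 0) * g⁻¹ = c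
  sc : s * c = c * s

omit [Finite G] in
theorem S1.cube (h : S1 t Γ Q E d) {g c : G} (gd : g * d * g⁻¹ = d) (gc : g * E (0, 2, 0) * g⁻¹ = c) :
    c * c = 1 ∧ d * c * d⁻¹ = g * E (0, 0, 2) * g⁻¹ ∧ c * (d * c * d⁻¹) = d * c * d⁻¹ * c ∧
      (c * d) ^ 3 = 1 := by
  have e : ∀ v, d * (g * E v * g⁻¹) * d⁻¹ = g * E (Dm v) * g⁻¹ := fun v => by
    rw [← h.aD]; nth_rewrite 1 2 [← gd]; group
  have e1 : d * c * d⁻¹ = g * E (0, 0, 2) * g⁻¹ := by rw [← gc, e]; rfl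
  refine ⟨gc ▸ conj_mul_self_eq_one (by rw [← h.co.add]; exact h.co.add.zero) g, e1, ?_, ?_⟩
  · rw [e1, ← gc]; exact comm_conj (h.co.add.comm _ _)
  · calc _ = c * (d * c * d⁻¹) * (d * (d * c * d⁻¹) * d⁻¹) * d ^ 3 := by
          simp only [pow_succ, pow_zero]; group
      _ = g * (E (0, 2, 0) * E (0, 0, 2) * E (Dm (0, 0, 2))) * g⁻¹ := by
          rw [e1, e, h.d3, ← gc]; group
      _ = 1 := by
          rw [← h.co.add, ← h.co.add, show (0, 2, 0) + (0, 0, 2) + Dm (0, 0, 2) = (0 : A) by decide +kernel,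
            h.co.add.zero]; group

theorem S1.exists_S2 (h : S1 t Γ Q E d) : ∃ E s g c ε, S2 t Γ Q E d s g c ∧
    (ε = (1, 0, 0) ∨ ε = (3, 0, 0)) ∧ Act E s (Se ε) ∧ Act E c (Ce ε) := by
  obtain ⟨E, s, ε, h, hs, sd, hε, aS⟩ := h.exists_s
  obtain ⟨g, hg, gd⟩ := h.s0.lift h.hd h.d3 h.hd h.d3 (σ := swap 3 4) (by decide)
  obtain ⟨c, gc⟩ : ∃ c, g * E (0, 2, 0) * g⁻¹ = c := ⟨_, rfl⟩
  obtain ⟨cc, xg, -, cd⟩ := h.cube gd gc
  have hc : (c, 1) ∈ Γ := gc ▸ gconj hg (h.VR (0, 1, 0))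
  have sc : s * c = c * s := by
    obtain ⟨k, hk⟩ := h.cR (gcast (gmul (gmul (gmul (ginv hs) (ginv hg)) hs) hg) (by decide)) (by
      have a1 : s * d * s⁻¹ = d⁻¹ := by nth_rewrite 2 [← sd]; group
      rw [← conj_eq_iff_comm]
      calc _ = s⁻¹ * g⁻¹ * (s * (g * d * g⁻¹) * s⁻¹) * g * s := by group
        _ = s⁻¹ * g⁻¹ * (g * (s * d * s⁻¹)⁻¹ * g⁻¹)⁻¹ * g * s := by rw [gd, a1, inv_inv, gd]
        _ = _ := by group)
    rw [← gc]
    calc _ = g * s * (s⁻¹ * g⁻¹ * s * g * E (0, 2, 0)) * g⁻¹ := by group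
      _ = g * (s * E (0, 2, 0)) * (s⁻¹ * g⁻¹ * s * g) * g⁻¹ := by rw [hk, h.co.add.comm]; group
      _ = _ := by
          rw [aS.mv, show Se ε (0, 2, 0) = (0, 2, 0) by rcases hε with rfl | rfl <;> decide +kernel]; group
  have cQ : c ∉ Q := fun cQ => by
    have a1 : ∀ v, g * E (v + v) * g⁻¹ ∈ Q := indA (by simp [h.co.add.zero]) (fun v w a b => by
        rw [dbl_add h.co.add, show ∀ x y, g * (x * y) * g⁻¹ = g * x * g⁻¹ * (g * y * g⁻¹) from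
          fun x y => by group]
        exact mul_mem a b)
      (by rw [show E ((1, 0, 0) + (1, 0, 0)) = t from h.tE, conj_eq_iff_comm.2 (h.s0.comm hg), ← h.tE]
          exact h.co.mem' _)
      (gc ▸ cQ) (xg ▸ conj_mem_of_mem_normalizer (h.co.norm h.aD) cQ)
    refine absurd ((h.s0.hB _ _ (ginv hg)).mpr (mem_normalizer_of_conj_mem fun q hq =>
      h.s0.CV _ fun q' hq' => ?_)) (by decide)
    obtain ⟨v, rfl⟩ := (h.co.mem _).mp hq
    obtain ⟨w, rfl⟩ := (h.co.mem _).mp hq'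
    obtain ⟨u, hu⟩ := (h.co.mem _).mp (a1 w)
    rw [conj_eq_iff_comm, ← h.co.add, inv_inv]
    exact comm_of_conj (hu ▸ h.co.add.comm _ _)
  obtain ⟨o, p, q, a⟩ := h.co.exists_act ((h.s0.hB _ _ hc).mp rfl)
  have e1 : o = (1, 0, 0) := by simpa only [lin_1] using (h.co.fix a).mp (h.s0.iZ c hc)
  subst e1
  have e2 := h.co.uniq (aS.mul a) (sc ▸ a.mul aS)
  obtain ⟨rfl, hq⟩ := dec_c ε hε p (by
      simpa only [lin_2, show Se ε (0, 1, 0) = (0, 1, 0) from lin_2 _ _ _] using e2 (0, 1, 0)) q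
    (E3.of (h.co.uniq (a.mul a) fun v => by simp [cc])) (E3.of e2)
    (E3.of (h.co.uniq ((a.mul h.aD).pow 3) fun v => by simp [cd])) fun e => by
      obtain ⟨w, rfl⟩ := h.s0.eqA1 h.co a e
      exact cQ (h.co.mem' w)
  rcases hq with rfl | rfl
  swap
  · exact ⟨E, s, g, c, ε, ⟨h, hs, sd, hg, gd, gc, sc⟩, hε, aS, a⟩
  have k : ∀ {x : G} {f f' : A → A}, Act E x f → (∀ v, f (lin (3, 0, 0) (0, 1, 0) (0, 0, 1) v) =
      lin (3, 0, 0) (0, 1, 0) (0, 0, 1) (f' v)) →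
      Act (fun v => E (lin (3, 0, 0) (0, 1, 0) (0, 0, 1) v)) x f' := fun a e v => by rw [a, e]
  refine ⟨fun v => E (lin (3, 0, 0) (0, 1, 0) (0, 0, 1) v), s, g, c, ε, ⟨⟨?_,
    h.co.rebase (by decide +kernel), h.hd, h.d3, k h.aD (by decide +kernel)⟩, hs, sd, hg, gd, gc, sc⟩, hε,
    k aS (by rcases hε with rfl | rfl <;> decide +kernel),
    k a (by rcases hε with rfl | rfl <;> decide +kernel)⟩
  have := h.s0.symm
  rwa [h.co.add.neg] at this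

end Cfsg.Agent.H7.HS
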