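import Cfsg.Agent.H7.HS.Loc1

/-!
# Local analysis, part 2: the normalizer of the homocyclic group
-/

set_option autoImplicit false
set_option maxRecDepth 100000
set_option synthInstance.maxSize 100000

namespace Cfsg.Agent.H7.HS

open Subgroup Equiv Cfsg.Agent.H5 Cfsg.Agent.H7.Asch

variable {G : Type*} [Group G]
variable {t i : G} {Γ : Subgroup (G × Perm (Fin 5))} {Q : Subgroup G} {E : A → G} {d s g c y : G}

theorem lin_21 (p q r : A) : lin p q r (2, 0, 0) = p + p :=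
  (lin_add p q r (1, 0, 0) (1, 0, 0)).trans (by rw [lin_1])

theorem lin_22 (p q r : A) : lin p q r (0, 2, 0) = q + q :=
  (lin_add p q r (0, 1, 0) (0, 1, 0)).trans (by rw [lin_2])

theorem lin_23 (p q r : A) : lin p q r (0, 0, 2) = r + r :=
  (lin_add p q r (0, 0, 1) (0, 0, 1)).trans (by rw [lin_3])

theorem Hm.cat {B : Type*} [AddCommGroup B] {E : B → G} (h : Hm E) (v w : B) (x : G) :
    E v * (E w * x) = E (v + w) * x := by rw [h, mul_assoc]

theorem Hm.cat' {B : Type*} [AddCommGroup B] {E : B → G} (h : Hm E) (v w : B) :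
    E v * E w = E (v + w) := (h v w).symm

theorem sq_cancel {a : G} (h : a * a = 1) (x : G) : a * (a * x) = x := by rw [← mul_assoc, h, one_mul]

theorem S0.exists_y [Finite G] (h : S0 t i Γ Q) (c : Co Q E) : ∃ y p q r, Act E y (lin p q r) ∧
    p + p = (2, 2, 0) ∧ q + q = (2, 0, 0) ∧ r + r = (0, 2, 2) := by
  classical
  have := Fintype.ofFinite G
  by_contra hn
  choose! p q r a using fun g (hg : g ∈ normalizer (Q : Set G)) => c.exists_act hg
  have h1 := Finset.card_le_mul_card_image_of_maps_to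
    (s := Finset.univ.filter (· ∈ normalizer (Q : Set G)))
    (t := ((Finset.univ.filter (fun v : A => v + v = 0) ×ˢ
      Finset.univ.filter (fun v : A => v + v = 0) ×ˢ Finset.univ.filter (fun v : A => v + v = 0)).filter
      fun x => x.1 ≠ 0 ∧ x.2.1 ≠ 0 ∧ x.2.2 ≠ 0 ∧ x.1 + x.2.1 ≠ 0 ∧ x.1 + x.2.2 ≠ 0 ∧ x.2.1 + x.2.2 ≠ 0 ∧
        x.1 + x.2.1 + x.2.2 ≠ 0).erase ((2, 2, 0), (2, 0, 0), (0, 2, 2)))
    (f := fun g => (p g + p g, q g + q g, r g + r g)) (fun g hg => ?_) 64 fun b _ => ?_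
  · rw [Finset.card_erase_of_mem (by decide +kernel), card_bases, ← Fintype.card_subtype,
      ← Nat.card_eq_fintype_card, h.cM] at h1
    omega
  · replace a := a g (Finset.mem_filter.mp hg).2
    have k : ∀ v : A, v + v + (v + v) = 0 := by decide +kernel
    have k' : ∀ v, v ≠ 0 → lin (p g) (q g) (r g) v ≠ 0 := fun v hv e => by
      have := a v
      rw [e, c.add.zero] at this
      exact hv (c.eq_one.mp (by simpa using this))
    simp only [Finset.mem_erase, Finset.mem_filter, Finset.mem_product, Finset.mem_univ, true_and, k]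
    refine ⟨fun e => hn ⟨g, _, _, _, a, by simpa only [Prod.mk.injEq] using e⟩, ?_⟩
    rw [← lin_21 (p g) (q g) (r g), ← lin_22 (p g) (q g) (r g), ← lin_23 (p g) (q g) (r g)]
    simp only [← lin_add]
    refine ⟨k' _ ?_, k' _ ?_, k' _ ?_, k' _ ?_, k' _ ?_, k' _ ?_, k' _ ?_⟩ <;> decide +kernel
  · by_cases he : ∃ g₀, g₀ ∈ (Finset.univ.filter (· ∈ normalizer (Q : Set G))).filter
        fun g => (p g + p g, q g + q g, r g + r g) = b
    · obtain ⟨g₀, h0⟩ := he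
      refine (Finset.card_le_card (t := Finset.univ.image fun v : A => g₀ * E v) fun g hg => ?_).trans
        (Finset.card_image_le.trans (by simp))
      simp only [Finset.mem_filter, Finset.mem_univ, true_and] at h0 hg
      have e := hg.2.trans h0.2.symm
      simp only [Prod.mk.injEq] at e
      obtain ⟨w, rfl⟩ := h.eqA c (a g hg.1) (a g₀ h0.1)
        (by simpa only [E2, lin_21, lin_22, lin_23] using e)
      exact Finset.mem_image_of_mem _ (Finset.mem_univ w)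
    · rw [Finset.eq_empty_of_forall_notMem (not_exists.mp he)]; simp

theorem Act.dbl {g : G} {p q r : A} (a : Act E g (lin p q r)) :
    Act (fun v => E (v + v)) g (lin p q r) := fun v => by rw [a, lin_add]

theorem S0.eqD (h : S0 t i Γ Q) (c : Co Q E) {g k : G} {f f' : A → A}
    (a : Act (fun v => E (v + v)) g f) (b : Act (fun v => E (v + v)) k f')
    (e : E3 (fun v => f v + f v) fun v => f' v + f' v) : ∃ q, g = k * E q :=
  h.eqQ c ((a (1, 0, 0)).trans ((congrArg E e.1).trans (b (1, 0, 0)).symm))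
    ((a (0, 1, 0)).trans ((congrArg E e.2.1).trans (b (0, 1, 0)).symm))
    ((a (0, 0, 1)).trans ((congrArg E e.2.2).trans (b (0, 0, 1)).symm))

theorem S0.exD (h : S0 t i Γ Q) (c : Co Q E) {g k : G} {f f' f₁ f₁' : A → A}
    (a : Act (fun v => E (v + v)) g f) (b : Act (fun v => E (v + v)) k f')
    (e : E3 (fun v => f v + f v) fun v => f' v + f' v) (a₁ : Act E g f₁) (b₁ : Act E k f₁') :
    E3 f₁ f₁' := by
  obtain ⟨q, rfl⟩ := h.eqD c a b e
  exact E3.of (c.uniq a₁ (b₁.mul (c.add.act q)))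

theorem act_one {B : Type*} [AddCommGroup B] (E : B → G) : Act E 1 fun v => v := fun v => by simp

theorem S1.aX (h : S1 t Γ Q E d) (aC : Act E c Cm) : Act E (d * c * d⁻¹) Xm :=
  ((h.aD.mul aC).mul (h.aD.inv (f' := fun v => Dm (Dm v)) (by decide +kernel))).congr
    (by decide +kernel)

theorem S2.exists_y [Finite G] (h : S2 t Γ Q E d s g c) {ε : A} (hε : ε = (1, 0, 0) ∨ ε = (3, 0, 0))
    (aS : Act E s (Se ε)) (aC : Act E c (Ce ε)) : ε = (3, 0, 0) ∧ ∃ y, Act E y Ym := by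
  obtain ⟨y, p, q, r, a, hp, hq, hr⟩ := h.s0.exists_y h.co
  have b : Act (fun v => E (v + v)) y Ym := fun v => by
    rw [a.dbl]
    refine congrArg E (indA (P := fun v => lin p q r v + lin p q r v = Ym v + Ym v) ?_ ?_ ?_ ?_ ?_ v)
    · simp [Ym, lin_zero]
    · intro v w a b
      simp only [Ym, lin_add] at a b ⊢
      linear_combination a + b
    · rwa [lin_1]
    · rwa [lin_2]
    · rwa [lin_3]
  have e1 := h.s0.exD h.co (b.mul aS.dbl) (aC.dbl.mul b)
    (by rcases hε with rfl | rfl <;> decide +kernel) (a.mul aS) (aC.mul a)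
  have e2 := h.s0.exD h.co (b.mul aC.dbl) (aS.dbl.mul (aC.dbl.mul b))
    (by rcases hε with rfl | rfl <;> decide +kernel) (a.mul aC) (aS.mul (aC.mul a))
  obtain ⟨rfl, k⟩ := dec_y ε hε q hq (by
    simpa only [show Se ε (0, 1, 0) = (0, 1, 0) from lin_2 _ _ _, lin_2, Ce] using e1.2.1.symm) p hp r hr e1 e2
  have aX := h.aX aC
  obtain ⟨rfl, rfl, rfl⟩ := k
    (h.s0.exD h.co (b.pow 3) (act_one _) (by decide +kernel) (a.pow 3) (act_one _))
    (h.s0.exD h.co ((aX.dbl.mul b).pow 2) (act_one _) (by decide +kernel) ((aX.mul a).pow 2) (act_one _))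
    (h.s0.exD h.co ((h.aD.dbl.mul b).pow 7) (act_one _) (by decide +kernel) ((h.aD.mul a).pow 7)
      (act_one _))
  exact ⟨rfl, y, a⟩

theorem S0.pow_eq (h : S0 t i Γ Q) (c : Co Q E) {g : G} {f : A → A} (a : Act E g f) (n : ℕ)
    (e : E2 f^[n] fun v => v) : ∃ q, g ^ n = E q ∧ f q = q := by
  obtain ⟨q, hq⟩ := h.eqA1 c (a.pow n) e
  exact ⟨q, hq, (c.fix a).mp (hq ▸ (Commute.self_pow g n).eq)⟩

theorem S0.fpf (h : S0 t i Γ Q) (c : Co Q E) {g : G} {f : A → A} (a : Act E g f) (n : ℕ)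
    (e : E2 f^[n] (fun v => v) ∧ ∀ v, f v = v → v = 0) : g ^ n = 1 := by
  obtain ⟨q, hq, h1⟩ := h.pow_eq c a n e.1
  rw [hq, e.2 q h1, c.add.zero]

/-- The relations in the normalizer of `Q`. -/
structure S3 (t : G) (Γ : Subgroup (G × Perm (Fin 5))) (Q : Subgroup G) (E : A → G) (d s g c y : G) :
    Prop extends S2 t Γ Q E d s g c where
  aS : Act E s Sm
  aC : Act E c Cm
  aY : Act E y Ym
  ss : s * s = 1
  ys : y * s * y⁻¹ = c
  yc : y * c * y⁻¹ = s * c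
  y3 : y ^ 3 = 1
  xy : (d * c * d⁻¹ * y) ^ 2 = 1
  dy : (d * y) ^ 7 = 1
  dy' : (d * y * d⁻¹ * y⁻¹) ^ 7 = 1

theorem Cm_Cm : ∀ v, Cm (Cm v) = v := by decide +kernel

theorem Sm_Sm : ∀ v, Sm (Sm v) = v := by decide +kernel

theorem Xm_Xm : ∀ v, Xm (Xm v) = v := by decide +kernel

theorem S2.adj1 (h : S2 t Γ Q E d s g c) (aS : Act E s Sm) (aC : Act E c Cm) (aY : Act E y Ym) :
    ∃ s y, S2 t Γ Q E d s g c ∧ Act E s Sm ∧ Act E y Ym ∧ s * s = 1 ∧ y * s * y⁻¹ = c := by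
  obtain ⟨cc, -⟩ := h.cube h.gd h.gc
  have ad := h.co.add
  obtain ⟨k, hk⟩ := h.cR (gcast (gmul h.hs h.hs) (by decide)) (by
    rw [← conj_eq_iff_comm]
    calc _ = s * (s * d⁻¹ * s⁻¹)⁻¹ * s⁻¹ := by group
      _ = _ := by rw [h.sd, h.sd])
  obtain ⟨q, hq⟩ := h.s0.eqA h.co (aY.mul aS) (aC.mul aY) (by decide +kernel)
  have e1 : y * s * y⁻¹ = c * E (Ym q) := by rw [hq, ← aY]; group
  obtain ⟨rfl, j, z, e⟩ := dec_adj1 k ((h.co.fix aS).mp (by rw [← hk, mul_assoc])) (Ym q) (h.co.inj (by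
    rw [← aY, ← hk, show y * (s * s) * y⁻¹ = y * s * y⁻¹ * (y * s * y⁻¹) by group, e1]
    simp only [mul_assoc, aC.mv', aC.mv, cc, mul_one, ad.cat', Cm_Cm]))
  have ss : s * s = 1 := hk.trans ad.zero
  have k : ∀ j : ZMod 4, Dm (j, 0, 0) = (j, 0, 0) ∧ Cm (j, 0, 0) = (j, 0, 0) ∧
      Sm (j, 0, 0) + (j, 0, 0) = 0 ∧ ((j, 0, 0) : A) = j.val • ((1, 0, 0) : A) := by decide +kernel
  have jD : d * E (j, 0, 0) = E (j, 0, 0) * d := (h.co.fix h.aD).mpr (k j).1
  have jC : c * E (j, 0, 0) = E (j, 0, 0) * c := (h.co.fix aC).mpr (k j).2.1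
  refine ⟨s * E (j, 0, 0), E z * y, ⟨h.toS1, ?_, ?_, h.hg, h.gd, h.gc, ?_⟩, aS.mul (ad.act _),
    (ad.act _).mul aY, ?_, ?_⟩
  · rw [(k j).2.2.2, ad.nsmul]
    exact gcast (gmul h.hs (gpow h.s0.iR _)) (by simp)
  · calc _ = s * (E (j, 0, 0) * d * (E (j, 0, 0))⁻¹)⁻¹ * s⁻¹ := by group
      _ = _ := by rw [← jD, mul_inv_cancel_right, h.sd]
  · rw [mul_assoc, ← jC, ← mul_assoc, h.sc, mul_assoc]
  · rw [mul_assoc, aS.mv', ← mul_assoc s, ss, one_mul, ad.cat', (k j).2.2.1, ad.zero]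
  · calc _ = E z * (y * s * y⁻¹ * (y * E (j, 0, 0) * y⁻¹ * (E z)⁻¹)) := by group
      _ = c * (c * E z * c⁻¹ * (E (Ym q) * (E (Ym (j, 0, 0)) * E (-z)))) := by
          rw [e1, aY, ad.neg, inv_eq_of_mul_eq_one_left cc]; simp only [mul_assoc, sq_cancel cc]
      _ = _ := by
          rw [aC]; simp only [ad.cat', ← add_assoc, e, ad.zero, mul_one]

theorem S2.xs (h : S2 t Γ Q E d s g c) (ss : s * s = 1) :
    d * c * d⁻¹ * s * (d * c * d⁻¹)⁻¹ = s * c := by
  obtain ⟨cc, -, cx, cd⟩ := h.cube h.gd h.gc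
  have xx := conj_mul_self_eq_one cc d
  have e1 : s * (d * c * d⁻¹) * s⁻¹ = d⁻¹ * c * d := by
    calc _ = (s * d⁻¹ * s⁻¹)⁻¹ * (s * c * s⁻¹) * (s * d⁻¹ * s⁻¹) := by group
      _ = _ := by rw [h.sd, conj_eq_iff_comm.2 h.sc]
  have e2 : d * c * d⁻¹ * c * (d⁻¹ * c * d) = 1 := by
    calc _ = c * (d * c * d⁻¹) * ((d ^ 3)⁻¹ * d * d) * c * d := by rw [cx]; group
      _ = c * d * (c * d) * (c * d) := by rw [h.d3]; group
      _ = 1 := by rw [← cd, pow_three']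
  generalize d * c * d⁻¹ = x at *
  rw [← e1, inv_eq_of_mul_eq_one_left ss] at e2
  rw [inv_eq_of_mul_eq_one_left xx]
  calc _ = x * s * x * (x * c * (s * x * s)) := by rw [e2, mul_one]
    _ = x * s * (x * x) * (c * s) * x * s := by group
    _ = x * (s * s) * (c * x) * s := by rw [xx, ← h.sc]; group
    _ = x * x * (c * s) := by rw [ss, cx]; group
    _ = _ := by rw [xx, one_mul, h.sc]

theorem S2.exists_S3 [Finite G] (h : S2 t Γ Q E d s g c) {ε : A} (hε : ε = (1, 0, 0) ∨ ε = (3, 0, 0))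
    (aS : Act E s (Se ε)) (aC : Act E c (Ce ε)) : ∃ s y, S3 t Γ Q E d s g c y := by
  obtain ⟨rfl, y, aY⟩ := h.exists_y hε aS aC
  replace aC : Act E c Cm := aC
  obtain ⟨s, y, h, aS, aY, ss, ys⟩ := h.adj1 aS aC aY
  obtain ⟨cc, -, cx, -⟩ := h.cube h.gd h.gc
  have xx := conj_mul_self_eq_one cc d
  have ad := h.co.add
  have aX := h.aX aC
  have xs := h.xs ss
  obtain ⟨x, hx⟩ : ∃ x, x = d * c * d⁻¹ := ⟨_, rfl⟩
  rw [← hx] at xx cx aX xs
  obtain ⟨q', hq⟩ := h.s0.eqA h.co (aY.mul aC) (aS.mul (aC.mul aY)) (by decide +kernel)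
  obtain ⟨q, yc⟩ : ∃ q, y * c * y⁻¹ = s * c * E q := ⟨Ym q', by rw [hq, ← aY]; group⟩
  obtain ⟨q₃, y3, f3⟩ := h.s0.pow_eq h.co aY 3 (by decide +kernel)
  obtain ⟨q₂, xy, f2⟩ := h.s0.pow_eq h.co (aX.mul aY) 2 (by decide +kernel)
  have ci := inv_eq_of_mul_eq_one_left cc
  have si := inv_eq_of_mul_eq_one_left ss
  obtain ⟨z, z1, z2, z3, z4⟩ := dec_adj2 q₃ f3 q₂ f2 q (by
    have e1 : x * y * x⁻¹ = E q₂ * y⁻¹ := by
      rw [← xy, inv_eq_of_mul_eq_one_left xx, pow_two]; group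
    have e2 : E q₂ * y⁻¹ * (s * c) * (E q₂ * y⁻¹)⁻¹ = c := by
      calc _ = x * (y * s * y⁻¹) * x⁻¹ := by rw [← e1, ← xs]; group
        _ = _ := by rw [ys, ← cx]; group
    rw [← h.co.eq_one, ad, ← aY, ad, ← aC, ← ad.neg, ← mul_right_inj (s * c), ← mul_assoc, ← yc, ci]
    calc _ = y * ((c * c) * (E q₂)⁻¹ * c * E q₂) * y⁻¹ := by group
      _ = _ := by rw [cc]; nth_rewrite 1 [← e2]; group) (by
    have e1 : y ^ 3 * s * (y ^ 3)⁻¹ = s * E (q + Ym q) := by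
      calc _ = y * (y * (y * s * y⁻¹) * y⁻¹) * y⁻¹ := by rw [pow_three]; group
        _ = y * (s * c * E q) * y⁻¹ := by rw [ys, yc]
        _ = y * s * y⁻¹ * (y * c * y⁻¹) * (y * E q * y⁻¹) := by group
        _ = c * s * c * (E q * E (Ym q)) := by rw [ys, yc, aY]; group
        _ = _ := by rw [← h.sc, mul_assoc s, cc, mul_one, ad]
    refine h.co.inj ((mul_right_inj s).mp ?_)
    rw [← e1, y3, ad, ← aS, si, ad.neg]
    simp only [mul_assoc, sq_cancel ss])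
  have aZ : Act E (E z * y) Ym := (ad.act z).mul aY
  have aI : Act E (E z * y)⁻¹ fun v => Ym (Ym v) := aZ.inv (by decide +kernel)
  refine ⟨s, E z * y, h, aS, aC, aZ, ss, ?_, ?_, ?_, ?_,
    h.s0.fpf h.co (h.aD.mul aZ) 7 (by decide +kernel), h.s0.fpf h.co (((h.aD.mul aZ).mul
      (h.aD.inv (f' := fun v => Dm (Dm v)) (by decide +kernel))).mul aI) 7 (by decide +kernel)⟩
  · calc _ = E z * (y * s * y⁻¹) * (E z)⁻¹ := by group
      _ = _ := by rw [ys, ← (h.co.fix aC).mpr z1, mul_inv_cancel_right]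
  · calc _ = E z * (y * c * y⁻¹) * (E z)⁻¹ := by group
      _ = s * c * (c * (s * E z * s⁻¹) * c⁻¹ * E q * E (-z)) := by
          rw [yc, ad.neg, si, ci]; simp only [mul_assoc, sq_cancel cc, sq_cancel ss]
      _ = _ := by rw [aS, aC, ad.cat', ad.cat', z2, ad.zero, mul_one]
  · simp only [pow_three, mul_assoc, aY.mv']
    rw [← pow_three, y3]
    simp only [ad.cat', ← add_assoc, z4, ad.zero]
  · rw [← hx, pow_two, aX.mv', mul_assoc, (aX.mul aY).mv', ← pow_two, xy]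
    simp only [ad.cat', ← add_assoc, z3, ad.zero]

end Cfsg.Agent.H7.HS
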