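import Cfsg.Agent.H7.HS.Loc2

/-!
# Local analysis, part 3: the centralizer of the involution
-/

set_option autoImplicit false
set_option maxRecDepth 100000
set_option synthInstance.maxSize 100000

namespace Cfsg.Agent.H7.HS

open Subgroup Equiv Cfsg.Agent.H5 Cfsg.Agent.H7.Asch

variable {G : Type*} [Group G]
variable {t i : G} {Γ : Subgroup (G × Perm (Fin 5))} {Q : Subgroup G} {E : A → G} {d s g c y u : G}

theorem S3.cR1 (h : S3 t Γ Q E d s g c y) : (c, 1) ∈ Γ := h.gc ▸ gconj h.hg (h.VR (0, 1, 0))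

theorem S3.cQ (h : S3 t Γ Q E d s g c y) : c ∉ Q := fun hc => by
  obtain ⟨q, rfl⟩ := (h.co.mem _).mp hc
  exact absurd (h.co.uniq h.aC (h.co.add.act q) (0, 1, 0)) (by decide +kernel)

theorem S3.piA (h : S3 t Γ Q E d s g c y) : (E (0, 1, 0), swap 0 1 * swap 2 3) ∈ Γ := by
  obtain ⟨σ, hσ⟩ := (h.s0.hH (E (0, 1, 0))).mp (h.tE ▸ h.co.add.comm _ _)
  have h1 := gmul (gmul h.hd hσ) (ginv h.hd)
  have h2 := gmul (gmul h.hd h1) (ginv h.hd)
  have h3 := gmul (gmul h.hs hσ) (ginv h.hs)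
  rw [h.aS] at h3
  refine (dec_α σ ((h.s0.hB _ _ hσ).mpr (le_normalizer (h.co.mem' _)))
    (h.s0.uniq (gmul hσ hσ) (h.s0.VR _ (h.co.mem' _))) (h.s0.uniq h3 hσ) (h.s0.fn _ ?_)).elim
    (fun e => ?_) (gcast hσ)
  · have := gmul (gmul hσ h1) h2
    rwa [h.aD, h.aD, h.co.add.cat', h.co.add.cat', show (0, 1, 0) + Dm (0, 1, 0) + Dm (Dm (0, 1, 0)) = (0 : A)
      by decide +kernel, h.co.add.zero] at this
  · have := h.s0.cm _ _ h.cR1 (gconj h.hd (gcast hσ e))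
    rw [h.aD, h.aC, ← h.tE, h.co.add.cat', h.co.inj.eq_iff, h.co.inj.eq_iff] at this
    exact absurd this (by decide +kernel)

theorem S3.even (h : S3 t Γ Q E d s g c y) {q : A} (hq : (E q, 1) ∈ Γ) :
    q.2.1 + q.2.1 = 0 ∧ q.2.2 + q.2.2 = 0 := by
  have h1 := gmul (gmul h.hd h.piA) (ginv h.hd)
  rw [h.aD] at h1
  have h2 := gmul (gmul (gpow h.s0.iR q.1.val) (gpow h.piA q.2.1.val)) (gpow h1 q.2.2.val)
  have k : ∀ v : A, v.1.val • ((1, 0, 0) : A) + v.2.1.val • ((0, 1, 0) : A) +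
      v.2.2.val • Dm (0, 1, 0) = v := by decide +kernel
  rw [← h.co.add.nsmul, ← h.co.add.nsmul, ← h.co.add.nsmul, h.co.add.cat', h.co.add.cat', k, one_pow,
    one_mul] at h2
  exact dec_even _ _ (h.s0.uniq h2 hq)

theorem S3.Rdec (h : S3 t Γ Q E d s g c y) {r : G} (hr : (r, 1) ∈ Γ) :
    ∃ q : A, (q.2.1 + q.2.1 = 0 ∧ q.2.2 + q.2.2 = 0) ∧ (r = 1 * E q ∨ r = c * E q ∨
      r = d * c * d⁻¹ * E q ∨ r = c * (d * c * d⁻¹) * E q) := by
  have k : ∀ {f : G} {F : A → A}, Act E f F → (f, 1) ∈ Γ → ∀ {v w : A},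
      r * E (0, 2, 0) * r⁻¹ = E v → r * E (0, 0, 2) * r⁻¹ = E w → F (0, 2, 0) = v ∧ F (0, 0, 2) = w →
      ∃ q : A, (q.2.1 + q.2.1 = 0 ∧ q.2.2 + q.2.2 = 0) ∧ r = f * E q := fun {f F} a hf v w e1 e2 e => by
    obtain ⟨q, hq⟩ := h.s0.eqQ h.co (g := r) (k := f) (by
      rw [h.tE, conj_eq_iff_comm.2 (h.s0.comm hr), conj_eq_iff_comm.2 (h.s0.comm hf)])
      (by rw [e1, a, e.1]) (by rw [e2, a, e.2])
    refine ⟨q, h.even ?_, hq⟩
    have := gmul (ginv hf) hr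
    rw [hq, inv_mul_cancel_left] at this
    exact gcast this (by simp)
  have h1 := h.s0.cm _ _ hr (h.VR (0, 1, 0))
  have h2 := h.s0.cm _ _ hr (h.VR (0, 0, 1))
  rw [← h.tE, h.co.add.cat'] at h1 h2
  have aX := h.aX h.aC
  have hx := gconj h.hd h.cR1
  rcases h1 with h1 | h1 <;> rcases h2 with h2 | h2
  · exact (k (act_one E) Γ.one_mem h1 h2 (by decide +kernel)).imp fun q e => ⟨e.1, Or.inl e.2⟩
  · exact (k h.aC h.cR1 h1 h2 (by decide +kernel)).imp fun q e => ⟨e.1, Or.inr (Or.inl e.2)⟩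
  · exact (k aX hx h1 h2 (by decide +kernel)).imp fun q e => ⟨e.1, Or.inr (Or.inr (Or.inl e.2))⟩
  · exact (k (h.aC.mul aX) (gcast (gmul h.cR1 hx) (one_mul _)) h1 h2 (by decide +kernel)).imp
      fun q e => ⟨e.1, Or.inr (Or.inr (Or.inr e.2))⟩

theorem S3.cx2 (h : S3 t Γ Q E d s g c y) : c * (d * c * d⁻¹) * (c * (d * c * d⁻¹)) = 1 := by
  obtain ⟨cc, -, cx, -⟩ := h.cube h.gd h.gc
  nth_rewrite 1 [cx]
  rw [mul_assoc, sq_cancel cc, conj_mul_self_eq_one cc]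

theorem S3.noSq1 (h : S3 t Γ Q E d s g c y) {r : G} (hr : (r, 1) ∈ Γ) {k : ZMod 4}
    (e : s * r * (s * r) = E (k, 0, 0)) : k = 0 := by
  obtain ⟨cc, -, cx, -⟩ := h.cube h.gd h.gc
  have xx := conj_mul_self_eq_one cc d
  have xs := h.xs h.ss
  have aX := h.aX h.aC
  have k1 : ∀ {f : G} {F : A → A}, Act E f F → ∀ q, s * (f * E q) * (s * (f * E q)) =
      E (Sm (F q)) * (s * f * (s * f) * E q) := fun a q => by
    rw [← mul_assoc s, mul_assoc, (h.aS.mul a).mv']; group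
  have k2 : ∀ v w, E v * (c * E w) ≠ E (k, 0, 0) := fun v w e => h.cQ (by
    have := h.co.mem' (k, 0, 0)
    rwa [← e, mul_mem_cancel_left (h.co.mem' _), mul_mem_cancel_right (h.co.mem' _)] at this)
  obtain ⟨q, hq, rfl | rfl | rfl | rfl⟩ := h.Rdec hr
  · rw [k1 (act_one E), mul_one, h.ss, one_mul, h.co.add.cat', h.co.inj.eq_iff] at e
    clear hr k1 k2; revert q k; decide +kernel
  · rw [k1 h.aC, show s * c * (s * c) = 1 by
      rw [mul_assoc, h.sc, sq_cancel cc, h.ss], one_mul, h.co.add.cat', h.co.inj.eq_iff] at e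
    clear hr k1 k2; revert q k; decide +kernel
  · rw [inv_eq_of_mul_eq_one_left xx] at xs
    rw [k1 aX, mul_assoc s, ← mul_assoc _ s, xs, sq_cancel h.ss] at e
    exact absurd e (k2 _ _)
  · rw [k1 (h.aC.mul aX), show s * (c * (d * c * d⁻¹)) * (s * (c * (d * c * d⁻¹))) = c by
      generalize d * c * d⁻¹ = x at *
      calc _ = s * c * (x * s * x⁻¹) * (x * (c * x)) := by group
        _ = s * (c * s) * (c * c) := by rw [xs, cx, sq_cancel xx]; group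
        _ = _ := by rw [cc, ← h.sc, sq_cancel h.ss, mul_one]] at e
    exact absurd e (k2 _ _)

theorem S3.noSq2 (h : S3 t Γ Q E d s g c y) {r : G} (hr : (r, 1) ∈ Γ) {k : ZMod 4}
    (e : E (0, 1, 0) * r * (E (0, 1, 0) * r) = E (k, 0, 0)) : k + k = 0 := by
  obtain ⟨cc, -⟩ := h.cube h.gd h.gc
  have aX := h.aX h.aC
  have k1 : ∀ {f : G} {F : A → A}, Act E f F → f * f = 1 → ∀ q,
      E (0, 1, 0) * (f * E q) * (E (0, 1, 0) * (f * E q)) = E ((0, 1, 0) + (F (q + (0, 1, 0)) + q)) :=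
    fun a ff q => by
      rw [mul_assoc, mul_assoc, h.co.add.cat, a.mv', sq_cancel ff, h.co.add.cat', h.co.add.cat']
  obtain ⟨q, hq, rfl | rfl | rfl | rfl⟩ := h.Rdec hr
  · rw [k1 (act_one E) (one_mul 1), h.co.inj.eq_iff] at e
    clear hr k1; revert q k; decide +kernel
  · rw [k1 h.aC cc, h.co.inj.eq_iff] at e
    clear hr k1; revert q k; decide +kernel
  · rw [k1 aX (conj_mul_self_eq_one cc d), h.co.inj.eq_iff] at e
    clear hr k1; revert q k; decide +kernel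
  · rw [k1 (h.aC.mul aX) h.cx2, h.co.inj.eq_iff] at e
    clear hr k1; revert q k; decide +kernel

theorem S0.transfer (h : S0 t i Γ Q) {g g' : G} {σ σ' : Perm (Fin 5)} (a : (g, σ) ∈ Γ)
    (b : (g', σ') ∈ Γ) (e : ∃ ρ, σ'⁻¹ * ρ⁻¹ * σ * ρ = 1) :
    ∃ k r, k * t = t * k ∧ (r, 1) ∈ Γ ∧ g' * r = k⁻¹ * g * k := by
  obtain ⟨ρ, e⟩ := e
  obtain ⟨k, hk⟩ := h.surj ρ
  exact ⟨k, _, h.comm hk, gcast (gmul (gmul (gmul (ginv b) (ginv hk)) a) hk) e, by group⟩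

/-- The relations in the centralizer of `t`. -/
structure S4 (t : G) (Γ : Subgroup (G × Perm (Fin 5))) (Q : Subgroup G) (E : A → G) (d s c y u : G) :
    Prop extends S3 t Γ Q E d s u c y where
  uu : u * u = 1
  us : u * s * (u * s) = 1
  ui : u * E (1, 0, 0) * u⁻¹ = (E (1, 0, 0))⁻¹
  eu : (E (0, 1, 0) * s * c * u) ^ 3 = 1

theorem S3.piE (h : S3 t Γ Q E d s g c y) : (E (0, 1, 0) * s * c, swap 2 3) ∈ Γ :=
  gcast (gmul (gmul h.piA h.hs) h.cR1) (by decide)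

theorem S3.adj (h : S3 t Γ Q E d s g c y) (j : ZMod 4) : S3 t Γ Q E d s (g * E (j, 0, 0)) c y := by
  have k : ∀ j : ZMod 4, Dm (j, 0, 0) = (j, 0, 0) ∧ ((j, 0, 0) : A) = j.val • ((1, 0, 0) : A) := by
    decide +kernel
  refine { h with hg := ?_, gd := ?_, gc := ?_ }
  · rw [(k j).2, h.co.add.nsmul]
    exact gcast (gmul h.hg (gpow h.s0.iR _)) (by simp)
  · calc _ = g * (E (j, 0, 0) * d * (E (j, 0, 0))⁻¹) * g⁻¹ := by group
      _ = _ := by rw [← (h.co.fix h.aD).mpr (k j).1, mul_inv_cancel_right, h.gd]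
  · calc _ = g * (E (j, 0, 0) * E (0, 2, 0) * (E (j, 0, 0))⁻¹) * g⁻¹ := by group
      _ = _ := by rw [h.co.add.act, h.gc]

theorem S3.inv (h : S3 t Γ Q E d s g c y) : g * g = 1 ∧ g * E (1, 0, 0) * g⁻¹ = (E (1, 0, 0))⁻¹ := by
  obtain ⟨k, r, hk, hr, e⟩ := h.s0.transfer h.hg h.hs (by decide)
  have hk' : k⁻¹ * t = t * k⁻¹ := (Commute.inv_left hk).eq
  constructor
  · obtain ⟨j, hj⟩ := h.cR (gcast (gmul h.hg h.hg) (by decide))
      (Commute.mul_left (conj_eq_iff_comm.1 h.gd) (conj_eq_iff_comm.1 h.gd)).eq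
    have e1 : s * r * (s * r) = k⁻¹ * E (j, 0, 0) * k⁻¹⁻¹ := by rw [e, ← hj]; group
    rw [hj, show j = 0 from (h.conjZ hk' j).elim (fun e' => h.noSq1 hr (e1.trans e'))
      fun e' => neg_eq_zero.mp (h.noSq1 hr (e1.trans e'))]
    exact h.co.add.zero
  · have e1 : s * r * E (1, 0, 0) * (s * r)⁻¹ = (E (1, 0, 0))⁻¹ := by
      calc _ = s * (r * E (1, 0, 0) * r⁻¹) * s⁻¹ := by group
        _ = _ := by rw [conj_eq_iff_comm.2 (h.s0.iZ r hr), h.aS, h.co.add.neg]; rfl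
    rw [e] at e1
    rcases h.s0.iN k hk with e' | e'
    · calc _ = k * (k⁻¹ * g * k * E (1, 0, 0) * (k⁻¹ * g * k)⁻¹) * k⁻¹ := by nth_rewrite 1 [← e']; group
        _ = _ := by rw [e1, ← conj_inv, e']
    · calc _ = (k * (k⁻¹ * g * k * E (1, 0, 0) * (k⁻¹ * g * k)⁻¹) * k⁻¹)⁻¹ := by
            nth_rewrite 1 [← inv_inv (E (1, 0, 0)), ← e']; group
        _ = _ := by rw [e1, ← conj_inv, inv_inv, e']

theorem S3.exists_S4 [Finite G] (h : S3 t Γ Q E d s g c y) : ∃ u, S4 t Γ Q E d s c y u := by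
  have ad := h.co.add
  obtain ⟨g, h, us⟩ : ∃ g, S3 t Γ Q E d s g c y ∧ g * s * (g * s) = 1 := by
    obtain ⟨k, r, hk, hr, e⟩ := h.s0.transfer (gmul h.hg h.hs) h.piA (by decide)
    obtain ⟨j, hj⟩ := h.cR (gcast (gmul (gmul h.hg h.hs) (gmul h.hg h.hs)) (by decide)) (by
      have a1 : s * d * s⁻¹ = d⁻¹ := by nth_rewrite 2 [← h.sd]; group
      rw [← conj_eq_iff_comm]
      calc _ = g * (s * (g * (s * d * s⁻¹)⁻¹ * g⁻¹)⁻¹ * s⁻¹) * g⁻¹ := by group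
        _ = _ := by rw [a1, inv_inv, h.gd, h.sd, h.gd])
    have e1 : E (0, 1, 0) * r * (E (0, 1, 0) * r) = k⁻¹ * E (j, 0, 0) * k⁻¹⁻¹ := by rw [e, ← hj]; group
    have e2 : j + j = 0 := (h.conjZ (Commute.inv_left hk).eq j).elim (fun e' => h.noSq2 hr (e1.trans e'))
      fun e' => by linear_combination -h.noSq2 hr (e1.trans e')
    have k : ∀ j : ZMod 4, j + j = 0 → j = 0 ∨ j = 2 := by decide
    rcases k j e2 with rfl | rfl
    · exact ⟨g, h, hj.trans ad.zero⟩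
    refine ⟨_, h.adj 1, ?_⟩
    have a1 : s * E (1, 0, 0) * s⁻¹ = (E (1, 0, 0))⁻¹ := by rw [h.aS, ad.neg]; rfl
    calc _ = g * E (1, 0, 0) * g⁻¹ * (g * (s * (g * E (1, 0, 0) * g⁻¹)⁻¹ * s⁻¹) * g⁻¹)⁻¹ *
          (g * s * (g * s)) := by group
      _ = _ := by
        rw [h.inv.2, inv_inv, a1, ← conj_inv, inv_inv, h.inv.2, hj, ad.neg, ad.cat', ad.cat']
        exact ad.zero
  have he := gmul h.piE h.hg
  have hρ := gcast (gpow he 3) (show _ = 1 by decide)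
  have sg : s * g = g * s := by
    have := inv_eq_of_mul_eq_one_left us
    rwa [mul_inv_rev, inv_eq_of_mul_eq_one_left h.ss, inv_eq_of_mul_eq_one_left h.inv.1] at this
  obtain ⟨j, hj⟩ := h.cR' (gpow he 4) (by rw [← pow_mul, mul_comm, pow_mul, h.s0.four hρ])
    (fun e => absurd (h.s0.fn _ (e ▸ gpow he 4)) (by decide)) hρ (Commute.pow_pow_self _ _ _).eq
  have e1 : Sm (j, 0, 0) = (j, 0, 0) := (h.co.fix h.aS).mp (hj ▸ (Commute.pow_right
    (Commute.mul_right (Commute.mul_right (Commute.mul_right ((h.co.fix h.aS).mpr rfl) (Commute.refl s))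
      h.sc) sg) 3).eq)
  have k : ∀ j : ZMod 4, Sm (j, 0, 0) = (j, 0, 0) → j = 0 ∨ j = 2 := by decide +kernel
  rcases k j e1 with rfl | rfl
  · exact ⟨g, h, h.inv.1, us, h.inv.2, hj.trans ad.zero⟩
  refine ⟨_, h.adj 2, (h.adj 2).inv.1, ?_, (h.adj 2).inv.2, ?_⟩
  · rw [h.tE]
    calc _ = g * (t * s) * (g * t) * s := by group
      _ = g * s * (t * t) * (g * s) := by rw [← h.s0.comm h.hs, h.s0.comm h.hg]; group
      _ = _ := by rw [h.s0.tt, mul_one, us]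
  · rw [← mul_assoc, Commute.mul_pow (h.tE ▸ h.s0.comm he), hj, h.tE, ← pow_succ', pow_succ, pow_three,
      sq_cancel h.s0.tt, h.s0.tt]

end Cfsg.Agent.H7.HS
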