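import Cfsg.Agent.H7.HS.Loc3

/-!
# Local analysis, part 4: an elementary abelian subgroup of order sixteen
-/

set_option autoImplicit false
set_option maxRecDepth 100000
set_option synthInstance.maxSize 100000

namespace Cfsg.Agent.H7.HS

open Subgroup Equiv Cfsg.Agent.H5 Cfsg.Agent.H7.Asch

variable {G : Type*} [Group G]
variable {t i : G} {Γ : Subgroup (G × Perm (Fin 5))} {Q : Subgroup G} {E : A → G} {d s g c y u : G}

/-- The coordinate group of order sixteen. -/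
abbrev A4 : Type := ZMod 2 × ZMod 2 × ZMod 2 × ZMod 2

/-- Coordinates on the group generated by four commuting involutions. -/
def F4 (t w c s : G) (v : A4) : G := t ^ v.1.val * (w ^ v.2.1.val * (c ^ v.2.2.1.val * s ^ v.2.2.2.val))

/-- The linear map with the given images of the basis vectors. -/
def lin4 (p q r o v : A4) : A4 := v.1.val • p + (v.2.1.val • q + (v.2.2.1.val • r + v.2.2.2.val • o))

theorem hm_pw {x : G} (h : x * x = 1) : Hm fun k : ZMod 2 => x ^ k.val := fun k l => by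
  have e : ∀ k l : ZMod 2, k.val + l.val = (k + l).val ∨ k.val + l.val = (k + l).val + 2 := by decide
  rcases e k l with e | e
  · rw [← pow_add, e]
  · rw [← pow_add, e, pow_add, pow_two, h, mul_one]

theorem Hm.act4 {t w c s g : G} (h : Hm (F4 t w c s)) {p q r o : A4} (h1 : g * t * g⁻¹ = F4 t w c s p)
    (h2 : g * w * g⁻¹ = F4 t w c s q) (h3 : g * c * g⁻¹ = F4 t w c s r) (h4 : g * s * g⁻¹ = F4 t w c s o) :
    Act (F4 t w c s) g (lin4 p q r o) := fun v => by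
  rw [lin4, h, h, h, h.nsmul, h.nsmul, h.nsmul, h.nsmul, ← h1, ← h2, ← h3, ← h4, F4]
  simp only [conj_pow]; group

theorem S3.hm4 (h : S3 t Γ Q E d s g c y) : Hm (F4 t (E (0, 2, 0)) c s) := by
  obtain ⟨cc, -⟩ := h.cube h.gd h.gc
  have wc : Commute (E (0, 2, 0)) c := ((h.co.fix h.aC).mpr (by decide +kernel)).symm
  have ws : Commute (E (0, 2, 0)) s := ((h.co.fix h.aS).mpr (by decide +kernel)).symm
  have tw : Commute t (E (0, 2, 0)) := h.tE ▸ h.co.add.comm _ _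
  have tc : Commute t c := (h.s0.comm h.cR1).symm
  have ts : Commute t s := (h.s0.comm h.hs).symm
  have cs : Commute c s := h.sc.symm
  exact (hm_pw h.s0.tt).prod ((hm_pw ((h.co.add.cat' _ _).trans h.co.add.zero)).prod
    ((hm_pw cc).prod (hm_pw h.ss) fun _ _ => (cs.pow_pow _ _).eq)
    fun _ _ => ((wc.pow_pow _ _).mul_right (ws.pow_pow _ _)).eq)
    fun _ _ => ((tw.pow_pow _ _).mul_right ((tc.pow_pow _ _).mul_right (ts.pow_pow _ _))).eq

theorem S4.cF (h : S4 t Γ Q E d s c y u) {z : G} (zt : z * t = t * z)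
    (zw : z * E (0, 2, 0) * z⁻¹ = E (0, 2, 0)) (zc : z * c = c * z) (zs : z * s = s * z) :
    ∃ v, z = F4 t (E (0, 2, 0)) c s v := by
  obtain ⟨σ, hσ⟩ := (h.s0.hH z).mp zt
  obtain ⟨cc, xg, -⟩ := h.cube h.gd h.gc
  have hz : σ 4 = 4 := by
    by_contra hn
    have k1 : ∀ j : Fin 5, j ≠ 4 → swap 3 j 4 = 4 ∧ swap 3 4 (swap 3 j j) = 4 := by decide
    obtain ⟨k, hk⟩ := h.s0.surj (swap 3 (σ 4))
    have hb := gmul (gmul h.hg hk) hσ
    obtain ⟨v', hv'⟩ := (h.co.mem _).mp (conj_mem_of_mem_normalizer ((h.s0.hB _ _ hk).mp (k1 _ hn).1)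
      (h.co.mem' (0, 2, 0)))
    obtain ⟨v, hv⟩ := (h.co.mem _).mp (conj_mem_of_mem_normalizer ((h.s0.hB _ _ hb).mp (k1 _ hn).2)
      (h.co.mem' (0, 2, 0)))
    have e : E v = u * E v' * u⁻¹ := by rw [hv, hv']; nth_rewrite 2 [← zw]; group
    have k2 : ∀ v : A, Cm v = v → Xm v = v → v = (v.1, 0, 0) := by decide +kernel
    have e' := h.conjZ (h.s0.comm (ginv hb)) v.1
    have e1 := k2 v ((h.co.fix h.aC).mp (by rw [e, ← h.gc]; exact comm_conj (h.co.add.comm _ _)))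
      ((h.co.fix (h.aX h.aC)).mp (by rw [e, xg]; exact comm_conj (h.co.add.comm _ _)))
    rw [show (u * k * z)⁻¹ * E (v.1, 0, 0) * (u * k * z)⁻¹⁻¹ = E (0, 2, 0) by rw [← e1, hv]; group,
      h.co.inj.eq_iff, h.co.inj.eq_iff] at e'
    revert e'
    generalize v.1 = j
    revert j
    decide +kernel
  obtain ⟨p, q, r, a⟩ := h.co.exists_act ((h.s0.hB _ _ hσ).mp hz)
  have zt' : z * E (2, 0, 0) * z⁻¹ = E (2, 0, 0) := by rw [h.tE, conj_eq_iff_comm.2 zt]
  have k1 : ∀ {f : G} {F : A → A} (v : A4), Act E f F → f = F4 t (E (0, 2, 0)) c s v →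
      F (2, 0, 0) = (2, 0, 0) ∧ F (0, 2, 0) = (0, 2, 0) → r + r = F (0, 0, 2) →
      ∃ v, z = F4 t (E (0, 2, 0)) c s v := fun {f F} v b e e1 e2 => by
    obtain ⟨q, hq⟩ := h.s0.eqQ h.co (g := z) (k := f) (by rw [zt', b, e1.1]) (by rw [zw, b, e1.2])
      (by rw [a, b, lin_23, e2])
    have f1 : ∀ w, f * F4 t (E (0, 2, 0)) c s w = F4 t (E (0, 2, 0)) c s w * f := fun w => e ▸ h.hm4.comm _ _
    have k2 : ∀ q : A, Cm q = q → Sm q = q → ∃ α β : ZMod 2,
        q = α.val • ((2, 0, 0) : A) + β.val • ((0, 2, 0) : A) := by decide +kernel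
    have k3 : ∀ {x : G}, z * x = x * z → f * x = x * f → x * E q = E q * x := fun e1 e2 => by
      rwa [hq, mul_assoc, ← mul_assoc _ f, ← e2, mul_assoc, mul_right_inj, eq_comm] at e1
    obtain ⟨α, β, rfl⟩ := k2 q ((h.co.fix h.aC).mp (k3 zc (by simpa [F4, ZMod.val_one] using f1 (0, 0, 1, 0))))
      ((h.co.fix h.aS).mp (k3 zs (by simpa [F4, ZMod.val_one] using f1 (0, 0, 0, 1))))
    exact ⟨v + (α, β, 0, 0), by rw [h.hm4, hq, e, h.co.add, h.co.add.nsmul, h.co.add.nsmul, h.tE]; simp [F4, ZMod.val_one]⟩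
  have k2 : ∀ v, z * E v * z⁻¹ = E v → r + r = v → v = (0, 0, 2) := fun v e1 e2 => by
    have := a (0, 0, 2)
    rw [lin_23, e2, ← e1, mul_left_inj, mul_right_inj] at this
    exact (h.co.inj this).symm
  have k3 : ∀ r : A, r + r = (0, 0, 2) ∨ r + r = Cm (0, 0, 2) ∨ r + r = Sm (0, 0, 2) ∨
      r + r = Cm (Sm (0, 0, 2)) ∨ r + r = 0 ∨ r + r = (2, 0, 0) ∨ r + r = (0, 2, 0) ∨
      r + r = (2, 0, 0) + (0, 2, 0) := by decide +kernel
  rcases k3 r with e | e | e | e | e | e | e | e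
  · exact k1 0 (act_one E) h.hm4.zero.symm ⟨rfl, rfl⟩ e
  · exact k1 (0, 0, 1, 0) h.aC (by simp [F4, ZMod.val_one]) (by decide +kernel) e
  · exact k1 (0, 0, 0, 1) h.aS (by simp [F4, ZMod.val_one]) (by decide +kernel) e
  · exact k1 (0, 0, 1, 1) (h.aC.mul h.aS) (by simp [F4, ZMod.val_one]) (by decide +kernel) e
  · exact absurd (k2 _ (by simp [h.co.add.zero]) e) (by decide +kernel)
  · exact absurd (k2 _ zt' e) (by decide +kernel)
  · exact absurd (k2 _ zw e) (by decide +kernel)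
  · refine absurd (k2 _ ?_ e) (by decide +kernel)
    rw [h.co.add]
    nth_rewrite 2 [← zt', ← zw]
    group

theorem S4.five (h : S4 t Γ Q E d s c y u) {ω : G} {f : A4 → A4} (a : Act (F4 t (E (0, 2, 0)) c s) ω f)
    (e : ∀ v, f^[5] v = v ∧ v + f v + f (f v) + f (f (f v)) + f (f (f (f v))) = 0) : ω ^ 5 = 1 := by
  have a5 : ∀ v, ω ^ 5 * F4 t (E (0, 2, 0)) c s v * (ω ^ 5)⁻¹ = F4 t (E (0, 2, 0)) c s v := fun v => by
    rw [a.pow 5, (e v).1]
  obtain ⟨v, hv⟩ := h.cF (conj_eq_iff_comm.1 (by simpa [F4, ZMod.val_one] using a5 (1, 0, 0, 0)))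
    (by simpa [F4, ZMod.val_one] using a5 (0, 1, 0, 0)) (conj_eq_iff_comm.1 (by simpa [F4, ZMod.val_one] using a5 (0, 0, 1, 0)))
    (conj_eq_iff_comm.1 (by simpa [F4, ZMod.val_one] using a5 (0, 0, 0, 1)))
  have k : ∀ w, ω ^ 5 = F4 t (E (0, 2, 0)) c s w → ω ^ 5 = F4 t (E (0, 2, 0)) c s (f w) := fun w e => by
    rw [← a, ← e]; group
  have k2 : ω ^ 5 * ω ^ 5 = 1 := by
    have : ∀ v : A4, v + v = 0 := by decide +kernel
    rw [hv, ← h.hm4, this, h.hm4.zero]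
  have k3 := h.hm4.zero
  rwa [← (e v).2, h.hm4, h.hm4, h.hm4, h.hm4, ← k _ (k _ (k _ (k _ hv))), ← k _ (k _ (k _ hv)),
    ← k _ (k _ hv), ← k _ hv, ← hv, k2, one_mul, k2, one_mul] at k3

theorem S4.rel5 (h : S4 t Γ Q E d s c y u) : (y * u * E (1, 0, 0)) ^ 5 = 1 ∧
    ((E (1, 0, 0))⁻¹ * y⁻¹ * (E (0, 1, 0) * s * c) * u * y⁻¹ * u) ^ 5 = 1 := by
  obtain ⟨cc, -⟩ := h.cube h.gd h.gc
  have ad := h.co.add
  have ci := inv_eq_of_mul_eq_one_left cc
  have si := inv_eq_of_mul_eq_one_left h.ss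
  have ui := inv_eq_of_mul_eq_one_left h.uu
  have aY := h.hm4.act4 (g := y) (p := (1, 1, 0, 0)) (q := (1, 0, 0, 0)) (r := (0, 0, 1, 1))
    (o := (0, 0, 1, 0)) (by
      simp only [F4, ZMod.val_one, ZMod.val_zero, pow_one, pow_zero, mul_one, one_mul]
      rw [← h.tE, h.aY, ad.cat']; rfl)
    (by
      simp only [F4, ZMod.val_one, ZMod.val_zero, pow_one, pow_zero, mul_one, one_mul]
      rw [← h.tE, h.aY]; rfl)
    (by simp [F4, ZMod.val_one, h.yc, h.sc]) (by simp [F4, ZMod.val_one, h.ys])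
  have aU := h.hm4.act4 (g := u) (p := (1, 0, 0, 0)) (q := (0, 0, 1, 0)) (r := (0, 1, 0, 0))
    (o := (0, 0, 0, 1)) (by simp [F4, ZMod.val_one, h.s0.comm h.hg]) (by simp [F4, ZMod.val_one, h.gc])
    (by simp [F4, ZMod.val_one, ← h.gc, ui, mul_assoc, sq_cancel h.uu, h.uu])
    (by simpa [F4, ZMod.val_one, ui, mul_assoc] using
      (eq_inv_of_mul_eq_one_left ((mul_assoc (u * s) u s).trans h.us)).trans si)
  have aI := h.hm4.act4 (g := E (1, 0, 0)) (p := (1, 0, 0, 0)) (q := (0, 1, 0, 0)) (r := (0, 0, 1, 0))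
    (o := (1, 0, 0, 1)) (by simp [F4, ZMod.val_one, h.s0.comm h.s0.iR]) (by simp [F4, ZMod.val_one, ad.act _ _])
    (by simp [F4, ZMod.val_one, ← h.s0.iZ _ h.cR1]) (by
      simp only [F4, ZMod.val_one, ZMod.val_zero, pow_one, pow_zero, mul_one, one_mul]
      rw [ad.neg, mul_assoc, h.aS.mv, ad.cat, ← h.tE]; rfl)
  have aE := h.hm4.act4 (g := E (0, 1, 0) * s * c) (p := (1, 0, 0, 0)) (q := (0, 1, 0, 0))
    (r := (0, 1, 1, 0)) (o := (0, 0, 0, 1)) ((conj_eq_iff_comm.2 (h.s0.comm h.piE)).trans (by simp [F4, ZMod.val_one]))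
    (((((ad.act (0, 1, 0)).mul h.aS).mul h.aC) (0, 2, 0)).trans (by simp [F4, ZMod.val_one]; rfl)) (by
      simp only [F4, ZMod.val_one, ZMod.val_zero, pow_one, pow_zero, mul_one, one_mul, mul_inv_rev, mul_assoc,
        mul_inv_cancel_left]
      rw [← mul_assoc s, h.sc, mul_assoc, mul_inv_cancel_left, ad.neg, h.aC.mv, ad.cat]; rfl) (by
      simp only [F4, ZMod.val_one, ZMod.val_zero, pow_one, pow_zero, mul_one, one_mul, mul_inv_rev, mul_assoc]
      rw [← mul_assoc c, ← h.sc, mul_assoc, mul_inv_cancel_left, mul_inv_cancel_left, ad.neg, h.aS.mv, ad.cat]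
      exact (congrArg (· * s) ad.zero).trans (one_mul s))
  have aY' := aY.inv (f' := (lin4 (1, 1, 0, 0) (1, 0, 0, 0) (0, 0, 1, 1) (0, 0, 1, 0))^[2]) (by decide +kernel)
  exact ⟨h.five ((aY.mul aU).mul aI) (by decide +kernel), h.five ((((((aI.inv (f' := lin4 (1, 0, 0, 0)
    (0, 1, 0, 0) (0, 0, 1, 0) (1, 0, 0, 1)) (by decide +kernel)).mul aY').mul aE).mul aU).mul aY').mul aU)
    (by decide +kernel)⟩

end Cfsg.Agent.H7.HS
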