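import Cfsg.Agent.H7.HS.Loc4
import Cfsg.Agent.H7.HS.Final

/-!
# Local analysis, part 5: the relators hold
-/

set_option autoImplicit false
set_option maxRecDepth 100000
set_option synthInstance.maxSize 100000

namespace Cfsg.Agent.H7.HS

open Subgroup Equiv Cfsg.Agent.H5 Cfsg.Agent.H7.Asch Cfsg.Agent.H4.TC

variable {G : Type*} [Group G]
variable {t i : G} {Γ : Subgroup (G × Perm (Fin 5))} {Q : Subgroup G} {E : A → G} {d s g c y u : G}

/-- The letters. -/
def LL (t : G) (E : A → G) (d s c y u : G) : ℕ → G :=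
  lett [E (1, 0, 0), (E (1, 0, 0))⁻¹, E (0, 1, 0), (E (0, 1, 0))⁻¹, E (0, 0, 1), (E (0, 0, 1))⁻¹, d, d⁻¹, s, c,
    y, y⁻¹, u, d * c * d⁻¹, E (0, 1, 0) * s * c, E (0, 2, 0), t]

theorem S3.ee (h : S3 t Γ Q E d s g c y) : E (0, 1, 0) * s * c * (E (0, 1, 0) * s * c) = 1 := by
  obtain ⟨cc, -⟩ := h.cube h.gd h.gc
  simp only [mul_assoc, h.aC.mv', h.aS.mv', h.co.add.cat]
  rw [← mul_assoc c, ← h.sc, mul_assoc, cc, mul_one, h.ss, mul_one, h.co.eq_one]
  decide +kernel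

theorem S4.lett (h : S4 t Γ Q E d s c y u) : Lett (LL t E d s c y u) ivc := by
  obtain ⟨cc, -⟩ := h.cube h.gd h.gc
  have k : ∀ {x : G}, x * x = 1 → x = x⁻¹ := fun e => eq_inv_of_mul_eq_one_left e
  refine lett_ok (by simp only [List.length_cons, List.length_nil]; decide +kernel) fun a ha => ?_
  simp only [List.length_cons, List.length_nil] at ha
  interval_cases a
  exacts [inv_one.symm, rfl, (inv_inv _).symm, rfl, (inv_inv _).symm, rfl, (inv_inv _).symm, rfl,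
    (inv_inv _).symm, k h.ss, k cc, rfl, (inv_inv _).symm, k h.uu, k (conj_mul_self_eq_one cc d), k h.ee,
    k ((h.co.add.cat' _ _).trans h.co.add.zero), k h.s0.tt]

theorem S4.gen (h : S4 t Γ Q E d s c y u) : centralizer {t} = KK (LL t E d s c y u) lH := by
  have m : ∀ a, inA lH a = true → LL t E d s c y u a ∈ KK (LL t E d s c y u) lH := fun a => mem_KK h.lett
  generalize hK : KK (LL t E d s c y u) lH = K at m
  have mE : ∀ v, E v ∈ K := indA (by rw [h.co.add.zero]; exact one_mem _)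
    (fun v w a b => by rw [h.co.add]; exact mul_mem a b) (m 1 (by decide +kernel)) (m 3 (by decide +kernel))
    (m 5 (by decide +kernel))
  have md : d ∈ K := m 7 (by decide +kernel)
  have ms : s ∈ K := m 9 (by decide +kernel)
  have mc : c ∈ K := m 10 (by decide +kernel)
  have mu : u ∈ K := m 13 (by decide +kernel)
  have mx : d * c * d⁻¹ ∈ K := m 14 (by decide +kernel)
  refine le_antisymm (fun z hz => ?_) (hK ▸ KK_le fun a ha => mem_centralizer_singleton_iff.mpr ?_)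
  · obtain ⟨σ, hσ⟩ := (h.s0.hH z).mp (mem_centralizer_singleton_iff.mp hz)
    have : σ ∈ ((Γ ⊓ K.comap (MonoidHom.fst _ _)).map (MonoidHom.snd _ _)).toSubmonoid := by
      refine Submonoid.closure_le.mpr ?_ (Perm.mclosure_swap_castSucc_succ 4 ▸ Submonoid.mem_top σ)
      rintro _ ⟨j, rfl⟩
      fin_cases j
      · exact ⟨_, ⟨h.hs, ms⟩, rfl⟩
      · exact ⟨_, ⟨gcast (gmul h.hs h.hd) (show _ = swap 1 2 by decide), mul_mem ms md⟩, rfl⟩
      · exact ⟨_, ⟨h.piE, mul_mem (mul_mem (mE _) ms) mc⟩, rfl⟩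
      · exact ⟨_, ⟨h.hg, mu⟩, rfl⟩
    obtain ⟨⟨k, _⟩, ⟨hk, hk'⟩, rfl⟩ := this
    rw [← mul_mem_cancel_left (inv_mem (show k ∈ K from hk'))]
    obtain ⟨q, -, e | e | e | e⟩ := h.Rdec (gcast (gmul (ginv hk) hσ) (inv_mul_cancel _)) <;>
      refine e ▸ mul_mem ?_ (mE q)
    exacts [one_mem _, mc, mx, mul_mem mc mx]
  · have k : ∀ v, E v * t = t * E v := fun v => h.tE ▸ h.co.add.comm _ _
    simp only [lH, List.mem_cons, List.not_mem_nil, or_false] at ha
    rcases ha with rfl | rfl | rfl | rfl | rfl | rfl | rfl | rfl | rfl | rfl | rfl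
    exacts [k _, k _, k _, h.s0.comm h.hd, h.s0.comm h.hs, h.s0.comm h.cR1, h.s0.comm (gconj h.hd h.cR1),
      h.s0.comm h.piE, k _, rfl, h.s0.comm h.hg]

theorem S4.rels (h : S4 t Γ Q E d s c y u) : ∀ r ∈ BR, evL (LL t E d s c y u) r = 1 := by
  obtain ⟨cc, -, -, cd⟩ := h.cube h.gd h.gc
  have ad := h.co.add
  have k : ∀ {x z : G}, x * z * x⁻¹ = z⁻¹ → x * x = 1 → x * (z * (x * z)) = 1 := fun {x z} e e' => by
    rw [inv_eq_of_mul_eq_one_left e'] at e
    rw [← mul_assoc, ← mul_assoc, e, inv_mul_cancel]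
  simp only [BR, tQ_rs, tB_rs, List.cons_append, List.nil_append, List.forall_mem_cons, evL, List.map_cons,
    List.map_nil, List.prod_cons, List.prod_nil, LL, H4.TC.lett, List.getD_cons_succ, List.getD_cons_zero,
    mul_one]
  refine ⟨?_, ?_, ?_, ?_, ?_, ?_, ?_, ?_, ?_, ?_, ?_, ?_, ?_, ?_, ?_, pow_three d ▸ h.d3, ?_, ?_, ?_, ?_, ?_,
    ?_, ?_, ?_, ?_, k h.ui h.uu, ?_, ?_, ?_, ?_, ?_, pow_three y ▸ h.y3, ?_, ?_, ?_, ?_, ?_, ?_, ?_, by simp⟩
  iterate 15
    simp only [ad.neg, h.aD.mv', h.aS.mv', h.aC.mv', mul_inv_cancel_left, sq_cancel h.ss, sq_cancel cc,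
      ad.cat', h.co.eq_one]
    decide +kernel
  · exact k (by rw [← inv_inj, conj_inv, h.sd, inv_inv]) h.ss
  · exact k (by rw [conj_eq_iff_comm.2 h.sc, inv_eq_of_mul_eq_one_left cc]) h.ss
  · simpa only [pow_three, mul_assoc] using cd
  · simpa only [mul_assoc] using conj_mul_self_eq_one cc d
  · simpa only [mul_assoc] using h.ee
  · simp only [ad.cat', h.co.eq_one]; decide +kernel
  · rw [← mul_assoc, h.s0.ii, h.s0.tt]
  · rw [← mul_assoc, conj_eq_iff_comm.1 h.gd, mul_assoc, sq_cancel h.uu, mul_inv_cancel]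
  · simpa only [mul_assoc] using h.us
  · rw [← mul_assoc, ← mul_assoc, ← cc]
    nth_rewrite 2 [← inv_eq_of_mul_eq_one_left h.uu]
    rw [h.gc]
  · simpa only [pow_three, mul_assoc] using h.eu
  iterate 3
    simp only [ad.neg, h.aY.mv', mul_inv_cancel_left, ad.cat', h.co.eq_one]
    decide +kernel
  · rw [← mul_assoc, ← mul_assoc, h.ys, cc]
  · rw [← mul_assoc, ← mul_assoc, h.yc, mul_assoc, sq_cancel cc, h.ss]
  · simpa only [pow_two, mul_assoc] using h.xy
  · simpa only [pow_succ, pow_zero, one_mul, mul_assoc] using h.dy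
  · simpa only [pow_succ, pow_zero, one_mul, mul_assoc] using h.dy'
  · simpa only [pow_succ, pow_zero, one_mul, mul_assoc] using h.rel5.1
  · simpa only [pow_succ, pow_zero, one_mul, mul_assoc] using h.rel5.2

theorem S0.isoHS [Finite G] (h : S0 t i Γ Q) : Spor.IsoHS G := by
  obtain ⟨E, d, h⟩ := h.exists_S1
  obtain ⟨E, s, g, c, ε, h, hε, aS, aC⟩ := h.exists_S2
  obtain ⟨s, y, h⟩ := h.exists_S3 hε aS aC
  obtain ⟨u, h⟩ := h.exists_S4
  exact isoHS_of h.lett h.rels h.gen h.s0.cH h.s0.iN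

end Cfsg.Agent.H7.HS
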