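import Cfsg.Agent.H7.HS.Loc5
import Cfsg.Agent.H7.BG.Basic
import Cfsg.Agent.H7.Asch.ENorm
import Cfsg.Prelude.Def_Transfer

/-!
# Local analysis, part 6: the largest normal 2-subgroup of the centralizer
-/

set_option autoImplicit false
set_option maxRecDepth 100000
set_option synthInstance.maxSize 100000

namespace Cfsg.Agent.H7.HS

open Subgroup Equiv Cfsg.Agent.H5 Cfsg.Agent.H7.Asch

variable {G : Type*} [Group G]

/-- The structure of the central product `4 ∘ 2^(1+4)`. -/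
structure RS (t i : G) (R C : Subgroup G) : Prop where
  ii : i * i = t
  tt : t * t = 1
  t1 : t ≠ 1
  iC : i ∈ C
  CR : C ≤ R
  CZ : ∀ c ∈ C, ∀ r ∈ R, r * c = c * r
  ZC : ∀ z ∈ R, (∀ r ∈ R, r * z = z * r) → z ∈ C
  hC : ∀ c ∈ C, c = 1 ∨ c = i ∨ c = t ∨ c = i⁻¹
  sq : ∀ r ∈ R, r * r = 1 ∨ r * r = t
  cm : ∀ r ∈ R, ∀ r' ∈ R, r * r' * r⁻¹ = r' ∨ r * r' * r⁻¹ = r' * t
  cC : Nat.card C = 4
  cR : Nat.card R = 64

theorem exists_RS [Finite G] {t : G} (tt : t * t = 1) (t1 : t ≠ 1) {R C E : Subgroup G} (tR : t ∈ R)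
    (tZ : ∀ r ∈ R, r * t = t * r) (hCy : IsCyclic C) (cC : Nat.card C = 4)
    (hCle : C ≤ R ⊓ centralizer (R : Set G)) (hEle : E ≤ R) (hE : IsExtraspecial 2 E)
    (cE : Nat.card E = 32) (hprod : C ⊔ E = R) (hmeet : C ⊓ E = E ⊓ centralizer (E : Set G)) :
    ∃ i, RS t i R C := by
  obtain ⟨⟨i, iC⟩, hgen⟩ := hCy.exists_generator
  have o4 : orderOf i = 4 := by
    rw [← cC, ← orderOf_eq_card_of_forall_mem_zpowers hgen, orderOf_mk]
  have i4 : i ^ 4 = 1 := o4 ▸ pow_orderOf_eq_one i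
  have i2 : i * i ≠ 1 := fun e => absurd (o4 ▸ orderOf_dvd_of_pow_eq_one ((pow_two i).trans e)) (by norm_num)
  have i2' : i⁻¹ * i⁻¹ = i * i := by
    rw [← mul_inv_rev, inv_eq_iff_mul_eq_one, ← i4]; simp only [pow_succ, pow_zero, one_mul, mul_assoc]
  have hC : ∀ x ∈ C, x = 1 ∨ x = i ∨ x = i * i ∨ x = i⁻¹ := fun x hx => by
    obtain ⟨n, e⟩ := (mem_powers_iff_mem_zpowers.mpr (hgen ⟨x, hx⟩))
    rw [← show i ^ n = x from congrArg Subtype.val e, ← pow_mod_orderOf, o4]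
    have := Nat.mod_lt n (show 0 < 4 by norm_num)
    interval_cases n % 4
    · simp
    · simp
    · simp [pow_two]
    · exact Or.inr (Or.inr (Or.inr (eq_inv_of_mul_eq_one_left (by rw [← pow_succ, i4]))))
  have hC2 : ∀ x ∈ C, x * x = 1 → x = 1 ∨ x = i * i := fun x hx e => by
    rcases hC x hx with rfl | rfl | rfl | rfl
    exacts [Or.inl rfl, absurd e i2, Or.inr rfl, absurd (i2' ▸ e) i2]
  have CZ : ∀ c ∈ C, ∀ r ∈ R, r * c = c * r := fun c hc => (hCle hc).2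
  have EC : ∀ z ∈ E, (∀ e ∈ E, e * z = z * e) → z ∈ C := fun z hz e =>
    (show z ∈ C ⊓ E from hmeet ▸ ⟨hz, e⟩).1
  have hZ : ∀ z : E, z ∈ center E → (z : G) = 1 ∨ z = i * i := fun z hz =>
    hC2 _ (EC _ z.2 fun e he => congrArg Subtype.val (mem_center_iff.mp hz ⟨e, he⟩)) (by
      have := pow_card_eq_one' (x := (⟨z, hz⟩ : center E))
      rw [hE.2, pow_two] at this
      exact congrArg (fun x : center E => ((x : E) : G)) this)
  have cmE : ∀ e ∈ E, ∀ e' ∈ E, e * e' * e⁻¹ * e'⁻¹ = 1 ∨ e * e' * e⁻¹ * e'⁻¹ = i * i := fun e he e' he' =>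
    hZ (⟨e, he⟩ * ⟨e', he'⟩ * (⟨e, he⟩ : E)⁻¹ * (⟨e', he'⟩ : E)⁻¹)
      (hE.1.2.2 ▸ commutator_mem_commutator (mem_top _) (mem_top _))
  have dec : ∀ r ∈ R, ∃ c ∈ C, ∃ e ∈ E, c * e = r := fun r hr => by
    rw [← hprod, ← SetLike.mem_coe, coe_mul_of_left_le_normalizer_right _ _
      (le_norm_of_le_cent fun c hc e he => CZ c hc e (hEle he))] at hr
    exact hr
  have ZC : ∀ z ∈ R, (∀ r ∈ R, r * z = z * r) → z ∈ C := fun z hz h => by
    obtain ⟨c, hc, e, he, rfl⟩ := dec z hz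
    refine mul_mem hc (EC e he fun x hx => (mul_right_inj c).mp ?_)
    rw [← mul_assoc, ← CZ c hc x (hEle hx), mul_assoc, h x (hEle hx), mul_assoc]
  have ti : i * i = t := ((hC2 t (ZC t tR tZ) tt).resolve_left t1).symm
  rw [ti] at hC cmE hZ i2'
  have cm : ∀ r ∈ R, ∀ r' ∈ R, r * r' * r⁻¹ = r' ∨ r * r' * r⁻¹ = r' * t := fun r hr r' hr' => by
    obtain ⟨c, hc, e, he, rfl⟩ := dec r hr
    obtain ⟨c', hc', e', he', rfl⟩ := dec r' hr'
    have e1 : c * e * (c' * e') * (c * e)⁻¹ = e * e' * e⁻¹ * e'⁻¹ * (c' * e') := by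
      calc _ = c * (e * (c' * e') * e⁻¹) * c⁻¹ := by group
        _ = e * c' * e' * e⁻¹ := by
          rw [← CZ c hc _ (mul_mem (mul_mem (hEle he) hr') (inv_mem (hEle he)))]; group
        _ = c' * (e * e' * e⁻¹ * e'⁻¹) * e' := by rw [CZ c' hc' e (hEle he)]; group
        _ = _ := by
          rw [← CZ c' hc' _ (hEle (mul_mem (mul_mem (mul_mem he he') (inv_mem he)) (inv_mem he'))), mul_assoc]
    rw [e1]
    exact (cmE e he e' he').imp (fun h => by rw [h, one_mul]) fun h => by rw [h, tZ _ hr']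
  refine ⟨i, ti, tt, t1, iC, fun c hc => (hCle hc).1, CZ, ZC, hC, fun r hr => ?_, cm, cC, ?_⟩
  · obtain ⟨c, hc, e, he, rfl⟩ := dec r hr
    have e1 : c * c = 1 ∨ c * c = t := by
      rcases hC c hc with rfl | rfl | rfl | rfl
      exacts [Or.inl (one_mul 1), Or.inr ti, Or.inl tt, Or.inr i2']
    have e2 := hZ (⟨e, he⟩ * ⟨e, he⟩) (mem_center_iff.mpr fun x => Subtype.ext (conj_eq_iff_comm.1 (by
      calc (x : G) * (e * e) * (x : G)⁻¹ = x * e * (x : G)⁻¹ * (x * e * (x : G)⁻¹) := by group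
        _ = e * e := by
          rcases cm x (hEle x.2) e (hEle he) with h | h <;> rw [h]
          rw [mul_assoc, ← mul_assoc t, ← tZ e (hEle he), mul_assoc, tt, mul_one])))
    rw [mul_assoc, ← mul_assoc e, CZ c hc e (hEle he), mul_assoc, ← mul_assoc]
    replace e2 : e * e = 1 ∨ e * e = t := e2
    rcases e1 with e1 | e1 <;> rcases e2 with e2 | e2 <;> simp [e1, e2, tt]
  · have := card_sup_mul_card_inf (A := C) (B := E)
      (le_norm_of_le_cent fun e he c hc => (CZ c hc e (hEle he)).symm)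
    rw [hprod, hmeet, cC, cE, show E ⊓ centralizer (E : Set G) = (center E).map E.subtype by
      ext x; simp [mem_center_iff, mem_centralizer_iff, and_comm, Subtype.ext_iff],
      card_map_of_injective E.subtype_injective, hE.2] at this
    omega

variable {t i : G} {R C V : Subgroup G}

theorem RS.tZ (h : RS t i R C) : ∀ r ∈ R, r * t = t * r := h.CZ t (h.ii ▸ mul_mem h.iC h.iC)

theorem RS.inv (h : RS t i R C) {c : G} (hc : c ∈ C) (e : c * c = 1) : c = 1 ∨ c = t := by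
  rcases h.hC c hc with rfl | rfl | rfl | rfl
  exacts [Or.inl rfl, absurd (h.ii.symm.trans e) h.t1, Or.inr rfl,
    absurd (by rwa [← mul_inv_rev, h.ii, inv_eq_one] at e) h.t1]

theorem RS.mem [Finite G] (h : RS t i R C) (hc : ∀ v ∈ V, ∀ w ∈ V, v * w = w * v)
    (h2 : ∀ v ∈ V, v * v = 1) (cV : Nat.card V = 8) (VR : V ≤ R) : t ∈ V := by
  by_contra tV
  have h1 : V ⊓ C = ⊥ := eq_bot_iff.mpr fun v hv =>
    (h.inv hv.2 (h2 v hv.1)).resolve_right fun e => tV (e ▸ hv.1)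
  have h3 := card_sup_of_inf_eq_bot (le_norm_of_le_cent fun c hc v hv => h.CZ c hc v (VR hv)) h1
  obtain ⟨x, xR, xA⟩ : ∃ x ∈ R, x ∉ V ⊔ C := by
    by_contra! hn
    have := card_le_of_le (show R ≤ V ⊔ C from hn)
    rw [h3, cV, h.cC, h.cR] at this
    omega
  obtain ⟨v, hv, v1, e⟩ : ∃ v ∈ V, v ≠ 1 ∧ x * v = v * x := by
    by_contra! hn
    have := Fintype.ofFinite V
    obtain ⟨a, b, c, ab, ac, bc⟩ := Fintype.two_lt_card_iff.mp
      (show 2 < Fintype.card V by rw [← Nat.card_eq_fintype_card, cV]; norm_num)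
    have k : ∀ v : V, v ≠ 1 → x * v * x⁻¹ = v * t := fun v v1 => (h.cm x xR v (VR v.2)).resolve_left
      fun e => hn v v.2 (fun e => v1 (Subtype.ext e)) (conj_eq_iff_comm.1 e)
    have k1 := k (a⁻¹ * b) (by rwa [ne_eq, inv_mul_eq_one])
    have k2 := k (b⁻¹ * c) (by rwa [ne_eq, inv_mul_eq_one])
    have k3 := k (a⁻¹ * b * (b⁻¹ * c)) (by rwa [mul_assoc, mul_inv_cancel_left, ne_eq, inv_mul_eq_one])
    generalize a⁻¹ * b = p at *
    generalize b⁻¹ * c = q at *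
    rw [coe_mul, show x * (p * q) * x⁻¹ = x * p * x⁻¹ * (x * q * x⁻¹) by group, k1, k2, mul_assoc,
      ← mul_assoc t, ← h.tZ q (VR q.2), mul_assoc, h.tt, mul_one, left_eq_mul] at k3
    exact h.t1 k3
  have h4 : V ⊔ C ≤ R ⊓ centralizer {v} := le_inf (sup_le VR h.CR) (sup_le
    (fun w hw => mem_centralizer_singleton_iff.mpr (hc w hw v hv))
    fun c hc => mem_centralizer_singleton_iff.mpr (h.CZ c hc v (VR hv)).symm)
  have h5 : R ⊓ centralizer {v} = R := by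
    obtain ⟨m, hm⟩ := card_dvd_of_le h4
    have h6 := card_le_of_le (inf_le_left : R ⊓ centralizer {v} ≤ R)
    refine eq_of_le_of_card_le inf_le_left ?_
    have h7 : m ≠ 1 := fun e' => xA (eq_of_le_of_card_le h4 (by rw [hm, e', mul_one]) ▸
      ⟨xR, mem_centralizer_singleton_iff.mpr e⟩)
    have h8 : m ≠ 0 := fun e' => (Nat.card_pos (α := ↥(R ⊓ centralizer {v}))).ne' (by rw [hm, e', mul_zero])
    rw [h3, cV, h.cC] at hm
    rw [hm, h.cR]
    omega
  exact v1 (mem_bot.mp (h1 ▸ ⟨hv, h.ZC v (VR hv) fun r hr =>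
    mem_centralizer_singleton_iff.mp (show r ∈ R ⊓ centralizer {v} from h5.symm ▸ hr).2⟩))

end Cfsg.Agent.H7.HS
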