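import Cfsg.Agent.H7.HS.Loc6
import Mathlib.GroupTheory.SpecificGroups.Alternating.Simple

/-!
# Local analysis, part 7: the setting is satisfied
-/

set_option autoImplicit false
set_option maxRecDepth 100000
set_option synthInstance.maxSize 100000

namespace Cfsg.Agent.H7.HS

open Subgroup Equiv Cfsg.Agent.H5 Cfsg.Agent.H7.Asch

variable {G : Type*} [Group G] [Finite G] {t i : G} {R C V Q : Subgroup G} {E : A → G}

theorem Co.omega (c : Co Q E) (VQ : V ≤ Q) (h2 : ∀ v ∈ V, v * v = 1) (cV : Nat.card V = 8) (g : G) :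
    g ∈ V ↔ ∃ q ∈ Q, q * q = g := by
  have h1 : (V : Set G) = E '' ↑(Finset.univ.filter fun v : A => v + v = 0) :=
    Set.eq_of_subset_of_ncard_le (fun v hv => by
      obtain ⟨w, rfl⟩ := (c.mem v).mp (VQ hv)
      exact ⟨w, by simpa using c.eq_one.mp ((c.add w w).trans (h2 _ hv)), rfl⟩)
      ((Set.ncard_image_le (Set.toFinite _)).trans (by
        rw [Set.ncard_coe_finset, ← Nat.card_coe_set_eq, SetLike.coe_sort_coe, cV]; decide +kernel))
  have k : ∀ w : A, w + w = 0 ↔ ∃ v, v + v = w := by decide +kernel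
  rw [← SetLike.mem_coe, h1]
  constructor
  · rintro ⟨w, hw, rfl⟩
    obtain ⟨v, rfl⟩ := (k w).mp (by simpa using hw)
    exact ⟨_, c.mem' v, (c.add v v).symm⟩
  · rintro ⟨q, hq, rfl⟩
    obtain ⟨v, rfl⟩ := (c.mem q).mp hq
    exact ⟨v + v, by simpa using (k _).mpr ⟨v, rfl⟩, c.add v v⟩

theorem RS.cent_le (h : RS t i R C) (hN : centralizer {t} ≤ normalizer (R : Set G))
    (cH : Nat.card (centralizer ({t} : Set G)) = 7680) (hc : ∀ v ∈ V, ∀ w ∈ V, v * w = w * v)
    (h2 : ∀ v ∈ V, v * v = 1) (VR : V ≤ R) (tV : t ∈ V)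
    (cM : Nat.card (normalizer (V : Set G)) = 10752) :
    centralizer (V : Set G) ≤ pCoreIn 2 (normalizer (V : Set G)) := by
  have hC : NormalIn (centralizer (V : Set G)) (normalizer (V : Set G)) :=
    ⟨cent_le_norm V, norm_le_norm_cent V⟩
  have CH : centralizer (V : Set G) ≤ centralizer {t} := centralizer_le (by simpa)
  have RM : R ≤ normalizer (V : Set G) := fun r hr => mem_normalizer_of_conj_mem fun v hv => by
    rcases h.cm r hr v (VR hv) with e | e <;> rw [e]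
    exacts [hv, mul_mem hv tV]
  obtain ⟨m, hm, mt⟩ : ∃ m ∈ normalizer (V : Set G), m * t ≠ t * m := by
    by_contra! hn
    have := card_dvd_of_le (show _ ≤ centralizer {t} from fun m hm =>
      mem_centralizer_singleton_iff.mpr (hn m hm))
    rw [cH, cM] at this
    omega
  have k : ∀ m ∈ normalizer (V : Set G), m * t ≠ t * m →
      ∃ r ∈ R, r * (m * t * m⁻¹) * r⁻¹ = m * t * m⁻¹ * t := fun m hm mt => by
    have hw := conj_mem_of_mem_normalizer hm tV
    by_contra! hn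
    rcases h.inv (h.ZC _ (VR hw) fun r hr => conj_eq_iff_comm.1
      ((h.cm r hr _ (VR hw)).resolve_right (hn r hr))) (h2 _ hw) with e | e
    · exact h.t1 (by simpa using e)
    · exact mt (conj_eq_iff_comm.1 e)
  obtain ⟨r, hr, e1⟩ := k m hm mt
  obtain ⟨r', hr', e2⟩ := k m⁻¹ (inv_mem hm) fun e => mt (Commute.inv_left_iff.mp e)
  have hw := conj_mem_of_mem_normalizer hm tV
  have hρ := mul_mem (RM hr) (mul_mem (mul_mem hm (RM hr')) (inv_mem hm))
  have e3 : m * r' * m⁻¹ * t * (m * r' * m⁻¹)⁻¹ = t * (m * t * m⁻¹) := by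
    calc _ = m * (r' * (m⁻¹ * t * m⁻¹⁻¹) * r'⁻¹) * m⁻¹ := by group
      _ = _ := by rw [e2]; group
  have e4 : m * r' * m⁻¹ * (m * t * m⁻¹) * (m * r' * m⁻¹)⁻¹ = m * t * m⁻¹ := by
    calc _ = m * (r' * t * r'⁻¹) * m⁻¹ := by group
      _ = _ := by rw [conj_eq_iff_comm.2 (h.tZ r' hr')]
  have wt : m * t * m⁻¹ ≠ t := fun e => mt (conj_eq_iff_comm.1 e)
  generalize m * t * m⁻¹ = w at *
  generalize m * r' * m⁻¹ = x at *
  have e5 : r * x * t * (r * x)⁻¹ = w := by
    calc _ = r * (x * t * x⁻¹) * r⁻¹ := by group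
      _ = r * t * r⁻¹ * (r * w * r⁻¹) := by rw [e3]; group
      _ = _ := by rw [e1, conj_eq_iff_comm.2 (h.tZ r hr), hc w hw t tV, sq_cancel h.tt]
  have e6 : r * x * w * (r * x)⁻¹ = w * t := by
    calc _ = r * (x * w * x⁻¹) * r⁻¹ := by group
      _ = _ := by rw [e4, e1]
  generalize r * x = ρ at *
  have h3 : ρ ^ 3 ∈ centralizer {t} := mem_centralizer_singleton_iff.mpr (conj_eq_iff_comm.1 (by
    calc _ = ρ * (ρ * (ρ * t * ρ⁻¹) * ρ⁻¹) * ρ⁻¹ := by rw [pow_three]; group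
      _ = ρ * (w * t) * ρ⁻¹ := by rw [e5, e6]
      _ = ρ * w * ρ⁻¹ * (ρ * t * ρ⁻¹) := by group
      _ = _ := by rw [e5, e6, mul_assoc, ← hc w hw t tV, sq_cancel (h2 w hw)]))
  have h4 : ρ ∉ centralizer {t} := fun e =>
    wt (e5 ▸ conj_eq_iff_comm.2 (mem_centralizer_singleton_iff.mp e))
  have h5 := card_mul_relIndex hC.1
  have h6 : ρ ^ (centralizer (V : Set G)).relIndex (normalizer (V : Set G)) ∈ centralizer {t} :=
    CH (@pow_index_mem _ _ _ hC.subgroupOf_normal ⟨ρ, hρ⟩)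
  generalize (centralizer (V : Set G)).relIndex (normalizer (V : Set G)) = n at h5 h6
  have h7 : n % 3 = 0 := by
    rw [← Nat.div_add_mod n 3, pow_add, pow_mul, mul_mem_cancel_left (pow_mem h3 _)] at h6
    have := Nat.mod_lt n (show 0 < 3 by norm_num)
    interval_cases n % 3
    · rfl
    · exact absurd (by simpa using h6) h4
    · exact absurd ((mul_mem_cancel_left h6).mp (pow_succ ρ 2 ▸ h3)) h4
  obtain ⟨n, rfl⟩ := Nat.dvd_of_mod_eq_zero h7
  have h8 := Nat.dvd_gcd (cH ▸ card_dvd_of_le CH) (Dvd.intro n (show _ = 3584 by rw [cM] at h5; nlinarith))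
  obtain ⟨j, -, hj⟩ := (Nat.dvd_prime_pow Nat.prime_two (m := 9)).mp h8
  exact hC.le_pCoreIn (IsPGroup.of_card hj)

theorem relIndex_five {M : Subgroup G} (cH : Nat.card (centralizer ({t} : Set G)) = 7680)
    (cM : Nat.card M = 10752) (hM : M ≤ normalizer (V : Set G)) (cV : Nat.card V = 8) (tV : t ∈ V)
    (t1 : t ≠ 1) : Nat.card ↥(M ⊓ centralizer {t}) = 1536 := by
  letI : MulAction M G := MulAction.compHom G ((MulAut.conj (G := G)).comp M.subtype)
  have h1 : (centralizer {t}).relIndex M ≤ 7 := by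
    rw [relIndex, show (centralizer {t}).subgroupOf M = MulAction.stabilizer M t from
      Subgroup.ext fun g => mem_centralizer_singleton_iff.trans conj_eq_iff_comm.symm,
      MulAction.index_stabilizer]
    refine (Set.ncard_le_ncard (t := (V : Set G) \ {1}) ?_).trans ?_
    · rintro _ ⟨g, rfl⟩
      exact ⟨conj_mem_of_mem_normalizer (hM g.2) tV, Cj.ne_one ⟨g, rfl⟩ t1⟩
    · rw [Set.ncard_sdiff_singleton_of_mem (one_mem V), ← Nat.card_coe_set_eq, SetLike.coe_sort_coe, cV]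
  have h2 := card_inf_mul_relIndex (centralizer {t}) M
  rw [inf_comm, cM] at h2
  have h3 := Nat.le_of_dvd (by norm_num) (Nat.dvd_gcd (cH ▸ card_dvd_of_le
    (inf_le_right : M ⊓ centralizer {t} ≤ _)) (Dvd.intro _ h2))
  have h4 := Nat.mul_le_mul_left (Nat.card ↥(M ⊓ centralizer {t})) h1
  have h5 : Nat.gcd 7680 10752 = 1536 := by norm_num
  omega

theorem exists_pi {H : Type*} [Group H] [Finite H] {O B : Subgroup H} [O.Normal]
    (e : H ⧸ O ≃* Perm (Fin 5)) (OB : O ≤ B) (hB : B.index = 5) (cB : Nat.card B = 1536) :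
    ∃ π : H →* Perm (Fin 5), Function.Surjective π ∧ π.ker = O ∧ ∀ g, π g 4 = 4 ↔ g ∈ B := by
  obtain ⟨f, hf⟩ : ∃ f : H ⧸ B ≃ Fin 5, f (1 : H) = 4 :=
    ⟨(Finite.equivFinOfCardEq hB).trans (swap (Finite.equivFinOfCardEq hB (1 : H)) 4), by simp⟩
  let π := f.permCongrHom.toMonoidHom.comp (MulAction.toPermHom H (H ⧸ B))
  have hk : π.ker = B.normalCore := by
    rw [normalCore_eq_ker, MonoidHom.ker_comp_of_injective _ _ f.permCongrHom.injective]
  have hs : Function.Surjective (e.toMonoidHom.comp (QuotientGroup.mk' O)) :=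
    e.surjective.comp (QuotientGroup.mk'_surjective O)
  have hO : π.ker = O := by
    refine le_antisymm ?_ (hk ▸ normal_le_normalCore.mpr OB)
    rw [← QuotientGroup.ker_mk' O, ← MonoidHom.ker_comp_of_injective _ e.toMonoidHom e.injective,
      ← Subgroup.map_eq_bot_iff]
    by_contra hn
    have := Normal.map (H := π.ker) inferInstance _ hs
    have h1 := (card_dvd_of_le (Perm.alternatingGroup_le_of_normal (by simp)
      ((nontrivial_iff_ne_bot _).mpr hn))).trans ((card_map_dvd _ _).trans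
      (card_dvd_of_le (hk ▸ B.normalCore_le)))
    rw [cB, nat_card_alternatingGroup] at h1
    simp [Nat.factorial] at h1
  refine ⟨π, MonoidHom.range_eq_top.mp (eq_top_of_card_eq _ ?_), hO, fun g => ?_⟩
  · rw [← index_ker, hO, ← Nat.card_congr e.toEquiv]; rfl
  · show f (g • f.symm 4) = 4 ↔ _
    rw [← hf, symm_apply_apply, f.injective.eq_iff, MulAction.Quotient.smul_mk, smul_eq_mul, mul_one,
      eq_comm, QuotientGroup.eq, inv_one, one_mul]

theorem isoHS_main (tt : t * t = 1) (t1 : t ≠ 1) {Cy E : Subgroup G} (hCy : IsCyclic Cy)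
    (cC : Nat.card Cy = 4) (hR : R = pCoreIn 2 (centralizer {t}))
    (hCle : Cy ≤ R ⊓ centralizer (R : Set G)) (hEle : E ≤ R) (hE : IsExtraspecial 2 E)
    (cE : Nat.card E = 32) (hprod : Cy ⊔ E = R) (hmeet : Cy ⊓ E = E ⊓ centralizer (E : Set G))
    (eH : centralizer ({t} : Set G) ⧸ pCore 2 (centralizer ({t} : Set G)) ≃* Perm (Fin 5))
    (hc : ∀ v ∈ V, ∀ w ∈ V, v * w = w * v) (h2 : ∀ v ∈ V, v * v = 1) (cV : Nat.card V = 8) (VR : V ≤ R)
    (eO : pCore 2 (normalizer (V : Set G)) ≃* Multiplicative A)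
    (eM : normalizer (V : Set G) ⧸ pCore 2 (normalizer (V : Set G)) ≃* GL (Fin 3) (ZMod 2)) :
    Spor.IsoHS G := by
  have RH : NormalIn R (centralizer {t}) := hR ▸ pCoreIn_normalIn _ _
  have tR : t ∈ R := hR ▸ NormalIn.le_pCoreIn (A := zpowers t)
    ⟨zpowers_le.mpr (mem_centralizer_singleton_iff.mpr rfl), le_norm_of_le_cent fun g hg x ⟨k, e⟩ =>
      e ▸ (Commute.zpow_right (mem_centralizer_singleton_iff.mp hg) k).eq.symm⟩
    (IsPGroup.of_card (n := 1) (by rw [Nat.card_zpowers, orderOf_eq_prime ((pow_two t).trans tt) t1]; rfl))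
    (mem_zpowers t)
  obtain ⟨i, h⟩ := exists_RS tt t1 tR (fun r hr => mem_centralizer_singleton_iff.mp (RH.1 hr)) hCy cC hCle
    hEle hE cE hprod hmeet
  have tV := h.mem hc h2 cV VR
  have cH : Nat.card (centralizer ({t} : Set G)) = 7680 := by
    rw [card_eq_card_quotient_mul_card_subgroup (pCore 2 _), ← card_pCoreIn, ← hR, h.cR,
      Nat.card_congr eH.toEquiv]
    simp [Fintype.card_perm, Nat.factorial]
  obtain ⟨M, hM⟩ : ∃ M, M = normalizer (V : Set G) := ⟨_, rfl⟩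
  obtain ⟨Q, hQ⟩ : ∃ Q, Q = pCoreIn 2 M := ⟨_, rfl⟩
  rw [← hM] at eO eM
  have c : Co Q fun v => ((eO.symm (Multiplicative.ofAdd v) : M) : G) :=
    ⟨fun v w => by simp, fun v w e => Multiplicative.ofAdd.injective
      (eO.symm.injective (Subtype.ext (Subtype.ext e))), fun g => by
        rw [hQ]
        exact ⟨fun ⟨x, hx, e⟩ => ⟨(eO ⟨x, hx⟩).toAdd, by simpa using e⟩,
          fun ⟨v, e⟩ => ⟨_, (eO.symm (Multiplicative.ofAdd v)).2, e⟩⟩⟩
  have cM : Nat.card M = 10752 := by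
    rw [card_eq_card_quotient_mul_card_subgroup (pCore 2 _), ← card_pCoreIn, ← hQ, c.card,
      Nat.card_congr eM.toEquiv, card_gl3]
  have hV := c.omega (hQ ▸ NormalIn.le_pCoreIn (hM ▸ ⟨le_normalizer, le_rfl⟩)
    (IsPGroup.of_card (n := 3) cV)) h2 cV
  have CQ : centralizer (V : Set G) ≤ Q := hQ ▸ hM ▸ h.cent_le RH.2 cH hc h2 VR tV (hM ▸ cM)
  have NQ : normalizer (Q : Set G) = M := le_antisymm (fun g hg => hM ▸ mem_normalizer_of_conj_mem
    fun v hv => by
      obtain ⟨q, hq, rfl⟩ := (hV v).mp hv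
      exact (hV _).mpr ⟨_, conj_mem_of_mem_normalizer hg hq, by group⟩) (hQ ▸ (pCoreIn_normalIn _ _).2)
  have cB := relIndex_five cH cM hM.le cV tV t1
  obtain ⟨π, p1, p2, p3⟩ := exists_pi (B := M.subgroupOf (centralizer {t})) eH (fun x hx =>
      hM.ge <| mem_normalizer_of_conj_mem (g := (x : G)) fun v hv => by
        rcases h.cm x (hR ▸ ⟨x, hx, rfl⟩) v (VR hv) with e | e <;> rw [e]
        exacts [hv, mul_mem hv tV])
    (by have := card_inf_mul_relIndex M (centralizer {t}); rw [cB, cH] at this; rw [← relIndex]; omega)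
    (by rw [← cB, ← inf_subgroupOf_right, Nat.card_congr (subgroupOfEquivOfLe inf_le_right).toEquiv])
  have k : ∀ g σ, (g, σ) ∈ ((centralizer ({t} : Set G)).subtype.prod π).range ↔
      ∃ hg : g ∈ centralizer {t}, π ⟨g, hg⟩ = σ := fun g σ =>
    ⟨fun ⟨x, e⟩ => by obtain ⟨rfl, rfl⟩ := Prod.mk.inj e; exact ⟨x.2, rfl⟩,
      fun ⟨hg, e⟩ => ⟨⟨g, hg⟩, Prod.ext rfl e⟩⟩
  have kR : ∀ r, (r, 1) ∈ ((centralizer ({t} : Set G)).subtype.prod π).range ↔ r ∈ R := fun r => by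
    rw [k, hR]
    exact ⟨fun ⟨hg, e⟩ => ⟨_, p2.le e, rfl⟩, fun ⟨x, hx, e⟩ => e ▸ ⟨x.2, p2.ge hx⟩⟩
  generalize ((centralizer ({t} : Set G)).subtype.prod π).range = Γ at k kR
  refine S0.isoHS (t := t) (i := i) (Γ := Γ) (Q := Q) ⟨fun g => ?_, fun σ hσ => ?_, fun σ => ?_, cH, h.ii, tt, t1,
    (kR _).2 (h.CR h.iC), fun r hr => h.CZ i h.iC r ((kR _).1 hr), fun g hg => ?_,
    fun r hr => h.sq r ((kR _).1 hr), fun r r' hr hr' => h.cm r ((kR _).1 hr) r' ((kR _).1 hr'),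
    CQ fun v hv => h.CZ i h.iC v (VR hv), fun q hq => (kR _).2 (VR ((hV _).mpr ⟨q, hq, rfl⟩)),
    fun g hg => CQ fun v hv => ?_, fun g σ hσ => ?_, NQ ▸ cM, _, c⟩
  · simp [k, mem_centralizer_singleton_iff]
  · obtain ⟨_, rfl⟩ := (k _ _).1 hσ
    exact map_one π
  · obtain ⟨x, rfl⟩ := p1 σ
    exact ⟨x, (k _ _).2 ⟨x.2, rfl⟩⟩
  · have hg' := RH.2 (mem_centralizer_singleton_iff.mpr hg)
    have e : g * i * g⁻¹ * (g * i * g⁻¹) = t := by
      rw [← conj_eq_iff_comm.2 hg, ← h.ii]; group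
    rcases h.hC _ (h.ZC _ (conj_mem_of_mem_normalizer hg' (h.CR h.iC)) fun r hr => by
      simpa [mul_assoc] using comm_conj (g := g) (h.CZ i h.iC _ (conj_mem_of_mem_normalizer' hg' hr)))
      with e' | e' | e' | e'
    · exact absurd (by rw [← e, e', one_mul]) t1
    · exact Or.inl e'
    · exact absurd (by rw [← e, e', tt]) t1
    · exact Or.inr e'
  · obtain ⟨q, hq, rfl⟩ := (hV v).mp hv
    exact (conj_eq_iff_comm.1 (hg q hq)).symm
  · obtain ⟨hg, rfl⟩ := (k _ _).1 hσ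
    rw [p3, NQ, mem_subgroupOf]

end Cfsg.Agent.H7.HS
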