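import Cfsg.Agent.H7.HS.Iso
import Cfsg.Agent.H7.HS.Data2
import Cfsg.Agent.H7.HS.TC1
import Cfsg.Agent.H7.HS.TC2

/-!
# A presentation of the Higman–Sims group
-/

set_option autoImplicit false
set_option maxRecDepth 100000

namespace Cfsg.Agent.H7.HS

open Cfsg.Agent.H4 Cfsg.Agent.H4.TC Cfsg.Agent.L0.Cover Equiv

/-- The codes of the letters. -/
def CL : List ℕ := [ci, ciI, ca, caI, cb, cbI, cdd, cdI, cs, cc, cy, cyI, cu, cx, ce, cw, ct]

/-- The code of a letter. -/
def cl (a : ℕ) : ℕ := (cId :: CL).getD a cId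

/-- The inverse table. -/
def ivc : ℕ := 1486373390087298562220836320735856039100928

theorem cl_mem (a : ℕ) : InG 10 1023 MM (cl a) := by
  have h : allB (fun a => force (cl a) fun c => memChk 10 1023 100 mC c (XE.getD a 0)) 18 = true := by
    decide +kernel
  simp only [allB_iff, force_eq] at h
  by_cases ha : a < 18
  · exact memChk_sound (by norm_num) ssM validM (h a ha)
  · rw [show cl a = cl 0 from List.getD_eq_default _ _ (by simpa [CL] using ha)]
    exact memChk_sound (by norm_num) ssM validM (h 0 (by norm_num))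

/-- The letters in the model. -/
noncomputable def ml : ℕ → Perm (Fin 100) := lett (CL.map (pm 10 1023 100))

theorem pm_id : pm 10 1023 100 cId = 1 :=
  RepF.eq_of_forall (by norm_num) (InG.pm (by norm_num) (cl_mem 0)).1 RepF.one
    (eqF_iff.mp (show eqF 10 100 (app 1023 (cl 0)) (fun x => x) = true by decide +kernel))

theorem ml_eq (a : ℕ) : ml a = pm 10 1023 100 (cl a) := by
  rw [ml, lett, ← pm_id, ← List.map_cons, List.getD_map, cl]

theorem ml_rep (a : ℕ) : Rep 10 1023 (cl a) (ml a) := ml_eq a ▸ (InG.pm (by norm_num) (cl_mem a)).1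

theorem ml_mem (a : ℕ) : ml a ∈ MM := ml_eq a ▸ (InG.pm (by norm_num) (cl_mem a)).2

theorem lett_ml : Lett ml ivc := by
  have h : allB (fun a => force (cl a) fun c => force (cl (ivF ivc a)) fun c' =>
      eqF 10 100 (fun x => app 1023 c' (app 1023 c x)) (fun x => x)) 18 = true := by
    decide +kernel
  simp only [allB_iff, force_eq] at h
  exact lett_ok (by decide +kernel) fun a ha =>
    RepF.unique (by norm_num) (ml_rep _) (rep_inv_of_eqF (ml_rep a) (h a ha))

theorem evL_cons {Γ : Type*} [Group Γ] (σ : ℕ → Γ) (a : ℕ) (l : List ℕ) :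
    evL σ (a :: l) = σ a * evL σ l := by simp [evL]

theorem compL_evL (l : List ℕ) {f : ℕ → ℕ} {g : Perm (Fin 100)} (hf : RepF 10 f g) :
    RepF 10 (compL 1023 (l.map cl) f) (g * evL ml l) := by
  induction l generalizing f g with
  | nil => simpa [compL, evL] using hf
  | cons a l ih =>
    rw [evL_cons, ← mul_assoc]
    exact ih (hf.comp (ml_rep a))

/-- The word is trivial in the model. -/
noncomputable def wchk (l : List ℕ) : Bool :=
  compK 1023 (l.map cl) (fun x => x) fun f => eqF 10 100 f fun x => x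

theorem wchk_sound {l : List ℕ} (h : wchk l = true) : evL ml l = 1 := by
  rw [wchk, compK_eq, eqF_iff] at h
  have := RepF.eq_of_forall (by norm_num) (compL_evL l RepF.one) RepF.one h
  rwa [one_mul] at this

section

variable {Γ : Type*} [Group Γ]

/-- The subgroup generated by some letters. -/
def KK (σ : ℕ → Γ) (l : List ℕ) : Subgroup Γ := Subgroup.closure {g | ∃ a ∈ l, σ a = g}

theorem KK_map {Δ : Type*} [Group Δ] (f : Γ →* Δ) (σ : ℕ → Γ) (l : List ℕ) :
    (KK σ l).map f = KK (fun a => f (σ a)) l := by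
  rw [KK, MonoidHom.map_closure, KK]
  congr 1
  ext g
  simp

/-- The letter or its inverse is in the list. -/
noncomputable def inA (l : List ℕ) (a : ℕ) : Bool :=
  bor (anyL (Nat.beq a) l) (anyL (Nat.beq (ivF ivc a)) l)

theorem mem_KK {σ : ℕ → Γ} (h : Lett σ ivc) {l : List ℕ} {a : ℕ} (ha : inA l a = true) :
    σ a ∈ KK σ l := by
  simp only [inA, bor_eq_true, anyL_iff, Nat.beq_eq] at ha
  rcases ha with ⟨b, hb, rfl⟩ | ⟨b, hb, rfl⟩
  · exact Subgroup.subset_closure ⟨a, hb, rfl⟩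
  · rw [← inv_mem_iff, ← h.inv]
    exact Subgroup.subset_closure ⟨_, hb, rfl⟩

theorem lett_big {σ : ℕ → Γ} (h : Lett σ ivc) {a : ℕ} (ha : 18 ≤ a) : σ a = 1 := by
  have e : Nat.shiftRight ivc (Nat.shiftLeft a 3) = 0 := by
    show ivc >>> (a <<< 3) = 0
    rw [Nat.shiftRight_eq_div_pow, Nat.shiftLeft_eq]
    exact Nat.div_eq_of_lt (lt_of_lt_of_le (show ivc < 2 ^ 144 by decide +kernel)
      (Nat.pow_le_pow_right (by norm_num) (by omega)))
  rw [← inv_eq_one, ← h.inv, ivF, e]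
  exact h.zero

theorem evL_mem {σ : ℕ → Γ} {H : Subgroup Γ} {r : List ℕ} (hr : ∀ a ∈ r, σ a ∈ H) : evL σ r ∈ H :=
  H.list_prod_mem (by simpa using hr)

theorem KK_le {σ : ℕ → Γ} {H : Subgroup Γ} {l : List ℕ} (h : ∀ a ∈ l, σ a ∈ H) : KK σ l ≤ H := by
  rw [KK, Subgroup.closure_le]
  rintro _ ⟨a, ha, rfl⟩
  exact h a ha

theorem KK_mono {σ : ℕ → Γ} (h : Lett σ ivc) {l l' : List ℕ} (hl : allL (inA l) l' = true) :
    KK σ l' ≤ KK σ l := KK_le fun a ha => mem_KK h (allL_iff.mp hl a ha)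

theorem card_KK [Finite Γ] {C : TC.Cert} {N n : ℕ} {lv tb rc : Trie} {gl : List ℕ} {rs : List (List ℕ)}
    (h1 : allB C.factChk N = true) (h2 : C.finChk N n lv tb gl = true)
    (h3 : relChk C.ivc rs C.rel rc C.nrel = true) {σ : ℕ → Γ} (hL : Lett σ ivc)
    (hrs : ∀ l ∈ rs, evL σ l = 1) (l l' : List ℕ)
    (h4 : band (Nat.blt 0 n) (band (Nat.beq C.ivc ivc) (band (Nat.beq (Nat.shiftRight C.subs 18) 0)
      (allB (fun a => bor (Nat.beq (Nat.land (Nat.shiftRight C.subs a) 1) 0) (inA l' a)) 18))) = true)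
    (h5 : gl.map (· % 256) = l) : Nat.card (KK σ l) ≤ n * Nat.card (KK σ l') := by
  simp only [band_eq_true, bor_eq_true, allB_iff, Nat.beq_eq, Nat.blt_eq] at h4
  have hL' : Lett σ C.ivc := by rw [h4.2.1]; exact hL
  have := (card_le h1 h2 h3 h4.1 hL' hrs (KK σ l') (forall_subs h4.2.2.1 fun a ha hb =>
    mem_KK hL ((h4.2.2.2 a ha).resolve_left (by rw [hb]; norm_num)))).2
  rwa [show {g | ∃ ak ∈ gl, σ (ak % 256) = g} = {g | ∃ a ∈ l, σ a = g} by
    rw [← h5]; ext g; simp] at this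

end

theorem Grp_eq (l : List ℕ) : Grp 10 1023 100 (l.map cl) = KK ml l := by
  refine le_antisymm (Grp_le (by norm_num) fun c hc => ?_) (KK_le fun a ha =>
    mem_Grp (List.mem_map_of_mem ha) (ml_rep a))
  obtain ⟨a, ha, rfl⟩ := List.mem_map.mp hc
  exact ⟨ml a, Subgroup.subset_closure ⟨a, ha, rfl⟩, ml_rep a⟩

theorem valid_of {Ls : List Level} {l : List ℕ} (h : gensOf Ls = l.map cl) :
    ∀ c ∈ gensOf Ls, InG 10 1023 (⊤ : Subgroup (Perm (Fin 100))) c := fun c hc => by
  obtain ⟨a, -, rfl⟩ := List.mem_map.mp (h ▸ hc)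
  exact (cl_mem a).mono le_top

theorem card_of_chain {Ls : List Level} (hs : SSOK 10 1023 100 Ls) {l : List ℕ}
    (h : gensOf Ls = l.map cl) : Nat.card (KK ml l) = (Ls.map Level.m).prod := by
  rw [← Grp_eq, ← h]
  exact hs.card (by norm_num) (valid_of h)

/-- Letters of `B`. -/
def lB : List ℕ := [1, 3, 5, 7, 9, 10, 14, 15, 16, 17]
/-- Letters of `H`. -/
def lH : List ℕ := [1, 3, 5, 7, 9, 10, 14, 15, 16, 17, 13]
/-- Letters of `M`. -/
def lM : List ℕ := [1, 3, 5, 7, 9, 10, 14, 15, 16, 17, 11]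
/-- Letters of `H ⊓ P`. -/
def lO : List ℕ := [13, 1, 14, 15, 9, 10, 16]
/-- Letters of `P`. -/
def lP : List ℕ := [13, 1, 14, 15, 9, 10, 16, 11]
/-- Letters of a subgroup of `P`. -/
def lQ : List ℕ := [9, 10, 11, 13, 14]
/-- Letters of a symmetric group of degree eight. -/
def lS : List ℕ := [7, 9, 10, 11, 13, 14]
/-- Letters generating everything. -/
def lK : List ℕ := [7, 11, 13, 15, 9, 10, 14]

theorem ssH : SSOK 10 1023 100 hC := SSOK_of_ssChk (by decide +kernel)

theorem card_H0 : Nat.card (KK ml lH) = 7680 :=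
  (card_of_chain ssH rfl).trans (by decide +kernel)

theorem card_M0 : Nat.card (KK ml lM) = 10752 :=
  (card_of_chain (Ls := nC) (SSOK_of_ssChk (by decide +kernel)) rfl).trans (by decide +kernel)

theorem card_O0 : Nat.card (KK ml lO) = 768 :=
  (card_of_chain (Ls := oC) (SSOK_of_ssChk (by decide +kernel)) rfl).trans (by decide +kernel)

theorem card_P0 : Nat.card (KK ml lP) = 11520 :=
  (card_of_chain (Ls := pC) (SSOK_of_ssChk (by decide +kernel)) rfl).trans (by decide +kernel)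

theorem card_Q0 : Nat.card (KK ml lQ) = 1152 :=
  (card_of_chain (Ls := qC) (SSOK_of_ssChk (by decide +kernel)) rfl).trans (by decide +kernel)

theorem KK_lK : KK ml lK = MM := by
  refine le_antisymm (KK_le fun a _ => ml_mem a) ?_
  rw [MM, show gensOf mC = [7, 11, 13, 15].map cl from rfl, Grp_eq]
  exact KK_mono lett_ml (by decide +kernel)

variable {G : Type*} [Group G]

/-- The pairs. -/
noncomputable def pr (g : ℕ → G) (a : ℕ) : G × Perm (Fin 100) := (g a, ml a)

theorem lett_pr {g : ℕ → G} (h : Lett g ivc) : Lett (pr g) ivc :=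
  ⟨Prod.ext h.zero lett_ml.zero, fun a => Prod.ext (h.inv a) (lett_ml.inv a)⟩

theorem evL_pr (g : ℕ → G) (l : List ℕ) : evL (pr g) l = (evL g l, evL ml l) := by
  induction l with
  | nil => rfl
  | cons a l ih => rw [evL_cons, evL_cons, evL_cons, ih]; rfl

/-- The projection to the model is injective. -/
def InjK (g : ℕ → G) (l : List ℕ) : Prop := ∀ k ∈ KK (pr g) l, k.2 = 1 → k = 1

theorem map_snd (g : ℕ → G) (l : List ℕ) :
    (KK (pr g) l).map (MonoidHom.snd _ _) = KK ml l := KK_map _ _ _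

theorem injK_of_card [Finite G] {g : ℕ → G} {l : List ℕ}
    (h : Nat.card (KK (pr g) l) ≤ Nat.card (KK ml l)) : InjK g l := fun k hk h1 => by
  rw [← map_snd g] at h
  have := ((MonoidHom.snd _ _).subgroupMap_surjective (KK (pr g) l)).bijective_of_nat_card_le h
  exact congrArg Subtype.val ((injective_iff_map_eq_one _).mp this.1 ⟨k, hk⟩ (Subtype.ext h1))

theorem InjK.card_le {g : ℕ → G} (hL : Lett g ivc) {l l' : List ℕ} (h : InjK g l)
    (hl : allL (inA l) l' = true) : Nat.card (KK (pr g) l') ≤ Nat.card (KK ml l') := by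
  rw [← map_snd g]
  exact Nat.card_le_card_of_injective ((MonoidHom.snd _ _).subgroupMap (KK (pr g) l'))
    ((injective_iff_map_eq_one _).mpr fun k hk => Subtype.ext
      (h k (KK_mono (lett_pr hL) hl k.2) (congrArg Subtype.val hk)))

theorem InjK.rel {g : ℕ → G} (hL : Lett g ivc) {l r : List ℕ} (h : InjK g l)
    (hr : allL (inA l) r = true) (hw : wchk r = true) : evL (pr g) r = 1 :=
  h _ (evL_mem fun a ha => mem_KK (lett_pr hL) (allL_iff.mp hr a ha))
    (by rw [evL_pr]; exact wchk_sound hw)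

/-- The defining relators. -/
def BR : List (List ℕ) := tQ_rs ++ tB_rs ++
  [[13, 7, 13, 8], [13, 9, 13, 9], [13, 1, 13, 1], [13, 16, 13, 10], [15, 13, 15, 13, 15, 13],
  [11, 1, 12, 1, 3, 6, 6], [11, 3, 12, 1, 4, 4], [11, 5, 12, 4, 5], [11, 11, 11], [11, 9, 12, 10],
  [11, 10, 12, 10, 9], [14, 11, 14, 11], [7, 11, 7, 11, 7, 11, 7, 11, 7, 11, 7, 11, 7, 11],
  [7, 11, 8, 12, 7, 11, 8, 12, 7, 11, 8, 12, 7, 11, 8, 12, 7, 11, 8, 12, 7, 11, 8, 12, 7, 11, 8, 12],
  [11, 13, 1, 11, 13, 1, 11, 13, 1, 11, 13, 1, 11, 13, 1],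
  [2, 12, 15, 13, 12, 13, 2, 12, 15, 13, 12, 13, 2, 12, 15, 13, 12, 13, 2, 12, 15, 13, 12, 13,
    2, 12, 15, 13, 12, 13]]

theorem rels_of {g : ℕ → G} (hL : Lett g ivc) (hb : ∀ r ∈ BR, evL g r = 1) {Ls : List (List ℕ)}
    (hI : ∀ l ∈ Ls, InjK g l) {rs : List (List ℕ)}
    (h : allL (fun r => band (wchk r) (bor (decide (r ∈ BR)) (anyL (fun l => allL (inA l) r) Ls))) rs
      = true) : ∀ r ∈ rs, evL (pr g) r = 1 := fun r hr => by
  have := allL_iff.mp h r hr
  simp only [band_eq_true, bor_eq_true, anyL_iff, decide_eq_true_eq] at this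
  rcases this with ⟨h1, h2 | ⟨l, hl, h2⟩⟩
  · rw [evL_pr, hb r h2, wchk_sound h1]; rfl
  · exact (hI l hl).rel hL h2 h1

theorem exists_hom [Finite G] {g : ℕ → G} (hL : Lett g ivc) (hb : ∀ r ∈ BR, evL g r = 1) :
    ∃ φ : MM →* G, ∀ a, φ ⟨ml a, ml_mem a⟩ = g a := by
  have hL' := lett_pr hL
  have h0 : Nat.card (KK (pr g) []) = 1 := by simp [KK]
  have hQ := card_KK (rs := tQ_rs) (gl := tQ_gl) tQ_h1 tQ_h2 tQ_h3 hL'
    (rels_of hL hb (Ls := []) (by simp) (by decide +kernel))
    [1, 3, 5] [] (by decide +kernel) (by decide +kernel)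
  have hB := card_KK (rs := tB_rs) (gl := tB_gl) tB_h1 tB_h2 tB_h3 hL'
    (rels_of hL hb (Ls := []) (by simp) (by decide +kernel))
    lB [1, 3, 5] (by decide +kernel) (by decide +kernel)
  have hH := card_KK (rs := tH_rs) (gl := tH_gl) tH_h1 tH_h2 tH_h3 hL'
    (rels_of hL hb (Ls := []) (by simp) (by decide +kernel))
    lH lB (by decide +kernel) (by decide +kernel)
  have iH : InjK g lH := injK_of_card (by rw [card_H0]; omega)
  have hM := card_KK (rs := tM_rs) (gl := tM_gl) tM_h1 tM_h2 tM_h3 hL'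
    (rels_of hL hb (Ls := [lH]) (by simpa) (by decide +kernel))
    lM lB (by decide +kernel) (by decide +kernel)
  have iM : InjK g lM := injK_of_card (by rw [card_M0]; omega)
  have hO := iH.card_le hL (l' := lO) (by decide +kernel)
  have hP := card_KK (rs := tP_rs) (gl := tP_gl) tP_h1 tP_h2 tP_h3 hL'
    (rels_of hL hb (Ls := [lH, lM]) (by simpa using ⟨iH, iM⟩) (by decide +kernel))
    lP lO (by decide +kernel) (by decide +kernel)
  rw [card_O0] at hO
  have iP : InjK g lP := injK_of_card (by rw [card_P0]; omega)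
  have hR := iP.card_le hL (l' := lQ) (by decide +kernel)
  rw [card_Q0] at hR
  have hS := card_KK (rs := tS_rs) (gl := tS_gl) tS_h1 tS_h2 tS_h3 hL'
    (rels_of hL hb (Ls := [lH, lM, lP]) (by simpa using ⟨iH, iM, iP⟩) (by decide +kernel))
    lS lQ (by decide +kernel) (by decide +kernel)
  have hK := card_KK (rs := tK_rs) (gl := tK_gl) tK_h1 tK_h2 tK_h3 hL'
    (rels_of hL hb (Ls := [lH, lM, lP]) (by simpa using ⟨iH, iM, iP⟩) (by decide +kernel))
    lK lS (by decide +kernel) (by decide +kernel)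
  have iK : InjK g lK := injK_of_card (by rw [KK_lK, card_MM]; omega)
  have hm : ∀ a, pr g a ∈ KK (pr g) lK := by
    have e : KK (pr g) lH ≤ KK (pr g) lK := KK_le fun a ha => by
      have : ∀ a ∈ lH, ∃ r ∈ [[8, 15, 7, 15, 8, 15, 9], [15, 9, 10], [7, 15, 7, 9, 14], [13, 10, 13],
          [7, 15, 7, 15, 7, 15, 7, 15], [a]], allL (inA lK) r = true ∧
          allL (inA lH) (ivF ivc a :: r) = true ∧ wchk (ivF ivc a :: r) = true := by decide +kernel
      obtain ⟨r, -, h1, h2, h3⟩ := this a ha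
      have h4 := iH.rel hL h2 h3
      rw [evL_cons, hL'.inv, inv_mul_eq_one] at h4
      exact h4 ▸ evL_mem fun b hb => mem_KK hL' (allL_iff.mp h1 b hb)
    intro a
    by_cases ha : a < 18
    · have : ∀ a < 18, a = 0 ∨ inA lH a = true ∨ inA lK a = true := by decide +kernel
      rcases this a ha with rfl | h | h
      · rw [hL'.zero]; exact one_mem _
      · exact e (mem_KK hL' h)
      · exact mem_KK hL' h
    · rw [lett_big hL' (not_lt.mp ha)]; exact one_mem _
  have hs : ∀ m : MM, ∃ k ∈ KK (pr g) lK, k.2 = m := fun m => by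
    have : (m : Perm (Fin 100)) ∈ (KK (pr g) lK).map (MonoidHom.snd _ _) := by
      rw [map_snd, KK_lK]; exact m.2
    exact this
  choose f hf hf' using hs
  have hu : ∀ k ∈ KK (pr g) lK, ∀ m : MM, k.2 = m → f m = k := fun k hk m e =>
    mul_inv_eq_one.mp (iK _ (mul_mem (hf m) (inv_mem hk)) (by simp [hf', e]))
  refine ⟨MonoidHom.mk' (fun m => (f m).1) fun m m' => ?_, fun a => ?_⟩
  · rw [hu _ (mul_mem (hf m) (hf m')) (m * m') (by simp [hf'])]; rfl
  · exact congrArg Prod.fst (hu _ (hm a) _ rfl)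

end Cfsg.Agent.H7.HS
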